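import Mathlib
import Cfsg.Agent.Lib.Helper18.LSDefs

/-! Piece LS-NANISO1 of the S2333 project (helper18): an anisotropic binary quadratic form over a
finite field of characteristic 2 takes each value at most `q + 1` times. -/

set_option autoImplicit false

namespace Cfsg.Agent.Lib.Helper18.LS

open Matrix

universe u

variable {F : Type u} [Field F] {n : ℕ}

-- piece NANISO1
theorem naniso_one [Fintype F] [CharP F 2] (α β : F)
    (h : ∀ p : F × F, f2 α β p = 0 → p = 0) (α' : F) :
    Nat.card {p : F × F | f2 α β p = α'} ≤ Fintype.card F + 1 := by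
  classical
  have sq_inj : ∀ a b : F, a ^ 2 = b ^ 2 → a = b := fun a b hab =>
    frobenius_inj F 2 (by simpa [frobenius_def] using hab)
  let φ : {p : F × F | f2 α β p = α'} → Option F :=
    fun p => if p.1.1 = 0 then none else some (p.1.2 / p.1.1)
  have hφ : Function.Injective φ := by
    rintro ⟨p, hp⟩ ⟨p', hp'⟩ hpp
    have hp0 : f2 α β p = α' := hp
    have hp0' : f2 α β p' = α' := hp'
    apply Subtype.ext
    show p = p'
    by_cases hα : α' = 0
    · rw [h p (hp0.trans hα), h p' (hp0'.trans hα)]
    · have hpp' : (if p.1 = 0 then none else some (p.2 / p.1)) =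
          (if p'.1 = 0 then none else some (p'.2 / p'.1)) := hpp
      by_cases h1 : p.1 = 0
      · by_cases h1' : p'.1 = 0
        · have e1 : p.2 ^ 2 * β = α' := by
            rw [← hp0, f2, h1]
            ring
          have e2 : p'.2 ^ 2 * β = α' := by
            rw [← hp0', f2, h1']
            ring
          have hβ : β ≠ 0 := by
            rintro rfl
            apply hα
            rw [← e1]
            ring
          have h22 : p.2 ^ 2 = p'.2 ^ 2 := mul_right_cancel₀ hβ (e1.trans e2.symm)
          exact Prod.ext (h1.trans h1'.symm) (sq_inj _ _ h22)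
        · rw [if_pos h1, if_neg h1'] at hpp'
          exact absurd hpp' (by simp)
      · by_cases h1' : p'.1 = 0
        · rw [if_neg h1, if_pos h1'] at hpp'
          exact absurd hpp' (by simp)
        · rw [if_neg h1, if_neg h1'] at hpp'
          have hs : p.2 / p.1 = p'.2 / p'.1 := Option.some.inj hpp'
          have e1 : p.1 ^ 2 * (α + p.2 / p.1 + (p.2 / p.1) ^ 2 * β) = α' := by
            rw [← hp0, f2]
            field_simp
          have e2 : p'.1 ^ 2 * (α + p.2 / p.1 + (p.2 / p.1) ^ 2 * β) = α' := by
            rw [hs, ← hp0', f2]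
            field_simp
          have hc : α + p.2 / p.1 + (p.2 / p.1) ^ 2 * β ≠ 0 := by
            intro hc
            apply hα
            rw [← e1, hc, mul_zero]
          have h11 : p.1 = p'.1 := sq_inj _ _ (mul_right_cancel₀ hc (e1.trans e2.symm))
          refine Prod.ext h11 ?_
          have e3 : p.2 = p.2 / p.1 * p.1 := by field_simp
          have e4 : p'.2 = p'.2 / p'.1 * p'.1 := by field_simp
          rw [e3, e4, hs, h11]
  calc Nat.card {p : F × F | f2 α β p = α'} ≤ Nat.card (Option F) :=
        Nat.card_le_card_of_injective φ hφ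
    _ = Fintype.card F + 1 := by rw [Nat.card_eq_fintype_card, Fintype.card_option]

end Cfsg.Agent.Lib.Helper18.LS
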