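import Mathlib
import Cfsg.Agent.Lib.Helper18.SLMDefs

/-!
# Project SLM (helper18, S2332), piece M1TR (helper57)

`mm_finrank`: from the Fourier formula for the trace of `x1 u` at `u = 0`, the dimension is
`d0 + m (q^k - 1)` when all non-zero weights have multiplicity `m`.
`m1_trace`: under `M1`, the trace of `x1 u`, `u ≠ 0`, is `d0 - 1`.
-/

set_option autoImplicit false

namespace Cfsg.Agent.Lib.Helper18.SLM

open Matrix

universe u

variable {F : Type u} [Field F] [Fintype F]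

theorem m1tr_x1_zero {k : ℕ} :
    (x1 (0 : Fin k → F) : Matrix.SpecialLinearGroup (Fin (k + 1)) F) = 1 := by
  apply Subtype.ext
  rw [x1_val]
  have h : (Fin.cons 0 (0 : Fin k → F) : Fin (k + 1) → F) = 0 := by
    funext i
    refine Fin.cases ?_ (fun j => ?_) i <;> simp
  rw [h]
  simp

theorem m1tr_card {k : ℕ} [DecidableEq F] :
    ((Finset.univ : Finset (Fin k → F)).erase 0).card = Fintype.card F ^ k - 1 := by
  rw [Finset.card_erase_of_mem (Finset.mem_univ _), Finset.card_univ, Fintype.card_fun,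
    Fintype.card_fin]

theorem m1tr_sum_zero (ψ : AddChar F ℂ) (hψ : ψ ≠ 1) {k : ℕ} (u : Fin k → F) (hu : u ≠ 0) :
    ∑ l : Fin k → F, ψ (l ⬝ᵥ u) = 0 := by
  classical
  obtain ⟨c, hc⟩ := (AddChar.ne_one_iff).1 hψ
  obtain ⟨i, hi⟩ := Function.ne_iff.1 hu
  have hi' : u i ≠ 0 := hi
  have hl0 : (Pi.single i (c / u i) : Fin k → F) ⬝ᵥ u = c := by
    rw [single_dotProduct, div_mul_cancel₀ _ hi']
  have h1 : ∑ l : Fin k → F, ψ (l ⬝ᵥ u) =
      ψ c * ∑ l : Fin k → F, ψ (l ⬝ᵥ u) := by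
    rw [Finset.mul_sum, ← Equiv.sum_comp (Equiv.addRight (Pi.single i (c / u i) : Fin k → F))
      (fun l => ψ (l ⬝ᵥ u))]
    apply Finset.sum_congr rfl
    intro l _
    rw [Equiv.coe_addRight, add_dotProduct, hl0, AddChar.map_add_eq_mul, mul_comm]
  have h2 : (1 - ψ c) * ∑ l : Fin k → F, ψ (l ⬝ᵥ u) = 0 := by
    rw [sub_mul, one_mul, ← h1, sub_self]
  rcases mul_eq_zero.1 h2 with h3 | h3
  · exact absurd (sub_eq_zero.1 h3).symm hc
  · exact h3

-- piece M1TR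
theorem mm_finrank {V : Type*} [AddCommGroup V] [Module ℂ V] [FiniteDimensional ℂ V]
    (ψ : AddChar F ℂ) {k : ℕ}
    (ρ : Representation ℂ (Matrix.SpecialLinearGroup (Fin (k + 1)) F) V)
    (hT : ∀ u : Fin k → F, LinearMap.trace ℂ V (ρ (x1 u)) =
      ∑ l : Fin k → F, ψ (l ⬝ᵥ u) * (Module.finrank ℂ (wt ψ ρ l) : ℂ))
    (m : ℕ) (hm : ∀ l : Fin k → F, l ≠ 0 → Module.finrank ℂ (wt ψ ρ l) = m) :
    Module.finrank ℂ V = d0 ψ ρ + m * (Fintype.card F ^ k - 1) := by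
  classical
  have h0 := hT 0
  rw [m1tr_x1_zero, map_one, LinearMap.trace_one] at h0
  have h1 : ∑ l : Fin k → F, ψ (l ⬝ᵥ (0 : Fin k → F)) * (Module.finrank ℂ (wt ψ ρ l) : ℂ) =
      ((∑ l : Fin k → F, Module.finrank ℂ (wt ψ ρ l) : ℕ) : ℂ) := by
    rw [Nat.cast_sum]
    apply Finset.sum_congr rfl
    intro l _
    rw [dotProduct_zero, AddChar.map_zero_eq_one, one_mul]
  rw [h1] at h0
  have h2 := Nat.cast_injective h0
  rw [h2, ← Finset.add_sum_erase _ _ (Finset.mem_univ (0 : Fin k → F))]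
  have h3 : ∑ l ∈ (Finset.univ : Finset (Fin k → F)).erase 0, Module.finrank ℂ (wt ψ ρ l) =
      ∑ l ∈ (Finset.univ : Finset (Fin k → F)).erase 0, m := by
    apply Finset.sum_congr rfl
    intro l hl
    exact hm l (Finset.ne_of_mem_erase hl)
  rw [h3, Finset.sum_const, m1tr_card, smul_eq_mul, mul_comm]
  rfl

theorem m1_trace {V : Type*} [AddCommGroup V] [Module ℂ V] [FiniteDimensional ℂ V]
    (ψ : AddChar F ℂ) (hψ : ψ ≠ 1) {k : ℕ}
    (ρ : Representation ℂ (Matrix.SpecialLinearGroup (Fin (k + 1)) F) V)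
    (hT : ∀ u : Fin k → F, LinearMap.trace ℂ V (ρ (x1 u)) =
      ∑ l : Fin k → F, ψ (l ⬝ᵥ u) * (Module.finrank ℂ (wt ψ ρ l) : ℂ))
    (hM : M1 ψ ρ) (u : Fin k → F) (hu : u ≠ 0) :
    LinearMap.trace ℂ V (ρ (x1 u)) = (d0 ψ ρ : ℂ) - 1 := by
  classical
  rw [hT u, ← Finset.add_sum_erase _ _ (Finset.mem_univ (0 : Fin k → F))]
  have h1 : ∑ l ∈ (Finset.univ : Finset (Fin k → F)).erase 0,
      ψ (l ⬝ᵥ u) * (Module.finrank ℂ (wt ψ ρ l) : ℂ) =
      ∑ l ∈ (Finset.univ : Finset (Fin k → F)).erase 0, ψ (l ⬝ᵥ u) := by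
    apply Finset.sum_congr rfl
    intro l hl
    rw [hM l (Finset.ne_of_mem_erase hl), Nat.cast_one, mul_one]
  have h2 := m1tr_sum_zero ψ hψ u hu
  rw [← Finset.add_sum_erase _ _ (Finset.mem_univ (0 : Fin k → F))] at h2
  rw [zero_dotProduct, AddChar.map_zero_eq_one] at h2
  rw [h1, zero_dotProduct, AddChar.map_zero_eq_one, one_mul]
  have h3 : ∑ l ∈ (Finset.univ : Finset (Fin k → F)).erase 0, ψ (l ⬝ᵥ u) = -1 := by
    linear_combination h2
  rw [h3]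
  show (Module.finrank ℂ (wt ψ ρ 0) : ℂ) + -1 = (d0 ψ ρ : ℂ) - 1
  unfold d0
  ring

end Cfsg.Agent.Lib.Helper18.SLM
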