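import Mathlib
import Cfsg.Prelude.Def_Classical
import Cfsg.Agent.Lib.Helper18.UEDefs

/-!
# Project UE (helper18, S2335), piece TINJ: the injection
`{u ≠ 0} × {ℓ | ℓ ⬝ᵥ u₀ = 0} → horb σ K × {u | hq σ K u = hq σ K u₀}`
-/

set_option autoImplicit false

namespace Cfsg.Agent.Lib.Helper18.UE

open Matrix

universe u

variable {F : Type u} [Field F] {m : ℕ}

theorem tinj_shear_fix (u₀ ℓ : Fin m → F) (h : ℓ ⬝ᵥ u₀ = 0) :
    (1 + vecMulVec u₀ ℓ) *ᵥ u₀ = u₀ := by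
  rw [add_mulVec, one_mulVec, vecMulVec_mulVec, h]
  simp

theorem tinj_sl_cancel (g : SpecialLinearGroup (Fin m) F) (x : Fin m → F) :
    ((g⁻¹ : SpecialLinearGroup (Fin m) F) : Matrix (Fin m) (Fin m) F) *ᵥ
      ((g : Matrix (Fin m) (Fin m) F) *ᵥ x) = x := by
  rw [mulVec_mulVec, ← Matrix.SpecialLinearGroup.coe_mul, inv_mul_cancel, Matrix.SpecialLinearGroup.coe_one,
    one_mulVec]

theorem tinj_sl_cancel' (g : SpecialLinearGroup (Fin m) F) (x : Fin m → F) :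
    (g : Matrix (Fin m) (Fin m) F) *ᵥ
      (((g⁻¹ : SpecialLinearGroup (Fin m) F) : Matrix (Fin m) (Fin m) F) *ᵥ x) = x := by
  rw [mulVec_mulVec, ← Matrix.SpecialLinearGroup.coe_mul, mul_inv_cancel, Matrix.SpecialLinearGroup.coe_one,
    one_mulVec]

-- piece TINJ
theorem card_inj_u [Fintype F] (σ : F →+* F) (K : Matrix (Fin m) (Fin m) F)
    (u₀ : Fin m → F)
    (htrans : ∀ u : Fin m → F, u ≠ 0 → ∃ g : SpecialLinearGroup (Fin m) F,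
      (g : Matrix (Fin m) (Fin m) F) *ᵥ u = u₀)
    (hsl : ∀ ℓ : Fin m → F, ℓ ⬝ᵥ u₀ = 0 → ∃ g : SpecialLinearGroup (Fin m) F,
      (g : Matrix (Fin m) (Fin m) F) = 1 + vecMulVec u₀ ℓ)
    (hinj : ∀ ℓ ℓ' : Fin m → F, ℓ ⬝ᵥ u₀ = 0 → ℓ' ⬝ᵥ u₀ = 0 →
      (∀ x : Fin m → F,
        hq σ K ((1 + vecMulVec u₀ ℓ) *ᵥ x) = hq σ K ((1 + vecMulVec u₀ ℓ') *ᵥ x)) →
      ℓ = ℓ') :
    Nat.card {u : Fin m → F | u ≠ 0} * Nat.card {ℓ : Fin m → F | ℓ ⬝ᵥ u₀ = 0} ≤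
      Nat.card (horb σ K) * Nat.card {u : Fin m → F | hq σ K u = hq σ K u₀} := by
  classical
  choose gp hgp using
    fun (u : {u : Fin m → F | u ≠ 0}) => htrans u.1 u.2
  choose τ hτ using
    fun (ℓ : {ℓ : Fin m → F | ℓ ⬝ᵥ u₀ = 0}) => hsl ℓ.1 ℓ.2
  choose gφ hgφ using
    fun (φ : horb σ K) => (show ∃ g : SpecialLinearGroup (Fin m) F,
      (fun x : Fin m → F => hq σ K ((g : Matrix (Fin m) (Fin m) F) *ᵥ x)) = φ.1 from φ.2)
  -- the function attached to (u, ℓ)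
  let φf : ({u : Fin m → F | u ≠ 0} × {ℓ : Fin m → F | ℓ ⬝ᵥ u₀ = 0}) → horb σ K := fun x =>
    ⟨fun y => hq σ K (((τ x.2 * gp x.1 : SpecialLinearGroup (Fin m) F) :
        Matrix (Fin m) (Fin m) F) *ᵥ y), ⟨τ x.2 * gp x.1, rfl⟩⟩
  have hφf : ∀ (x : {u : Fin m → F | u ≠ 0} × {ℓ : Fin m → F | ℓ ⬝ᵥ u₀ = 0}) (y : Fin m → F),
      (φf x).1 y = hq σ K ((1 + vecMulVec u₀ x.2.1) *ᵥ
        ((gp x.1 : Matrix (Fin m) (Fin m) F) *ᵥ y)) := by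
    intro x y
    show hq σ K (((τ x.2 * gp x.1 : SpecialLinearGroup (Fin m) F) :
        Matrix (Fin m) (Fin m) F) *ᵥ y) = _
    rw [Matrix.SpecialLinearGroup.coe_mul, ← mulVec_mulVec, hτ]
  have hg : ∀ (x : {u : Fin m → F | u ≠ 0} × {ℓ : Fin m → F | ℓ ⬝ᵥ u₀ = 0}) (y : Fin m → F),
      hq σ K ((gφ (φf x) : Matrix (Fin m) (Fin m) F) *ᵥ y) = (φf x).1 y := by
    intro x y
    exact congrFun (hgφ (φf x)) y
  have hΩ : ∀ x : {u : Fin m → F | u ≠ 0} × {ℓ : Fin m → F | ℓ ⬝ᵥ u₀ = 0},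
      (gφ (φf x) : Matrix (Fin m) (Fin m) F) *ᵥ x.1.1 ∈
        {u : Fin m → F | hq σ K u = hq σ K u₀} := by
    intro x
    show hq σ K ((gφ (φf x) : Matrix (Fin m) (Fin m) F) *ᵥ x.1.1) = hq σ K u₀
    rw [hg, hφf, hgp, tinj_shear_fix _ _ x.2.2]
  let Φ : ({u : Fin m → F | u ≠ 0} × {ℓ : Fin m → F | ℓ ⬝ᵥ u₀ = 0}) →
      (horb σ K × {u : Fin m → F | hq σ K u = hq σ K u₀}) := fun x => (φf x, ⟨_, hΩ x⟩)
  have hΦ : Function.Injective Φ := by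
    intro x x' hxx
    have h1 : φf x = φf x' := (Prod.mk.inj hxx).1
    have h2 := congrArg Subtype.val (Prod.mk.inj hxx).2
    have h2' : (gφ (φf x) : Matrix (Fin m) (Fin m) F) *ᵥ x.1.1 =
        (gφ (φf x') : Matrix (Fin m) (Fin m) F) *ᵥ x'.1.1 := h2
    rw [← h1] at h2'
    have hu : x.1.1 = x'.1.1 := by
      have := congrArg (fun w => ((gφ (φf x))⁻¹ : SpecialLinearGroup (Fin m) F).1 *ᵥ w) h2'
      simpa only [tinj_sl_cancel] using this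
    have hp : x.1 = x'.1 := Subtype.ext hu
    have hall : ∀ z : Fin m → F,
        hq σ K ((1 + vecMulVec u₀ x.2.1) *ᵥ z) = hq σ K ((1 + vecMulVec u₀ x'.2.1) *ᵥ z) := by
      intro z
      have e := congrFun (congrArg Subtype.val h1)
        (((gp x.1)⁻¹ : SpecialLinearGroup (Fin m) F).1 *ᵥ z)
      rw [hφf, hφf, ← hp, tinj_sl_cancel'] at e
      exact e
    have e1 := hinj _ _ x.2.2 x'.2.2 hall
    exact Prod.ext hp (Subtype.ext e1)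
  have hcard := Nat.card_le_card_of_injective Φ hΦ
  rw [Nat.card_prod, Nat.card_prod] at hcard
  exact hcard

end Cfsg.Agent.Lib.Helper18.UE
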