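import Mathlib
import Cfsg.Prelude.Def_Classical
import Cfsg.Agent.Lib.Helper18.UEDefs
import Cfsg.Agent.Lib.Helper18.UODefs
import Cfsg.Agent.Lib.Helper90.UEBLOCK
import Cfsg.Agent.Lib.Helper61.UENC

/-!
# Project UO (helper18, S2334): piece BLOCK3

Block identities for the odd model: `uB3`, `lB3`, `dB3` (the even elements extended by a
`1 × 1` block).
-/

set_option autoImplicit false

namespace Cfsg.Agent.Lib.Helper18.UE

open Matrix

universe u

variable {F : Type u} [Field F] {m : ℕ}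

-- piece BLOCK3
theorem uB3_add (H H' : Matrix (Fin m) (Fin m) F) : uB3 (H + H') = uB3 H * uB3 H' := by
  unfold uB3
  rw [fromBlocks_multiply, uB_add]
  congr 1
  · rw [Matrix.zero_mul, add_zero]
  · rw [Matrix.mul_zero, Matrix.zero_mul, add_zero]
  · rw [Matrix.zero_mul, Matrix.mul_zero, add_zero]
  · rw [Matrix.zero_mul, Matrix.one_mul, zero_add]

-- piece BLOCK3
theorem uB3_zero : uB3 (0 : Matrix (Fin m) (Fin m) F) = 1 := by
  unfold uB3
  rw [uB_zero]
  exact fromBlocks_one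

/-- the even `GL` version of `dB_mul_uB` -/
theorem block3_dB_mul_uB (σ : F →+* F) (g : GL (Fin m) F) (H : Matrix (Fin m) (Fin m) F) :
    fromBlocks (g : Matrix (Fin m) (Fin m) F) 0 0
        (hconj σ ((g⁻¹ : GL (Fin m) F) : Matrix (Fin m) (Fin m) F)) * uB H =
      uB ((g : Matrix (Fin m) (Fin m) F) * H * hconj σ (g : Matrix (Fin m) (Fin m) F)) *
        fromBlocks (g : Matrix (Fin m) (Fin m) F) 0 0
          (hconj σ ((g⁻¹ : GL (Fin m) F) : Matrix (Fin m) (Fin m) F)) := by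
  have h0 : ((g⁻¹ : GL (Fin m) F) : Matrix (Fin m) (Fin m) F) *
      (g : Matrix (Fin m) (Fin m) F) = 1 := by
    rw [← Units.val_mul, inv_mul_cancel, Units.val_one]
  have h1 : hconj σ (g : Matrix (Fin m) (Fin m) F) *
      hconj σ ((g⁻¹ : GL (Fin m) F) : Matrix (Fin m) (Fin m) F) = 1 := by
    rw [← hconj_mul, h0, hconj_one]
  unfold uB
  rw [fromBlocks_multiply, fromBlocks_multiply]
  congr 1
  · rw [Matrix.mul_one, Matrix.zero_mul, add_zero, Matrix.one_mul, Matrix.mul_zero, add_zero]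
  · rw [Matrix.zero_mul, add_zero, Matrix.mul_zero, zero_add, Matrix.mul_assoc _ _ (hconj σ _),
      h1, Matrix.mul_one]
  · rw [Matrix.zero_mul, Matrix.mul_zero, Matrix.zero_mul, Matrix.mul_zero]
  · rw [Matrix.zero_mul, Matrix.mul_one, zero_add, Matrix.zero_mul, Matrix.one_mul, zero_add]

-- piece BLOCK3
theorem dB3_mul_uB3 (σ : F →+* F) (g : GL (Fin m) F) (H : Matrix (Fin m) (Fin m) F) :
    dB3 σ g * uB3 H =
      uB3 ((g : Matrix (Fin m) (Fin m) F) * H * hconj σ (g : Matrix (Fin m) (Fin m) F)) *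
        dB3 σ g := by
  unfold dB3 uB3
  rw [fromBlocks_multiply, fromBlocks_multiply, block3_dB_mul_uB]
  congr 1
  · simp only [Matrix.mul_zero, Matrix.zero_mul, add_zero]
  · simp only [Matrix.mul_zero, Matrix.zero_mul, add_zero]
  · simp only [Matrix.mul_zero, Matrix.mul_one, Matrix.one_mul]

-- piece BLOCK3
theorem uB3_lB3_ne (hm : 1 ≤ m) :
    uB3 (E0 m F) * lB3 (E0 m F) ≠ lB3 (E0 m F) * uB3 (E0 m F) := by
  intro h
  unfold uB3 lB3 at h
  rw [fromBlocks_multiply, fromBlocks_multiply] at h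
  have h1 := (fromBlocks_inj.mp h).1
  rw [Matrix.zero_mul, add_zero, add_zero] at h1
  exact uB_lB_ne hm h1

end Cfsg.Agent.Lib.Helper18.UE
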