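import Cfsg.Agent.Lib.Helper36.E8Facts
import Cfsg.Agent.Lib.Helper25.ChevBNPair
import Cfsg.Agent.S0311
import Cfsg.Agent.S0314

/-!
# S5751 piece CO (job of helper36): the maximal parabolic `M1` of `E₈(2)` is a coatom

BN-pair bookkeeping with `Helper25.chevBN` and S0311 / S0314.  helper57.
-/

set_option autoImplicit false

namespace Cfsg.Agent.Lib.Helper36.E8C

open Cfsg.Lie Cfsg.Agent.Lib.Helper24 Cfsg.Agent.Lib.Helper25

/-- the `(B, N)`-pair of `E₈(2)` -/
noncomputable def co_P : Cfsg.BNPair E8G := chevBN chevE8 hE8 (F := K2)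

/-- the distinguished generators other than `n_{p_3}` -/
def co_J : Set E8G := {n | ∃ k < 8, k ≠ 3 ∧ n = nn k}

theorem co_nn_S (k : ℕ) (hk : k < 8) : nn k ∈ co_P.S := ⟨k, hk, nn_val k⟩

theorem co_S_eq (s : E8G) (hs : s ∈ co_P.S) : ∃ k < 8, s = nn k := by
  obtain ⟨i, hi, hs⟩ := hs
  exact ⟨i, hi, Subtype.ext (Units.ext (hs.trans (nn_val i).symm))⟩

theorem co_J_sub : co_J ⊆ co_P.S := by
  rintro n ⟨k, hk, -, rfl⟩
  exact co_nn_S k hk

theorem co_B_le_par (J : Set E8G) : co_P.B ≤ co_P.parabolic J := le_sup_left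

theorem co_cl_le_par (J : Set E8G) : Subgroup.closure J ≤ co_P.parabolic J := le_sup_right

theorem co_Pm_eq : Pm = chevE8.borelSubgroup K2 ⊔ Subgroup.closure
    {g : GL chevE8.Idx K2 | ∃ j ∈ Jn, j < chevE8.rank ∧
      (g : Matrix chevE8.Idx chevE8.Idx K2) = chevE8.nMat K2 (chevE8.simple j) 1} := rfl

theorem co_B_le : co_P.B ≤ M1 := by
  intro x hx
  have hx' : (x : GL chevE8.Idx K2) ∈ chevE8.borelSubgroup K2 := Subgroup.mem_subgroupOf.1 hx
  apply Subgroup.mem_subgroupOf.2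
  rw [co_Pm_eq]
  exact Subgroup.mem_sup_left hx'

theorem nn_mem (k : ℕ) (hk : k < 8) (hk3 : k ≠ 3) : nn k ∈ M1 := by
  apply Subgroup.mem_subgroupOf.2
  rw [co_Pm_eq]
  exact Subgroup.mem_sup_right (Subgroup.subset_closure ⟨k, hk3, hk, nn_val k⟩)

theorem co_M1_eq : M1 = co_P.parabolic co_J := by
  apply le_antisymm
  · intro x hx
    have hx' : (x : GL chevE8.Idx K2) ∈ Pm := Subgroup.mem_subgroupOf.1 hx
    have hle : Pm ≤ (co_P.parabolic co_J).map (chevE8.group K2).subtype := by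
      rw [co_Pm_eq]
      apply sup_le
      · intro b hb
        exact ⟨⟨b, borelSubgroup_le_group chevE8 hE8' hb⟩,
          co_B_le_par co_J (Subgroup.mem_subgroupOf.2 hb), rfl⟩
      · rw [Subgroup.closure_le]
        rintro g ⟨j, hj3, hj, hg⟩
        refine ⟨nn j, co_cl_le_par co_J (Subgroup.subset_closure ⟨j, hj, hj3, rfl⟩), ?_⟩
        exact Units.ext ((nn_val j).trans hg.symm)
    obtain ⟨y, hy, hyx⟩ := hle hx'
    have hyx' : y = x := Subtype.ext hyx
    rw [← hyx']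
    exact hy
  · change co_P.B ⊔ Subgroup.closure co_J ≤ M1
    apply sup_le co_B_le
    rw [Subgroup.closure_le]
    rintro n ⟨k, hk, hk3, rfl⟩
    exact nn_mem k hk hk3

theorem co_sub_of_le {J K : Set E8G} (hJ : J ⊆ co_P.S) (hK : K ⊆ co_P.S)
    (h : co_P.parabolic J ≤ co_P.parabolic K) : J ⊆ K := by
  have h1 : co_P.parabolic (J ∪ K) = co_P.parabolic K := by
    apply le_antisymm
    · change co_P.B ⊔ Subgroup.closure (J ∪ K) ≤ co_P.parabolic K
      rw [Subgroup.closure_union]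
      apply sup_le (co_B_le_par K)
      apply sup_le
      · exact le_trans (co_cl_le_par J) h
      · exact co_cl_le_par K
    · change co_P.B ⊔ Subgroup.closure K ≤ co_P.parabolic (J ∪ K)
      apply sup_le (co_B_le_par _)
      exact le_trans (Subgroup.closure_mono Set.subset_union_right) (co_cl_le_par _)
  have h2 := Cfsg.Agent.S0314.result co_P (Set.union_subset hJ hK) hK h1
  intro s hs
  rw [← h2]
  exact Or.inl hs

theorem co_nn3_not_J : nn 3 ∉ co_J := by
  rintro ⟨k, hk, hk3, h⟩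
  have h3 : 3 < chevE8.rank := by rw [rank_eq]; norm_num
  have hk' : k < chevE8.rank := by rw [rank_eq]; exact hk
  have h1 := s_inv_s_not_mem (F := K2) chevE8 hE8 3 k h3 hk' (fun e => hk3 e.symm)
    (nn 3 : GL chevE8.Idx K2) (nn_val 3) (nn k : GL chevE8.Idx K2) (nn_val k)
  apply h1
  rw [← h, inv_mul_cancel]
  exact one_mem _

theorem nn3_not_mem : nn 3 ∉ M1 := by
  intro h
  rw [co_M1_eq] at h
  have hsub : co_J ∪ {nn 3} ⊆ co_P.S := by
    apply Set.union_subset co_J_sub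
    intro s hs
    rw [Set.mem_singleton_iff.1 hs]
    exact co_nn_S 3 (by norm_num)
  have hle : co_P.parabolic (co_J ∪ {nn 3}) ≤ co_P.parabolic co_J := by
    change co_P.B ⊔ Subgroup.closure (co_J ∪ {nn 3}) ≤ co_P.parabolic co_J
    apply sup_le (co_B_le_par co_J)
    rw [Subgroup.closure_le]
    rintro s (hs | hs)
    · exact co_cl_le_par co_J (Subgroup.subset_closure hs)
    · rw [Set.mem_singleton_iff.1 hs]
      exact h
  exact co_nn3_not_J (co_sub_of_le hsub co_J_sub hle (Or.inr rfl))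

theorem M1_isCoatom : IsCoatom M1 := by
  refine ⟨fun h => nn3_not_mem (by rw [h]; exact Subgroup.mem_top _), fun M hM => ?_⟩
  have hB : co_P.B ≤ M := le_trans co_B_le hM.le
  obtain ⟨K, hK, rfl⟩ := Cfsg.Agent.S0311.result co_P M hB
  have hle : co_P.parabolic co_J ≤ co_P.parabolic K := by
    rw [← co_M1_eq]
    exact hM.le
  have hJK : co_J ⊆ K := co_sub_of_le co_J_sub hK hle
  have h3 : nn 3 ∈ K := by
    by_contra h3
    have hKJ : K ⊆ co_J := by
      intro s hs
      obtain ⟨k, hk, rfl⟩ := co_S_eq s (hK hs)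
      by_cases hk3 : k = 3
      · subst hk3
        exact absurd hs h3
      · exact ⟨k, hk, hk3, rfl⟩
    have hKeq : K = co_J := Set.Subset.antisymm hKJ hJK
    rw [hKeq, ← co_M1_eq] at hM
    exact lt_irrefl _ hM
  have hSK : co_P.S ⊆ K := by
    intro s hs
    obtain ⟨k, hk, rfl⟩ := co_S_eq s hs
    by_cases hk3 : k = 3
    · subst hk3
      exact h3
    · exact hJK ⟨k, hk, hk3, rfl⟩
  rw [eq_top_iff, ← co_P.sup_eq_top]
  apply sup_le (co_B_le_par K)
  rw [← co_P.closure_sup]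
  apply sup_le
  · exact le_trans (Subgroup.closure_mono hSK) (co_cl_le_par K)
  · exact le_trans inf_le_left (co_B_le_par K)

theorem nn3_sq : nn 3 * nn 3 ∈ M1 :=
  co_B_le (co_P.sq_mem (nn 3) (co_nn_S 3 (by norm_num)))

theorem xe_mem (r : ℕ) (hr : chevE8.IsPosRoot r) : xe r ∈ M1 := by
  apply Subgroup.mem_subgroupOf.2
  rw [co_Pm_eq]
  have h1 : ((xe r : E8G) : GL chevE8.Idx K2) ∈ chevE8.posUnipotent K2 :=
    Subgroup.subset_closure ⟨r, 1, hr, xe_val r⟩
  have h2 : ((xe r : E8G) : GL chevE8.Idx K2) ∈ chevE8.borelSubgroup K2 :=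
    Subgroup.mem_sup_left h1
  exact Subgroup.mem_sup_left h2

end Cfsg.Agent.Lib.Helper36.E8C
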