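import Mathlib
import Cfsg.Agent.Lib.Helper44.SURegBase

set_option autoImplicit false

/-! S2282 piece FRAME (job of helper44): an explicit Witt frame of `F^(2m+1)` for the standard
hermitian form.  helper57. -/

namespace Cfsg.Agent.Lib.Helper57.SUReg

open Matrix Cfsg.Agent.Lib.Helper7 Cfsg.Agent.Lib.Helper18 Cfsg.Agent.Lib.Helper93
  Cfsg.Agent.Lib.Helper44.SUReg

variable {F : Type*} [Field F] [Fintype F] {q n m : ℕ}

/-- the vector with entry `α` at `2i`, `β` at `2i+1` and `0` elsewhere -/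
def twv (n : ℕ) (i : ℕ) (α β : F) : Fin n → F :=
  fun k => if k.val = 2 * i then α else if k.val = 2 * i + 1 then β else 0

theorem hf_twv_right (hF : Fintype.card F = q ^ 2) (n i : ℕ) (hi : 2 * i + 1 < n) (α β : F)
    (v : Fin n → F) :
    Cfsg.hermForm n F q v (twv n i α β) =
      v ⟨2 * i, by omega⟩ * α ^ q + v ⟨2 * i + 1, hi⟩ * β ^ q := by
  unfold Cfsg.hermForm
  rw [Finset.sum_eq_add (⟨2 * i, by omega⟩ : Fin n) ⟨2 * i + 1, hi⟩]
  · simp [twv]
  · intro h
    simp [Fin.ext_iff] at h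
  · intro c _ hc
    have h1 : c.val ≠ 2 * i := fun h => hc.1 (Fin.ext h)
    have h2 : c.val ≠ 2 * i + 1 := fun h => hc.2 (Fin.ext h)
    simp [twv, h1, h2, herm_q_ne_zero hF]
  · intro h; exact absurd (Finset.mem_univ _) h
  · intro h; exact absurd (Finset.mem_univ _) h

theorem su_frame (hF : Fintype.card F = q ^ 2) (m : ℕ) :
    ∃ (e f : ℕ → Fin (2 * m + 1) → F) (d : Fin (2 * m + 1) → F), WFr q (2 * m + 1) m e f d := by
  classical
  obtain ⟨ω, hω0, hω⟩ := exists_omega hF
  obtain ⟨l, hl⟩ := exists_trace_one hF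
  have hq0 : q ≠ 0 := herm_q_ne_zero hF
  have hωq : ω * ω ^ q = -1 := by rw [← pow_succ']; exact hω
  have hnegq : (-(l * ω)) ^ q = -(l ^ q * ω ^ q) := by rw [herm_neg_pow hF, mul_pow]
  have hsubq : (1 - l) ^ q = 1 - l ^ q := by rw [herm_sub_pow hF, one_pow]
  have ea : ∀ (i j : ℕ) (α β : F) (h : 2 * j < 2 * m + 1),
      twv (2 * m + 1) i α β ⟨2 * j, h⟩ = if i = j then α else 0 := by
    intro i j α β h
    unfold twv
    by_cases hij : i = j
    · subst hij; simp
    · have h1 : 2 * j ≠ 2 * i := by omega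
      have h2 : 2 * j ≠ 2 * i + 1 := by omega
      simp [h1, h2, hij]
  have eb : ∀ (i j : ℕ) (α β : F) (h : 2 * j + 1 < 2 * m + 1),
      twv (2 * m + 1) i α β ⟨2 * j + 1, h⟩ = if i = j then β else 0 := by
    intro i j α β h
    unfold twv
    by_cases hij : i = j
    · subst hij; simp
    · have h1 : 2 * j + 1 ≠ 2 * i := by omega
      have h2 : j ≠ i := fun h => hij h.symm
      simp [h1, h2, hij]
  refine ⟨fun i => twv (2 * m + 1) i 1 ω, fun i => twv (2 * m + 1) i (1 - l) (-(l * ω)),
    Pi.single ⟨2 * m, by omega⟩ 1, ?_⟩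
  constructor
  · -- ee
    intro i j hi hj
    change Cfsg.hermForm (2 * m + 1) F q (twv (2 * m + 1) i 1 ω) (twv (2 * m + 1) j 1 ω) = 0
    rw [hf_twv_right hF _ j (by omega), ea, eb]
    by_cases hij : i = j
    · rw [if_pos hij, if_pos hij, one_pow]; linear_combination hωq
    · simp [hij]
  · -- ff
    intro i j hi hj
    change Cfsg.hermForm (2 * m + 1) F q (twv (2 * m + 1) i (1 - l) (-(l * ω)))
      (twv (2 * m + 1) j (1 - l) (-(l * ω))) = 0
    rw [hf_twv_right hF _ j (by omega), ea, eb, hnegq, hsubq]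
    by_cases hij : i = j
    · rw [if_pos hij, if_pos hij]; linear_combination (l * l ^ q) * hωq - hl
    · simp [hij]
  · -- ef
    intro i j hi hj
    change Cfsg.hermForm (2 * m + 1) F q (twv (2 * m + 1) i 1 ω)
      (twv (2 * m + 1) j (1 - l) (-(l * ω))) = if i = j then 1 else 0
    rw [hf_twv_right hF _ j (by omega), ea, eb, hnegq, hsubq]
    by_cases hij : i = j
    · simp only [if_pos hij]; linear_combination (-(l ^ q)) * hωq
    · simp [hij]
  · -- de
    intro i hi
    change Cfsg.hermForm (2 * m + 1) F q (Pi.single ⟨2 * m, by omega⟩ 1)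
      (twv (2 * m + 1) i 1 ω) = 0
    rw [hf_single_left, ea i m, if_neg (by omega), zero_pow hq0]
  · -- df
    intro i hi
    change Cfsg.hermForm (2 * m + 1) F q (Pi.single ⟨2 * m, by omega⟩ 1)
      (twv (2 * m + 1) i (1 - l) (-(l * ω))) = 0
    rw [hf_single_left, ea i m, if_neg (by omega), zero_pow hq0]
  · -- dd
    rw [hf_single_left, Pi.single_eq_same, one_pow]
  · -- cpl
    intro v hv hd
    have hvd : v ⟨2 * m, by omega⟩ = 0 := by
      rw [hf_single_right hF] at hd
      exact hd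
    have hvi : ∀ i (hi : i < m), v ⟨2 * i, by omega⟩ = 0 ∧ v ⟨2 * i + 1, by omega⟩ = 0 := by
      intro i hi
      obtain ⟨h1, h2⟩ := hv i hi
      change Cfsg.hermForm (2 * m + 1) F q v (twv (2 * m + 1) i 1 ω) = 0 at h1
      change Cfsg.hermForm (2 * m + 1) F q v (twv (2 * m + 1) i (1 - l) (-(l * ω))) = 0 at h2
      rw [hf_twv_right hF _ i (by omega)] at h1 h2
      rw [hnegq, hsubq] at h2
      rw [one_pow] at h1
      have h3 : v ⟨2 * i + 1, by omega⟩ * ω ^ q = 0 := by
        linear_combination (1 - l ^ q) * h1 - h2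
      have h4 : v ⟨2 * i + 1, by omega⟩ = 0 := by
        rcases mul_eq_zero.mp h3 with h | h
        · exact h
        · exact absurd h (pow_ne_zero _ hω0)
      refine ⟨?_, h4⟩
      rw [h4] at h1
      linear_combination h1
    funext k
    obtain ⟨j, hj | hj⟩ := Nat.even_or_odd' k.val
    · by_cases hjm : j < m
      · have : k = ⟨2 * j, by omega⟩ := Fin.ext hj
        rw [this]
        exact (hvi j hjm).1
      · have hk := k.isLt
        have : k = ⟨2 * m, by omega⟩ := Fin.ext (by rw [hj]; simp only; omega)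
        rw [this]
        exact hvd
    · have hk := k.isLt
      have hjm : j < m := by omega
      have : k = ⟨2 * j + 1, by omega⟩ := Fin.ext hj
      rw [this]
      exact (hvi j hjm).2

end Cfsg.Agent.Lib.Helper57.SUReg
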