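import Mathlib
import Cfsg.Agent.Lib.Helper81.AQDefs

/-!
# Project AQ (S3911, helper81): piece QUOT1 (helper57)

The preimage `L` of an abelian subgroup `A` of `G ⧸ M`: `M ≤ L`, `L / M` abelian,
`|L : M| = |A|`, `|L| = |M| |A|`.
-/

set_option autoImplicit false

namespace Cfsg.Agent.Lib.Helper81.AQ

variable {G : Type*} [Group G]

-- piece QUOT1
theorem comap_facts [Finite G] (M : Subgroup G) [M.Normal] (A : Subgroup (G ⧸ M))
    (hA : IsMulCommutative ↥A) : ComapC M A := by
  refine ⟨?_, ?_, ?_, ?_⟩
  · intro x hx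
    rw [Subgroup.mem_comap]
    have h1 : QuotientGroup.mk' M x = 1 := (QuotientGroup.eq_one_iff x).mpr hx
    rw [h1]
    exact A.one_mem
  · intro x hx y hy
    rw [Subgroup.mem_comap] at hx hy
    rw [← QuotientGroup.eq_one_iff]
    have h1 : (⟨QuotientGroup.mk' M x, hx⟩ : A) * ⟨QuotientGroup.mk' M y, hy⟩ =
        ⟨QuotientGroup.mk' M y, hy⟩ * ⟨QuotientGroup.mk' M x, hx⟩ := hA.is_comm.comm _ _
    have h2 : QuotientGroup.mk' M x * QuotientGroup.mk' M y =
        QuotientGroup.mk' M y * QuotientGroup.mk' M x := congrArg Subtype.val h1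
    show QuotientGroup.mk' M (x * y * x⁻¹ * y⁻¹) = 1
    rw [map_mul, map_mul, map_mul, map_inv, map_inv, h2]
    group
  · have hM : (⊥ : Subgroup (G ⧸ M)).comap (QuotientGroup.mk' M) = M := by
      rw [MonoidHom.comap_bot, QuotientGroup.ker_mk']
    have h := Subgroup.relIndex_comap (H := (⊥ : Subgroup (G ⧸ M))) (QuotientGroup.mk' M)
      (A.comap (QuotientGroup.mk' M))
    rw [hM, Subgroup.map_comap_eq_self_of_surjective (QuotientGroup.mk'_surjective M),
      Subgroup.relIndex_bot_left] at h
    exact h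
  · have h1 : (A.comap (QuotientGroup.mk' M)).index = A.index :=
      Subgroup.index_comap_of_surjective A (QuotientGroup.mk'_surjective M)
    have h2 := Subgroup.card_mul_index (A.comap (QuotientGroup.mk' M))
    have h3 := Subgroup.card_mul_index A
    have h4 := Subgroup.card_eq_card_quotient_mul_card_subgroup M
    have h5 : A.index ≠ 0 := Subgroup.index_ne_zero_of_finite
    rw [h1] at h2
    have h6 : Nat.card (A.comap (QuotientGroup.mk' M)) * A.index =
        (Nat.card M * Nat.card A) * A.index := by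
      rw [h2, h4, ← h3]
      ring
    exact Nat.eq_of_mul_eq_mul_right (Nat.pos_of_ne_zero h5) h6

end Cfsg.Agent.Lib.Helper81.AQ
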