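import Mathlib
import Cfsg.Agent.Lib.Helper94.LargeExtra2
import Cfsg.Agent.Lib.Helper40.Extremal
import Cfsg.Agent.Lib.Helper57.PCore

/-!
# A large extraspecial `O_2(C_G(z))` lies in every index-two normal subgroup of `C_G(z)` (helper57)

Setting: `Q = O_2(C_G(z))` is extraspecial with `C_G(Q) ≤ Q`, `|Q| > 8`, `G = O^2(G)`, and
`K ⊴ C_G(z)` of index two.  If `Q ⊄ K` then extremal conjugation (Thompson transfer) produces an
involution `f ∈ Q ∖ K` conjugate to `z`, and the two extraspecial groups `Q` and `O_2(C_G(f))`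
are played off against each other.
-/

set_option autoImplicit false

namespace Cfsg.Agent.Lib.Helper57.Extra

open Cfsg.Agent.Lib.Helper94

variable {G : Type*} [Group G]

/-! ### Small algebra -/

theorem conj_of_comm {r d c : G} (h : r * d * r⁻¹ * d⁻¹ = c) : d * r * d⁻¹ = c⁻¹ * r := by
  rw [← h]; group

theorem comm_of_comm_eq_one {a b : G} (h : a * b * a⁻¹ * b⁻¹ = 1) : a * b = b * a := by
  have := congrArg (fun t => t * b * a) h
  simpa [mul_assoc] using this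

theorem commute_of_comm_eq {w a b : G} (h : w * a * w⁻¹ * a⁻¹ = w * b * w⁻¹ * b⁻¹) :
    w * (b⁻¹ * a) = b⁻¹ * a * w := by
  have h2 := congrArg (fun t => b⁻¹ * w⁻¹ * t * a) h
  have h3 : b⁻¹ * a * w⁻¹ = w⁻¹ * (b⁻¹ * a) := by simpa [mul_assoc] using h2
  have h4 := congrArg (fun t => w * t * w) h3
  simpa [mul_assoc] using h4

theorem conj_eq_self_of_comm {h r : G} (e : h * r = r * h) : h * r * h⁻¹ = r := by
  rw [e, mul_inv_cancel_right]

theorem comm_of_conj_eq_self {h r : G} (e : h * r * h⁻¹ = r) : h * r = r * h := by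
  have := congrArg (fun t => t * h) e
  simpa [mul_assoc] using this

/-! ### Counting -/

theorem ncard_le_of_fibers [Finite G] (X A B : Set G) (c : G → G)
    (hA : ∀ x ∈ X, ∀ y ∈ X, c x = c y → y * x⁻¹ ∈ A) (hB : ∀ x ∈ X, c x ∈ B) :
    X.ncard ≤ A.ncard * B.ncard := by
  classical
  have hXf := Set.toFinite X
  have hAf := Set.toFinite A
  have hBf := Set.toFinite B
  rw [Set.ncard_eq_toFinset_card X hXf, Set.ncard_eq_toFinset_card A hAf,
    Set.ncard_eq_toFinset_card B hBf]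
  have h1 := Finset.card_le_mul_card_image (f := c) hXf.toFinset hAf.toFinset.card ?_
  · refine h1.trans (Nat.mul_le_mul_left _ (Finset.card_le_card ?_))
    intro b hb
    obtain ⟨x, hx, rfl⟩ := Finset.mem_image.mp hb
    exact (Set.Finite.mem_toFinset hBf).mpr (hB x ((Set.Finite.mem_toFinset hXf).mp hx))
  · intro b hb
    obtain ⟨x, hx, rfl⟩ := Finset.mem_image.mp hb
    have hx' := (Set.Finite.mem_toFinset hXf).mp hx
    apply Finset.card_le_card_of_injOn (fun y => y * x⁻¹)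
    · intro y hy
      have hy' := Finset.mem_filter.mp (Finset.mem_coe.mp hy)
      exact Finset.mem_coe.mpr ((Set.Finite.mem_toFinset hAf).mpr
        (hA x hx' y ((Set.Finite.mem_toFinset hXf).mp hy'.1) hy'.2.symm))
    · intro y₁ _ y₂ _ h
      exact mul_right_cancel h

omit [Group G] in
theorem ncard_list_le (l : List G) : ({x | x ∈ l} : Set G).ncard ≤ l.length := by
  classical
  have : ({x | x ∈ l} : Set G) = ↑l.toFinset := by
    ext x; simp
  rw [this, Set.ncard_coe_finset]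
  exact List.toFinset_card_le l

theorem card_le_of_forall_mem_list (P : Subgroup G) (l : List G) (h : ∀ x ∈ P, x ∈ l) :
    Nat.card P ≤ l.length := by
  classical
  have h1 : Nat.card P = (P : Set G).ncard := Nat.card_coe_set_eq (P : Set G)
  rw [h1]
  have h2 : (P : Set G) ⊆ {x | x ∈ l} := fun x hx => h x hx
  have hfin : ({x | x ∈ l} : Set G).Finite := by
    have : ({x | x ∈ l} : Set G) = ↑l.toFinset := by
      ext x; simp
    rw [this]; exact Finset.finite_toSet _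
  exact (Set.ncard_le_ncard h2 hfin).trans (ncard_list_le l)

/-! ### The local structure -/

/-- `Q` is extraspecial with centre `⟨z⟩`, normalized by `C_G(z)`, and every element of `C_G(z)`
acting trivially on `Q / ⟨z⟩` lies in `Q`. -/
structure LX (Q : Subgroup G) (z : G) : Prop where
  ex : ExtraAt Q z
  norm : ∀ h ∈ Subgroup.centralizer ({z} : Set G), ∀ q ∈ Q, h * q * h⁻¹ ∈ Q
  triv : ∀ h ∈ Subgroup.centralizer ({z} : Set G),
    (∀ q ∈ Q, h * q * h⁻¹ = q ∨ h * q * h⁻¹ = z * q) → h ∈ Q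

theorem le_tc (x : G) (N : Subgroup G) (hN : N ≤ Subgroup.centralizer ({x} : Set G))
    (hnorm : ∀ h ∈ Subgroup.centralizer ({x} : Set G), ∀ n ∈ N, h * n * h⁻¹ ∈ N)
    (hp : IsPGroup 2 N) : N ≤ tc x := by
  intro n hn
  refine ⟨⟨n, hN hn⟩, ?_, rfl⟩
  have h1 : (N.subgroupOf (Subgroup.centralizer ({x} : Set G))).Normal := by
    constructor
    intro a ha b
    rw [Subgroup.mem_subgroupOf] at ha ⊢
    simpa using hnorm b b.2 a ha
  have h2 : IsPGroup 2 (N.subgroupOf (Subgroup.centralizer ({x} : Set G))) := hp.comap_subtype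
  exact Cfsg.Agent.Lib.Helper57.le_pCore h1 h2 (Subgroup.mem_subgroupOf.mpr hn)

theorem mem_cz {z a : G} : a ∈ Subgroup.centralizer ({z} : Set G) ↔ a * z = z * a :=
  Subgroup.mem_centralizer_singleton_iff

theorem lx_tc (x : G) (hex : ExtraAt (tc x) x)
    (hsc : ∀ y : G, (∀ v ∈ tc x, y * v = v * y) → y ∈ tc x) : LX (tc x) x := by
  have hxx := hex.sq
  have hnorm : ∀ h ∈ Subgroup.centralizer ({x} : Set G), ∀ q ∈ tc x, h * q * h⁻¹ ∈ tc x := by
    intro h hh q hq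
    have h1 := tc_conj_mem h hq
    have e : h * x * h⁻¹ = x := conj_eq_self_of_comm (mem_cz.mp hh)
    rwa [e] at h1
  refine ⟨hex, hnorm, ?_⟩
  intro h hh hq
  let N : Subgroup G :=
    { carrier := {a | a ∈ Subgroup.centralizer ({x} : Set G) ∧
        ∀ q ∈ tc x, a * q * a⁻¹ = q ∨ a * q * a⁻¹ = x * q}
      mul_mem' := by
        rintro a b ⟨ha, ha'⟩ ⟨hb, hb'⟩
        refine ⟨Subgroup.mul_mem _ ha hb, ?_⟩
        intro q hq
        have hax : a * x * a⁻¹ = x := conj_eq_self_of_comm (mem_cz.mp ha)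
        have e1 : a * b * q * (a * b)⁻¹ = a * (b * q * b⁻¹) * a⁻¹ := by group
        rcases hb' q hq with h1 | h1
        · rw [e1, h1]; exact ha' q hq
        · rw [e1, h1]
          have e2 : a * (x * q) * a⁻¹ = (a * x * a⁻¹) * (a * q * a⁻¹) := by group
          rw [e2, hax]
          rcases ha' q hq with h2 | h2
          · right; rw [h2]
          · left; rw [h2, ← mul_assoc, hxx, one_mul]
      one_mem' := by
        refine ⟨Subgroup.one_mem _, ?_⟩
        intro q _; left; group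
      inv_mem' := by
        rintro a ⟨ha, ha'⟩
        refine ⟨Subgroup.inv_mem _ ha, ?_⟩
        intro q hq
        have hax : a⁻¹ * x * a = x := by
          have := conj_eq_self_of_comm (mem_cz.mp (Subgroup.inv_mem _ ha))
          simpa using this
        rcases ha' q hq with h1 | h1
        · left
          have : a⁻¹ * (a * q * a⁻¹) * a = a⁻¹ * q * a := by rw [h1]
          rw [inv_inv, ← this]; group
        · right
          have h2 : a⁻¹ * (a * q * a⁻¹) * a = a⁻¹ * (x * q) * a := by rw [h1]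
          have h3 : a⁻¹ * (a * q * a⁻¹) * a = q := by group
          have h4 : a⁻¹ * (x * q) * a = (a⁻¹ * x * a) * (a⁻¹ * q * a) := by group
          rw [h3, h4, hax] at h2
          have h5 : x * q = a⁻¹ * q * a := by
            calc x * q = x * (x * (a⁻¹ * q * a)) := by rw [← h2]
              _ = a⁻¹ * q * a := by rw [← mul_assoc, hxx, one_mul]
          rw [inv_inv]; exact h5.symm }
  have hmemN : ∀ a, a ∈ N ↔ (a ∈ Subgroup.centralizer ({x} : Set G) ∧
        ∀ q ∈ tc x, a * q * a⁻¹ = q ∨ a * q * a⁻¹ = x * q) := fun a => Iff.rfl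
  have hNC : N ≤ Subgroup.centralizer ({x} : Set G) := fun a ha => ((hmemN a).mp ha).1
  have hNn : ∀ k ∈ Subgroup.centralizer ({x} : Set G), ∀ n ∈ N, k * n * k⁻¹ ∈ N := by
    intro k hk a ha
    obtain ⟨ha1, ha2⟩ := (hmemN a).mp ha
    rw [hmemN]
    refine ⟨Subgroup.mul_mem _ (Subgroup.mul_mem _ hk ha1) (Subgroup.inv_mem _ hk), ?_⟩
    intro q hq
    have hq' : k⁻¹ * q * k ∈ tc x := by
      have := hnorm k⁻¹ (Subgroup.inv_mem _ hk) q hq
      simpa using this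
    have hkx : k * x * k⁻¹ = x := conj_eq_self_of_comm (mem_cz.mp hk)
    have e1 : k * a * k⁻¹ * q * (k * a * k⁻¹)⁻¹ = k * (a * (k⁻¹ * q * k) * a⁻¹) * k⁻¹ := by group
    rcases ha2 _ hq' with h1 | h1
    · left; rw [e1, h1]; group
    · right; rw [e1, h1]
      have e2 : k * (x * (k⁻¹ * q * k)) * k⁻¹ = (k * x * k⁻¹) * q := by group
      rw [e2, hkx]
  have hNp : IsPGroup 2 N := by
    rintro ⟨a, ha⟩
    obtain ⟨ha1, ha2⟩ := (hmemN a).mp ha
    have hax : a * x * a⁻¹ = x := conj_eq_self_of_comm (mem_cz.mp ha1)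
    have hsq : ∀ v ∈ tc x, a * a * v = v * (a * a) := by
      intro v hv
      have e1 : a * a * v * (a * a)⁻¹ = a * (a * v * a⁻¹) * a⁻¹ := by group
      have e3 : a * a * v * (a * a)⁻¹ = v := by
        rcases ha2 v hv with h1 | h1
        · rw [e1, h1, h1]
        · rw [e1, h1]
          have e2 : a * (x * v) * a⁻¹ = (a * x * a⁻¹) * (a * v * a⁻¹) := by group
          rw [e2, hax, h1, ← mul_assoc, hxx, one_mul]
      exact comm_of_conj_eq_self e3
    have haa : a * a ∈ tc x := hsc _ hsq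
    have h4 : (a * a) * (a * a) = 1 := by
      rcases hex.center _ haa hsq with h1 | h1
      · rw [h1, one_mul]
      · rw [h1, hxx]
    refine ⟨2, ?_⟩
    apply Subtype.ext
    simp only [Subgroup.coe_pow, Subgroup.coe_one]
    rw [← h4]; norm_num [pow_succ, mul_assoc]
  exact le_tc x N hNC hNn hNp ((hmemN h).mpr ⟨hh, hq⟩)

namespace LX

variable {Q : Subgroup G} {z : G}

theorem le_cz (hQ : LX Q z) : Q ≤ Subgroup.centralizer ({z} : Set G) :=
  fun q hq => mem_cz.mpr (hQ.ex.central q hq)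

theorem z_inv (hQ : LX Q z) : z⁻¹ = z := inv_eq_of_mul_eq_one_left hQ.ex.sq

/-- An element of `C_G(z)` acting trivially modulo `z` on `C_Q(f)` and on `e ∉ C_Q(f)` lies in
`Q`. -/
theorem mem_of_triv (hQ : LX Q z) {f e h : G} (hf : f ∈ Q) (he : e ∈ Q)
    (hef : e * f ≠ f * e) (hh : h ∈ Subgroup.centralizer ({z} : Set G))
    (hR : ∀ r ∈ Q, r * f = f * r → h * r * h⁻¹ = r ∨ h * r * h⁻¹ = z * r)
    (hhe : h * e * h⁻¹ = e ∨ h * e * h⁻¹ = z * e) : h ∈ Q := by
  apply hQ.triv h hh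
  intro q hq
  by_cases c : q * f = f * q
  · exact hR q hq c
  · have hef' : ¬ e⁻¹ * f = f * e⁻¹ := by
      intro h1
      apply hef
      have h2 := congrArg (fun t => e * t * e) h1
      simpa [mul_assoc] using h2.symm
    have hr : e⁻¹ * q * f = f * (e⁻¹ * q) := by
      rw [hQ.ex.mul_comm_iff (Q.inv_mem he) hq hf]
      simp [hef', c]
    have hez : e * z = z * e := hQ.ex.central e he
    have h1 : h * q * h⁻¹ = (h * e * h⁻¹) * (h * (e⁻¹ * q) * h⁻¹) := by group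
    rcases hhe with h2 | h2 <;> rcases hR _ (Q.mul_mem (Q.inv_mem he) hq) hr with h3 | h3
    · left; rw [h1, h2, h3]; group
    · right; rw [h1, h2, h3, ← mul_assoc, hez]; group
    · right; rw [h1, h2, h3]; group
    · left; rw [h1, h2, h3]
      calc z * e * (z * (e⁻¹ * q)) = z * (e * z) * (e⁻¹ * q) := by group
        _ = z * (z * e) * (e⁻¹ * q) := by rw [hez]
        _ = (z * z) * q := by group
        _ = q := by rw [hQ.ex.sq, one_mul]

/-- `C_G(C_Q(f)) = ⟨z, f⟩` for an involution `f ∈ Q ∖ ⟨z⟩`. -/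
theorem centralizer_centralizer (hQ : LX Q z) {f h : G} (hf : f ∈ Q)
    (hff : f * f = 1) (hf1 : f ≠ 1) (hfz : f ≠ z)
    (hh : ∀ r ∈ Q, r * f = f * r → h * r = r * h) :
    h = 1 ∨ h = z ∨ h = f ∨ h = z * f := by
  have hex := hQ.ex
  have hzz := hex.sq
  have hhz : h * z = z * h := hh z hex.mem (hex.central f hf).symm
  have hhC : h ∈ Subgroup.centralizer ({z} : Set G) := mem_cz.mpr hhz
  have hnc : ¬ ∀ v ∈ Q, f * v = v * f := fun hc => by
    rcases hex.center f hf hc with h1 | h1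
    · exact hf1 h1
    · exact hfz h1
  push Not at hnc
  obtain ⟨e, he, hfe⟩ := hnc
  have hef : e * f ≠ f * e := fun h1 => hfe h1.symm
  have hez : e * z = z * e := hex.central e he
  have he'Q : h * e * h⁻¹ ∈ Q := hQ.norm h hhC e he
  have ht : ∀ w ∈ Q, w * f = f * w → w * (e⁻¹ * (h * e * h⁻¹)) = e⁻¹ * (h * e * h⁻¹) * w := by
    intro w hw hwf
    have hwh : h * w = w * h := hh w hw hwf
    apply commute_of_comm_eq
    have e1 : w = h * w * h⁻¹ := (conj_eq_self_of_comm hwh).symm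
    have e2 : w * (h * e * h⁻¹) * w⁻¹ * (h * e * h⁻¹)⁻¹ = h * (w * e * w⁻¹ * e⁻¹) * h⁻¹ := by
      calc w * (h * e * h⁻¹) * w⁻¹ * (h * e * h⁻¹)⁻¹
          = (h * w * h⁻¹) * (h * e * h⁻¹) * (h * w * h⁻¹)⁻¹ * (h * e * h⁻¹)⁻¹ := by rw [← e1]
        _ = h * (w * e * w⁻¹ * e⁻¹) * h⁻¹ := by group
    rw [e2]
    rcases hex.comm w hw e he with h1 | h1
    · rw [h1]; group
    · rw [h1]; exact conj_eq_self_of_comm hhz
  have hct := hex.center_centralizer hf hf1 hfz (Q.mul_mem (Q.inv_mem he) he'Q) ht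
  have hsq : (h * e * h⁻¹) * (h * e * h⁻¹) = e * e := by
    have e1 : (h * e * h⁻¹) * (h * e * h⁻¹) = h * (e * e) * h⁻¹ := by group
    rw [e1]
    rcases hex.sqmem e he with h1 | h1
    · rw [h1]; group
    · rw [h1]; exact conj_eq_self_of_comm hhz
  have hfe' : f * e = z * e * f := by
    rcases hex.comm_or hf he with h1 | h1
    · exact absurd h1 hfe
    · exact h1
  have hefsq : e * f * (e * f) = z * (e * e) := by
    calc e * f * (e * f) = e * (f * e) * f := by group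
      _ = e * (z * e * f) * f := by rw [hfe']
      _ = (e * z) * e * (f * f) := by group
      _ = z * (e * e) := by rw [hez, hff]; group
  have hne : e * e ≠ z * (e * e) := by
    intro h1
    apply hex.ne_one
    have h2 : 1 * (e * e) = z * (e * e) := by rw [one_mul]; exact h1
    exact (mul_right_cancel h2).symm
  have hhe : h * e * h⁻¹ = e ∨ h * e * h⁻¹ = z * e := by
    rcases hct with h1 | h1 | h1 | h1
    · left
      have := eq_mul_of_inv_mul_eq h1
      rw [this, mul_one]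
    · right
      have := eq_mul_of_inv_mul_eq h1
      rw [this, hez]
    · exfalso
      have h2 := eq_mul_of_inv_mul_eq h1
      rw [h2, hefsq] at hsq
      exact hne hsq.symm
    · exfalso
      have h2 := eq_mul_of_inv_mul_eq h1
      have h3 : e * (z * f) = z * (e * f) := by rw [← mul_assoc, hez, mul_assoc]
      have huz : e * f * z = z * (e * f) := hex.central _ (Q.mul_mem he hf)
      have h4 : z * (e * f) * (z * (e * f)) = z * (e * e) := by
        calc z * (e * f) * (z * (e * f)) = z * (e * f * z) * (e * f) := by group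
          _ = z * (z * (e * f)) * (e * f) := by rw [huz]
          _ = (z * z) * (e * f * (e * f)) := by group
          _ = z * (e * e) := by rw [hzz, one_mul, hefsq]
      rw [h2, h3, h4] at hsq
      exact hne hsq.symm
  have hhQ : h ∈ Q := hQ.mem_of_triv hf he hef hhC
    (fun r hr hrf => Or.inl (conj_eq_self_of_comm (hh r hr hrf))) hhe
  exact hex.center_centralizer hf hf1 hfz hhQ (fun w hw hwf => (hh w hw hwf).symm)

end LX

/-- `K` is a normal subgroup of index two in `C_G(z)`. -/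
structure KH (K : Subgroup G) (z : G) : Prop where
  le : K ≤ Subgroup.centralizer ({z} : Set G)
  norm : ∀ h ∈ Subgroup.centralizer ({z} : Set G), ∀ k ∈ K, h * k * h⁻¹ ∈ K
  two : ∀ a ∈ Subgroup.centralizer ({z} : Set G), ∀ b ∈ Subgroup.centralizer ({z} : Set G),
    (a * b ∈ K ↔ (a ∈ K ↔ b ∈ K))

theorem KH.comm_mem {K : Subgroup G} {z : G} (hK : KH K z) {a b : G}
    (ha : a ∈ Subgroup.centralizer ({z} : Set G)) (hb : b ∈ Subgroup.centralizer ({z} : Set G)) :
    a * b * a⁻¹ * b⁻¹ ∈ K := by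
  have e : a * b * a⁻¹ * b⁻¹ = (a * b) * (a⁻¹ * b⁻¹) := by group
  rw [e, hK.two _ (Subgroup.mul_mem _ ha hb) _
    (Subgroup.mul_mem _ (Subgroup.inv_mem _ ha) (Subgroup.inv_mem _ hb)),
    hK.two a ha b hb, hK.two _ (Subgroup.inv_mem _ ha) _ (Subgroup.inv_mem _ hb),
    inv_mem_iff, inv_mem_iff]

section steps

variable {Q K : Subgroup G} {z : G}

/-- `z ∈ K`, as `z` is a commutator. -/
theorem z_mem (hQ : LX Q z) (hK : KH K z) (hbig : 8 < Nat.card Q) : z ∈ K := by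
  have hex := hQ.ex
  have h1 : ¬ ∀ x ∈ Q, x ∈ [1, z] := by
    intro h
    have := card_le_of_forall_mem_list Q [1, z] h
    simp at this
    omega
  push Not at h1
  obtain ⟨a, ha, ha'⟩ := h1
  have ha1 : a ≠ 1 := fun h => ha' (by simp [h])
  have haz : a ≠ z := fun h => ha' (by simp [h])
  have hnc : ¬ ∀ v ∈ Q, a * v = v * a := fun hc => by
    rcases hex.center a ha hc with h1 | h1
    · exact ha1 h1
    · exact haz h1
  push Not at hnc
  obtain ⟨b, hb, hab⟩ := hnc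
  have hc := hK.comm_mem (hQ.le_cz ha) (hQ.le_cz hb)
  rcases hex.comm a ha b hb with h1 | h1
  · exact absurd (comm_of_comm_eq_one h1) hab
  · rwa [h1] at hc

/-- Step 1: a noncentral `e` with `C_Q(e) = Q ∩ K`. -/
theorem exists_e [Finite G] (hQ : LX Q z) (hK : KH K z) (hzK : z ∈ K) {w : G} (hw : w ∈ Q)
    (hwK : w ∉ K) :
    ∃ e ∈ Q, e ≠ 1 ∧ e ≠ z ∧ ∀ q ∈ Q, (q * e = e * q ↔ q ∈ K) := by
  have hex := hQ.ex
  obtain ⟨e, he, hec, hew⟩ := hex.exists_centralizing_subgroup (Q ⊓ K) inf_le_left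
    ⟨hex.mem, hzK⟩ hw (fun h => hwK h.2)
  have hew' : e * w ≠ w * e := by
    intro h1
    apply hex.ne_one
    rw [conj_eq_self_of_comm h1] at hew
    have h2 : 1 * w = z * w := by rw [one_mul]; exact hew
    exact (mul_right_cancel h2).symm
  have heK : e ∈ K := by
    by_contra heK
    have h1 : e⁻¹ * w ∈ K := by
      rw [hK.two _ (Subgroup.inv_mem _ (hQ.le_cz he)) _ (hQ.le_cz hw), inv_mem_iff]
      simp [heK, hwK]
    have h2 := hec _ ⟨Q.mul_mem (Q.inv_mem he) hw, h1⟩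
    apply hew'
    have h3 : w = e⁻¹ * w * e := by rw [← h2]; group
    calc e * w = e * (e⁻¹ * w * e) := by rw [← h3]
      _ = w * e := by group
  refine ⟨e, he, ?_, ?_, ?_⟩
  · intro h1; apply hew'; rw [h1, one_mul, mul_one]
  · intro h1; apply hew'; rw [h1]; exact (hex.central w hw).symm
  · intro q hq
    constructor
    · intro hqe
      by_contra hqK
      have h1 : w⁻¹ * q ∈ K := by
        rw [hK.two _ (Subgroup.inv_mem _ (hQ.le_cz hw)) _ (hQ.le_cz hq), inv_mem_iff]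
        simp [hqK, hwK]
      have h2 := hec _ ⟨Q.mul_mem (Q.inv_mem hw) hq, h1⟩
      apply hew'
      -- e commutes with `w⁻¹ q` and `q`, hence with `w`
      have h3 : w = q * (w⁻¹ * q)⁻¹ := by group
      have h4 : e * (w⁻¹ * q)⁻¹ = (w⁻¹ * q)⁻¹ * e := by
        have := congrArg (fun t => (w⁻¹ * q)⁻¹ * t * (w⁻¹ * q)⁻¹) h2
        simpa [mul_assoc] using this.symm
      calc e * w = e * (q * (w⁻¹ * q)⁻¹) := by rw [← h3]
        _ = (e * q) * (w⁻¹ * q)⁻¹ := by group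
        _ = (q * e) * (w⁻¹ * q)⁻¹ := by rw [hqe]
        _ = q * (e * (w⁻¹ * q)⁻¹) := by group
        _ = q * ((w⁻¹ * q)⁻¹ * e) := by rw [h4]
        _ = (q * (w⁻¹ * q)⁻¹) * e := by group
        _ = w * e := by rw [← h3]
    · intro hqK
      exact (hec q ⟨hq, hqK⟩).symm

/-- `C_G(z)` fixes `e` modulo `z`. -/
theorem conj_e (hQ : LX Q z) (hK : KH K z) {e : G} (he : e ∈ Q) (he1 : e ≠ 1)
    (hez : e ≠ z) (hiff : ∀ q ∈ Q, (q * e = e * q ↔ q ∈ K)) :
    ∀ d ∈ Subgroup.centralizer ({z} : Set G), d * e * d⁻¹ = e ∨ d * e * d⁻¹ = z * e := by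
  intro d hd
  have hex := hQ.ex
  have heK : e ∈ K := (hiff e he).mp rfl
  have he'Q : d * e * d⁻¹ ∈ Q := hQ.norm d hd e he
  have hc : ∀ w ∈ Q, w * e = e * w → w * (d * e * d⁻¹) = d * e * d⁻¹ * w := by
    intro w hw hwe
    have hwK : w ∈ K := (hiff w hw).mp hwe
    have hd' : d⁻¹ ∈ Subgroup.centralizer ({z} : Set G) := Subgroup.inv_mem _ hd
    have h1 : d⁻¹ * w * d ∈ Q := by simpa using hQ.norm d⁻¹ hd' w hw
    have h2 : d⁻¹ * w * d ∈ K := by simpa using hK.norm d⁻¹ hd' w hwK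
    have h3 := (hiff _ h1).mpr h2
    have h4 := congrArg (fun t => d * t * d⁻¹) h3
    simpa [mul_assoc] using h4
  rcases hex.center_centralizer he he1 hez he'Q hc with h1 | h1 | h1 | h1
  · exfalso; apply he1
    have : e = d⁻¹ * (d * e * d⁻¹) * d := by group
    rw [this, h1]; group
  · exfalso; apply hez
    have : e = d⁻¹ * (d * e * d⁻¹) * d := by group
    rw [this, h1]
    have := conj_eq_self_of_comm (mem_cz.mp (Subgroup.inv_mem _ hd))
    simpa using this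
  · exact Or.inl h1
  · exact Or.inr h1

/-- Step 2: an involution of `Q` outside `K`. -/
theorem exists_invol (hQ : LX Q z) (hK : KH K z) (hbig : 8 < Nat.card Q) {w : G}
    (hw : w ∈ Q) (hwK : w ∉ K) {e : G} (he : e ∈ Q) (he1 : e ≠ 1)
    (hez : e ≠ z) (hiff : ∀ q ∈ Q, (q * e = e * q ↔ q ∈ K)) :
    ∃ f ∈ Q, f ∉ K ∧ f * f = 1 := by
  by_contra hcon
  push Not at hcon
  have hex := hQ.ex
  have hsq : ∀ y ∈ Q, y ∉ K → y * y = z := by
    intro y hy hyK
    rcases hex.sqmem y hy with h1 | h1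
    · exact absurd h1 (hcon y hy hyK)
    · exact h1
  have hww := hsq w hw hwK
  have hinv : ∀ d ∈ Q, d ∈ K → w * d = d⁻¹ * w := by
    intro d hd hdK
    have h1 : w * d ∉ K := by
      rw [hK.two _ (hQ.le_cz hw) _ (hQ.le_cz hd)]
      simp [hwK, hdK]
    have h2 := hsq _ (Q.mul_mem hw hd) h1
    rw [← hww] at h2
    have h3 := congrArg (fun t => d⁻¹ * w⁻¹ * t) h2
    simpa [mul_assoc] using h3
  have hab : ∀ d₁ ∈ Q, d₁ ∈ K → ∀ d₂ ∈ Q, d₂ ∈ K → d₁ * d₂ = d₂ * d₁ := by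
    intro d₁ h1 h1K d₂ h2 h2K
    have e1 := hinv d₁ h1 h1K
    have e2 := hinv d₂ h2 h2K
    have e3 := hinv (d₁ * d₂) (Q.mul_mem h1 h2) (K.mul_mem h1K h2K)
    have e4 : w * (d₁ * d₂) = d₁⁻¹ * d₂⁻¹ * w := by
      calc w * (d₁ * d₂) = (w * d₁) * d₂ := by group
        _ = d₁⁻¹ * (w * d₂) := by rw [e1]; group
        _ = d₁⁻¹ * d₂⁻¹ * w := by rw [e2]; group
    rw [e4] at e3
    have e5 : d₁⁻¹ * d₂⁻¹ = (d₁ * d₂)⁻¹ := mul_right_cancel e3
    have e6 : (d₂ * d₁)⁻¹ = (d₁ * d₂)⁻¹ := by rw [← e5]; group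
    exact (inv_injective e6).symm
  have hfour : ∀ d ∈ Q, d ∈ K → d = 1 ∨ d = z ∨ d = e ∨ d = z * e := by
    intro d hd hdK
    apply hex.center_centralizer he he1 hez hd
    intro w' hw' hw'e
    exact hab w' hw' ((hiff w' hw').mp hw'e) d hd hdK
  have hall : ∀ q ∈ Q, q ∈ [1, z, e, z * e, w * 1, w * z, w * e, w * (z * e)] := by
    intro q hq
    by_cases hqK : q ∈ K
    · rcases hfour q hq hqK with h1 | h1 | h1 | h1 <;> simp [h1]
    · have h1 : w⁻¹ * q ∈ K := by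
        rw [hK.two _ (Subgroup.inv_mem _ (hQ.le_cz hw)) _ (hQ.le_cz hq), inv_mem_iff]
        simp [hqK, hwK]
      have h2 : q = w * (w⁻¹ * q) := by group
      rcases hfour _ (Q.mul_mem (Q.inv_mem hw) hq) h1 with h3 | h3 | h3 | h3 <;>
        · rw [h2, h3]; simp
  have := card_le_of_forall_mem_list Q _ hall
  simp at this
  omega

end steps

section transfer

variable {Q K : Subgroup G} {z : G}

/-- A Sylow 2-subgroup containing `Q` centralizes `z`. -/
theorem sylow_le_centralizer [Finite G] (hQ : LX Q z) (S : Sylow 2 G)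
    (hQS : Q ≤ (S : Subgroup G)) : ∀ s ∈ (S : Subgroup G), s * z = z * s := by
  have : Fact (Nat.Prime 2) := ⟨Nat.prime_two⟩
  have hex := hQ.ex
  have hzS : z ∈ (S : Subgroup G) := hQS hex.mem
  have : Nontrivial ↥(S : Subgroup G) :=
    ⟨⟨⟨z, hzS⟩, 1, fun h => hex.ne_one (congrArg Subtype.val h)⟩⟩
  have : Nontrivial ↥(Subgroup.center ↥(S : Subgroup G)) := S.isPGroup'.center_nontrivial
  obtain ⟨c, hc1⟩ := exists_ne (1 : Subgroup.center ↥(S : Subgroup G))
  have hcc : ∀ s : ↥(S : Subgroup G), s * c.1 = c.1 * s := Subgroup.mem_center_iff.mp c.2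
  have hcG : ∀ s ∈ (S : Subgroup G), s * (c.1.1 : G) = (c.1.1 : G) * s := by
    intro s hs
    exact congrArg Subtype.val (hcc ⟨s, hs⟩)
  have hcz : (c.1.1 : G) ∈ Subgroup.centralizer ({z} : Set G) := mem_cz.mpr (hcG z hzS).symm
  have hcQ : (c.1.1 : G) ∈ Q := by
    apply hQ.triv _ hcz
    intro q hq
    left
    exact conj_eq_self_of_comm (hcG q (hQS hq)).symm
  have hc1' : (c.1.1 : G) ≠ 1 := by
    intro h
    apply hc1
    apply Subtype.ext
    apply Subtype.ext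
    exact h
  rcases hex.center _ hcQ (fun v hv => (hcG v (hQS hv)).symm) with h1 | h1
  · exact absurd h1 hc1'
  · intro s hs
    rw [← h1]; exact hcG s hs

theorem pResidual_le_ker' {X Y : Type*} [Group X] [Group Y] (hY : IsPGroup 2 Y) (f : X →* Y) :
    Cfsg.pResidual 2 X ≤ f.ker := by
  rw [Cfsg.pResidual, Subgroup.closure_le]
  intro g hg
  have hg' : Nat.Coprime (orderOf g) 2 := hg
  obtain ⟨k, hk⟩ := hY (f g)
  have h1 : orderOf (f g) ∣ 2 ^ k := orderOf_dvd_of_pow_eq_one hk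
  have h2 : orderOf (f g) ∣ orderOf g := orderOf_map_dvd f g
  have h3 : Nat.Coprime (orderOf g) (2 ^ k) := Nat.Coprime.pow_right k hg'
  have h4 : orderOf (f g) = 1 := Nat.eq_one_of_dvd_coprimes h3 h2 h1
  exact orderOf_eq_one_iff.1 h4

/-- Steps 3–5: extremal conjugation gives a conjugate of `z` in `Q ∖ K`. -/
theorem exists_conj_central [Finite G] (hres : Cfsg.pResidual 2 G = ⊤) (hQ : LX Q z)
    (hQp : IsPGroup 2 Q) (hK : KH K z) (hzK : z ∈ K) {f : G} (hfQ : f ∈ Q) (hfK : f ∉ K)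
    (hff : f * f = 1) :
    ∃ k : G, k * z * k⁻¹ ∈ Q ∧ k * z * k⁻¹ ∉ K := by
  have : Fact (Nat.Prime 2) := ⟨Nat.prime_two⟩
  have hex := hQ.ex
  obtain ⟨S, hQS⟩ := hQp.exists_le_sylow
  have hSz := sylow_le_centralizer hQ S hQS
  have hSC : (S : Subgroup G) ≤ Subgroup.centralizer ({z} : Set G) :=
    fun s hs => mem_cz.mpr (hSz s hs)
  have hTS : (S : Subgroup G) ⊓ K ≤ (S : Subgroup G) := inf_le_left
  have hTn : (((S : Subgroup G) ⊓ K).subgroupOf (S : Subgroup G)).Normal := by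
    constructor
    intro a ha b
    rw [Subgroup.mem_subgroupOf] at ha ⊢
    refine ⟨(b * a * b⁻¹).2, ?_⟩
    simpa using hK.norm b (hSC b.2) a ha.2
  have := hTn
  have hfS : f ∈ (S : Subgroup G) := hQS hfQ
  have hfT : f ∉ (S : Subgroup G) ⊓ K := fun h => hfK h.2
  have hf1 : f ≠ 1 := fun h => hfK (h ▸ K.one_mem)
  have hfz : f ≠ z := fun h => hfK (h ▸ hzK)
  have hford : orderOf f = 2 := orderOf_eq_prime (by rw [pow_two]; exact hff) hf1
  have hker : ∀ s : ↥(S : Subgroup G),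
      QuotientGroup.mk' (((S : Subgroup G) ⊓ K).subgroupOf (S : Subgroup G)) s = 1 ↔
        (s : G) ∈ (S : Subgroup G) ⊓ K := by
    intro s
    rw [QuotientGroup.mk'_apply, QuotientGroup.eq_one_iff, Subgroup.mem_subgroupOf]
  have hall : ∀ a : ↥(S : Subgroup G) ⧸ ((S : Subgroup G) ⊓ K).subgroupOf (S : Subgroup G),
      a = 1 ∨ a = QuotientGroup.mk' (((S : Subgroup G) ⊓ K).subgroupOf (S : Subgroup G))
        ⟨f, hfS⟩ := by
    intro a
    obtain ⟨s, rfl⟩ := QuotientGroup.mk'_surjective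
      (((S : Subgroup G) ⊓ K).subgroupOf (S : Subgroup G)) a
    by_cases hs : (s : G) ∈ K
    · left
      exact (hker s).mpr ⟨s.2, hs⟩
    · right
      have h0 : (s : G)⁻¹ * f ∈ K := by
        rw [hK.two _ (Subgroup.inv_mem _ (hSC s.2)) _ (hSC hfS), inv_mem_iff]
        simp [hs, hfK]
      have h1 : ((s⁻¹ * ⟨f, hfS⟩ : ↥(S : Subgroup G)) : G) ∈ (S : Subgroup G) ⊓ K :=
        Subgroup.mem_inf.mpr ⟨(s⁻¹ * ⟨f, hfS⟩ : ↥(S : Subgroup G)).2, h0⟩
      have h2 := (hker _).mpr h1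
      rw [map_mul, map_inv] at h2
      exact (inv_mul_eq_one.mp h2)
  have : IsCyclic (↥(S : Subgroup G) ⧸ ((S : Subgroup G) ⊓ K).subgroupOf (S : Subgroup G)) := by
    refine ⟨⟨QuotientGroup.mk' (((S : Subgroup G) ⊓ K).subgroupOf (S : Subgroup G)) ⟨f, hfS⟩,
      fun a => ?_⟩⟩
    rcases hall a with h | h
    · exact ⟨0, by rw [h]; exact zpow_zero _⟩
    · exact ⟨1, by rw [h]; exact zpow_one _⟩
  let _ : CommGroup (↥(S : Subgroup G) ⧸ ((S : Subgroup G) ⊓ K).subgroupOf (S : Subgroup G)) :=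
    IsCyclic.commGroup
  have hA2 : IsPGroup 2
      (↥(S : Subgroup G) ⧸ ((S : Subgroup G) ⊓ K).subgroupOf (S : Subgroup G)) :=
    S.isPGroup'.to_quotient _
  have htr : MonoidHom.transfer
      (QuotientGroup.mk' (((S : Subgroup G) ⊓ K).subgroupOf (S : Subgroup G))) f = 1 := by
    have hle := pResidual_le_ker' hA2 (MonoidHom.transfer
      (QuotientGroup.mk' (((S : Subgroup G) ⊓ K).subgroupOf (S : Subgroup G))))
    rw [hres] at hle
    exact MonoidHom.mem_ker.mp (hle (Subgroup.mem_top f))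
  obtain ⟨g, hg1, -, hg2⟩ := Cfsg.Agent.Lib.Helper40.extremal_conjugation S
    ((S : Subgroup G) ⊓ K) hTS hTn
    (QuotientGroup.mk' (((S : Subgroup G) ⊓ K).subgroupOf (S : Subgroup G))) hker f hford hfS
    (fun a _ => hall a) hfT htr
  have hcent : ∀ r ∈ Q, r * f = f * r → g⁻¹ * z * g * r = r * (g⁻¹ * z * g) := by
    intro r hr hrf
    have h0 : r ∈ (S : Subgroup G) ⊓ Subgroup.centralizer {f} :=
      ⟨hQS hr, Subgroup.mem_centralizer_singleton_iff.mpr hrf⟩
    have h1 : g * r * g⁻¹ ∈ (S : Subgroup G) :=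
      (hg2 (Subgroup.mem_map_of_mem (MulAut.conj g).toMonoidHom h0)).1
    have h2 := hSz _ h1
    have h3 := congrArg (fun t => g⁻¹ * t * g) h2
    simpa [mul_assoc] using h3.symm
  have hgK : g * f * g⁻¹ ∈ K := hg1.2
  rcases hQ.centralizer_centralizer hfQ hff hf1 hfz hcent with h1 | h1 | h1 | h1
  · exfalso
    apply hex.ne_one
    have : z = g * (g⁻¹ * z * g) * g⁻¹ := by group
    rw [this, h1]; group
  · exfalso
    apply hfK
    have hgC : g⁻¹ ∈ Subgroup.centralizer ({z} : Set G) := by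
      rw [mem_cz]
      have h2 := congrArg (fun t => t * g⁻¹) h1
      simpa [mul_assoc] using h2
    have := hK.norm g⁻¹ hgC _ hgK
    have e : g⁻¹ * (g * f * g⁻¹) * g⁻¹⁻¹ = f := by group
    rwa [e] at this
  · refine ⟨g⁻¹, ?_, ?_⟩
    · rw [inv_inv, h1]; exact hfQ
    · rw [inv_inv, h1]; exact hfK
  · refine ⟨g⁻¹, ?_, ?_⟩
    · rw [inv_inv, h1]; exact Q.mul_mem hex.mem hfQ
    · rw [inv_inv, h1, hK.two _ (hQ.le_cz hex.mem) _ (hQ.le_cz hfQ)]
      simp [hzK, hfK]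

end transfer

section final

variable {Q P K : Subgroup G} {z f : G}

/-- Step 6: the extraspecial groups `Q = O_2(C_G(z))` and `P = O_2(C_G(f))`, for `f ∈ Q ∖ K`
conjugate to `z`, cannot coexist. -/
theorem final [Finite G] (hQ : LX Q z) (hP : LX P f) (hK : KH K z) (hzK : z ∈ K)
    (hfQ : f ∈ Q) (hfK : f ∉ K) {e : G} (he : e ∈ Q) (hef : e * f ≠ f * e)
    (hCe : ∀ d ∈ Subgroup.centralizer ({z} : Set G), d * e * d⁻¹ = e ∨ d * e * d⁻¹ = z * e)
    (hbig : 8 < Nat.card P) : False := by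
  have hexQ := hQ.ex
  have hexP := hP.ex
  have hzz := hexQ.sq
  have hzinv : z⁻¹ = z := hQ.z_inv
  have hfinv : f⁻¹ = f := hP.z_inv
  have hfz : f * z = z * f := hexQ.central f hfQ
  have hzCf : z ∈ Subgroup.centralizer ({f} : Set G) := mem_cz.mpr hfz.symm
  have hfCz : f ∈ Subgroup.centralizer ({z} : Set G) := mem_cz.mpr hfz
  have hf1 : f ≠ 1 := hexP.ne_one
  have hz1 : z ≠ 1 := hexQ.ne_one
  have hzf : z ≠ f := fun h => hfK (h ▸ hzK)
  have hfzK : f * z ∉ K := by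
    rw [hK.two _ hfCz _ (hQ.le_cz hexQ.mem)]; simp [hzK, hfK]
  have ha : ∀ x ∈ Q, x * f = f * x → ∀ d ∈ P, d * z = z * d →
      x * d * x⁻¹ * d⁻¹ ∈ Q ∧ x * d * x⁻¹ * d⁻¹ ∈ P ∧ x * d * x⁻¹ * d⁻¹ ∈ K := by
    intro x hx hxf d hd hdz
    refine ⟨?_, ?_, ?_⟩
    · have h1 := hQ.norm d (mem_cz.mpr hdz) x⁻¹ (Q.inv_mem hx)
      have e1 : x * d * x⁻¹ * d⁻¹ = x * (d * x⁻¹ * d⁻¹) := by group
      rw [e1]; exact Q.mul_mem hx h1
    · have h1 := hP.norm x (mem_cz.mpr hxf) d hd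
      exact P.mul_mem h1 (P.inv_mem hd)
    · exact hK.comm_mem (hQ.le_cz hx) (mem_cz.mpr hdz)
  have hb : ∀ i ∈ Q, i ∈ P → ∀ d ∈ P, d * z = z * d → i * d = d * i := by
    intro i hiQ hiP d hd hdz
    have hc := hK.comm_mem (hQ.le_cz hiQ) (mem_cz.mpr hdz)
    rcases hexP.comm i hiP d hd with h1 | h1
    · exact comm_of_comm_eq_one h1
    · rw [h1] at hc; exact absurd hc hfK
  have hcP : ∀ x ∈ P, x⁻¹ * z * x * z⁻¹ ∈ P := by
    intro x hx
    have h1 := hP.norm z hzCf x hx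
    have e1 : x⁻¹ * z * x * z⁻¹ = x⁻¹ * (z * x * z⁻¹) := by group
    rw [e1]; exact P.mul_mem (P.inv_mem hx) h1
  have hfib : ∀ x ∈ P, ∀ y ∈ P, x⁻¹ * z * x * z⁻¹ = y⁻¹ * z * y * z⁻¹ →
      y * x⁻¹ * z = z * (y * x⁻¹) := by
    intro x _ y _ h
    have h1 := congrArg (fun t => y * t * z * x⁻¹) h
    simpa [mul_assoc] using h1
  have hcardP : Nat.card P = (P : Set G).ncard := Nat.card_coe_set_eq (P : Set G)
  have hn2 : ({x | x ∈ [1, f]} : Set G).ncard ≤ 2 := ncard_list_le _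
  by_cases hzP : z ∈ P
  · have hI : ∀ i ∈ Q, i ∈ P → i = 1 ∨ i = f ∨ i = z ∨ i = f * z := by
      intro i hiQ hiP
      exact hexP.center_centralizer hzP hz1 hzf hiP
        (fun w hw hwz => (hb i hiQ hiP w hw hwz).symm)
    have hR : ∀ d ∈ P, d * z = z * d → d ∈ Q := by
      intro d hd hdz
      apply hQ.mem_of_triv hfQ he hef (mem_cz.mpr hdz) ?_ (hCe d (mem_cz.mpr hdz))
      intro r hr hrf
      obtain ⟨c1, c2, c3⟩ := ha r hr hrf d hd hdz
      rcases hI _ c1 c2 with h1 | h1 | h1 | h1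
      · left; rw [conj_of_comm h1]; simp
      · rw [h1] at c3; exact absurd c3 hfK
      · right; rw [conj_of_comm h1, hzinv]
      · rw [h1] at c3; exact absurd c3 hfzK
    have hR' : ∀ d ∈ P, d * z = z * d → d ∈ [1, f, z, f * z] := by
      intro d hd hdz
      rcases hI d (hR d hd hdz) hd with h1 | h1 | h1 | h1 <;> simp [h1]
    have hA1 : ∀ x ∈ (P : Set G), ∀ y ∈ (P : Set G),
        (fun x => x⁻¹ * z * x * z⁻¹) x = (fun x => x⁻¹ * z * x * z⁻¹) y →
        y * x⁻¹ ∈ ({x | x ∈ [1, f, z, f * z]} : Set G) := by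
      intro x hx y hy h
      exact hR' _ (P.mul_mem hy (P.inv_mem hx)) (hfib x hx y hy h)
    have hB1 : ∀ x ∈ (P : Set G), (fun x => x⁻¹ * z * x * z⁻¹) x ∈ ({x | x ∈ [1, f]} : Set G) := by
      intro x hx
      have h1 := hexP.comm x⁻¹ (P.inv_mem hx) z hzP
      simp only [inv_inv] at h1
      rcases h1 with h1 | h1
      · show x⁻¹ * z * x * z⁻¹ ∈ [1, f]
        rw [h1]; simp
      · show x⁻¹ * z * x * z⁻¹ ∈ [1, f]
        rw [h1]; simp
    have hcount := ncard_le_of_fibers (P : Set G) {x | x ∈ [1, f, z, f * z]} {x | x ∈ [1, f]}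
      (fun x => x⁻¹ * z * x * z⁻¹) hA1 hB1
    have hn4 : ({x | x ∈ [1, f, z, f * z]} : Set G).ncard ≤ 4 := ncard_list_le _
    have : Nat.card P ≤ 4 * 2 := by
      rw [hcardP]
      exact hcount.trans (Nat.mul_le_mul hn4 hn2)
    omega
  · have hI : ∀ i ∈ Q, i ∈ P → i = 1 ∨ i = f := by
      intro i hiQ hiP
      have hc : ∀ x ∈ Q, x * f = f * x → x * i = i * x := by
        intro x hx hxf
        have h1 := hP.norm x (mem_cz.mpr hxf) i⁻¹ (P.inv_mem hiP)
        have h2 : i * x * i⁻¹ * x⁻¹ ∈ P := by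
          have e1 : i * x * i⁻¹ * x⁻¹ = i * (x * i⁻¹ * x⁻¹) := by group
          rw [e1]; exact P.mul_mem hiP h1
        rcases hexQ.comm i hiQ x hx with h3 | h3
        · exact (comm_of_comm_eq_one h3).symm
        · rw [h3] at h2; exact absurd h2 hzP
      rcases hexQ.center_centralizer hfQ hf1 (Ne.symm hzf) hiQ hc with h1 | h1 | h1 | h1
      · exact Or.inl h1
      · rw [h1] at hiP; exact absurd hiP hzP
      · exact Or.inr h1
      · exfalso; apply hzP
        have : z = i * f⁻¹ := by rw [h1]; group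
        rw [this]; exact P.mul_mem hiP (P.inv_mem hexP.mem)
    have hR : ∀ d ∈ P, d * z = z * d → d ∈ Q := by
      intro d hd hdz
      apply hQ.mem_of_triv hfQ he hef (mem_cz.mpr hdz) ?_ (hCe d (mem_cz.mpr hdz))
      intro r hr hrf
      obtain ⟨c1, c2, c3⟩ := ha r hr hrf d hd hdz
      rcases hI _ c1 c2 with h1 | h1
      · left; rw [conj_of_comm h1]; simp
      · rw [h1] at c3; exact absurd c3 hfK
    have hR' : ∀ d ∈ P, d * z = z * d → d ∈ [1, f] := by
      intro d hd hdz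
      rcases hI d (hR d hd hdz) hd with h1 | h1 <;> simp [h1]
    have hcc : ∀ x ∈ P,
        (x⁻¹ * z * x * z⁻¹)⁻¹ * z * (x⁻¹ * z * x * z⁻¹) * z⁻¹ ∈ [1, f] := by
      intro x hx
      have hz2 : z⁻¹ * z⁻¹ = 1 := by rw [hzinv, hzz]
      have e1 : z * (x⁻¹ * z * x * z⁻¹) * z⁻¹ = (x⁻¹ * z * x * z⁻¹)⁻¹ := by
        calc z * (x⁻¹ * z * x * z⁻¹) * z⁻¹ = z * x⁻¹ * z * x * (z⁻¹ * z⁻¹) := by group
          _ = z * x⁻¹ * z * x := by rw [hz2, mul_one]
          _ = z * x⁻¹ * z⁻¹ * x := by rw [hzinv]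
          _ = (x⁻¹ * z * x * z⁻¹)⁻¹ := by group
      have e2 : (x⁻¹ * z * x * z⁻¹)⁻¹ * z * (x⁻¹ * z * x * z⁻¹) * z⁻¹ =
          ((x⁻¹ * z * x * z⁻¹) * (x⁻¹ * z * x * z⁻¹))⁻¹ := by
        calc (x⁻¹ * z * x * z⁻¹)⁻¹ * z * (x⁻¹ * z * x * z⁻¹) * z⁻¹
            = (x⁻¹ * z * x * z⁻¹)⁻¹ * (z * (x⁻¹ * z * x * z⁻¹) * z⁻¹) := by group
          _ = (x⁻¹ * z * x * z⁻¹)⁻¹ * (x⁻¹ * z * x * z⁻¹)⁻¹ := by rw [e1]
          _ = ((x⁻¹ * z * x * z⁻¹) * (x⁻¹ * z * x * z⁻¹))⁻¹ := by group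
      rcases hexP.sqmem _ (hcP x hx) with h1 | h1
      · rw [e2, h1]; simp
      · rw [e2, h1, hfinv]; simp
    have hA1 : ∀ x ∈ (P : Set G), ∀ y ∈ (P : Set G),
        (fun x => x⁻¹ * z * x * z⁻¹) x = (fun x => x⁻¹ * z * x * z⁻¹) y →
        y * x⁻¹ ∈ ({x | x ∈ [1, f]} : Set G) := by
      intro x hx y hy h
      exact hR' _ (P.mul_mem hy (P.inv_mem hx)) (hfib x hx y hy h)
    have hB1 : ∀ x ∈ (P : Set G), (fun x => x⁻¹ * z * x * z⁻¹) x ∈
        ({x | x ∈ P ∧ x⁻¹ * z * x * z⁻¹ ∈ [1, f]} : Set G) :=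
      fun x hx => ⟨hcP x hx, hcc x hx⟩
    have hA2 : ∀ x ∈ ({x | x ∈ P ∧ x⁻¹ * z * x * z⁻¹ ∈ [1, f]} : Set G),
        ∀ y ∈ ({x | x ∈ P ∧ x⁻¹ * z * x * z⁻¹ ∈ [1, f]} : Set G),
        (fun x => x⁻¹ * z * x * z⁻¹) x = (fun x => x⁻¹ * z * x * z⁻¹) y →
        y * x⁻¹ ∈ ({x | x ∈ [1, f]} : Set G) :=
      fun x hx y hy h => hA1 x hx.1 y hy.1 h
    have hB2 : ∀ x ∈ ({x | x ∈ P ∧ x⁻¹ * z * x * z⁻¹ ∈ [1, f]} : Set G),
        (fun x => x⁻¹ * z * x * z⁻¹) x ∈ ({x | x ∈ [1, f]} : Set G) :=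
      fun x hx => hx.2
    have hcount1 := ncard_le_of_fibers (P : Set G) {x | x ∈ [1, f]}
      {x | x ∈ P ∧ x⁻¹ * z * x * z⁻¹ ∈ [1, f]} (fun x => x⁻¹ * z * x * z⁻¹) hA1 hB1
    have hcount2 := ncard_le_of_fibers {x | x ∈ P ∧ x⁻¹ * z * x * z⁻¹ ∈ [1, f]}
      {x | x ∈ [1, f]} {x | x ∈ [1, f]} (fun x => x⁻¹ * z * x * z⁻¹) hA2 hB2
    have : Nat.card P ≤ 2 * (2 * 2) := by
      rw [hcardP]
      exact hcount1.trans (Nat.mul_le_mul hn2 (hcount2.trans (Nat.mul_le_mul hn2 hn2)))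
    omega

/-- The main theorem in concrete form. -/
theorem main [Finite G] (hres : Cfsg.pResidual 2 G = ⊤) (z : G) (hS : Setting tc z)
    (hQp : IsPGroup 2 (tc z)) (hbig : 8 < Nat.card (tc z)) (K : Subgroup G) (hK : KH K z) :
    tc z ≤ K := by
  have hex : ExtraAt (tc z) z := by simpa using hS.ex 1
  have hsc : ∀ y : G, (∀ v ∈ tc z, y * v = v * y) → y ∈ tc z := by simpa using hS.selfc 1
  have hQ : LX (tc z) z := lx_tc z hex hsc
  by_contra hne
  obtain ⟨w, hw, hwK⟩ := SetLike.not_le_iff_exists.mp hne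
  have hzK : z ∈ K := z_mem hQ hK hbig
  obtain ⟨e, he, he1, hez, hiff⟩ := exists_e hQ hK hzK hw hwK
  have hCe := conj_e hQ hK he he1 hez hiff
  obtain ⟨f, hf, hfK, hff⟩ := exists_invol hQ hK hbig hw hwK he he1 hez hiff
  obtain ⟨k, hk1, hk2⟩ := exists_conj_central hres hQ hQp hK hzK hf hfK hff
  have hP : LX (tc (k * z * k⁻¹)) (k * z * k⁻¹) := lx_tc _ (hS.ex k) (hS.selfc k)
  have hcardP : Nat.card (tc (k * z * k⁻¹)) = Nat.card (tc z) := by
    rw [tc_conj]
    exact Subgroup.card_map_of_injective (MulAut.conj k).injective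
  have hef : e * (k * z * k⁻¹) ≠ (k * z * k⁻¹) * e := by
    intro h
    exact hk2 ((hiff _ hk1).mp h.symm)
  exact final hQ hP hK hzK hk1 hk2 he hef hCe (hcardP ▸ hbig)

end final

end Cfsg.Agent.Lib.Helper57.Extra
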