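import Mathlib
import Cfsg.Agent.Lib.Helper84.GADefs

/-! Piece GA-EXC81 of the S4840 project (helper84): for `|V| = 81` the group has order prime
to 3 (assembly from the pieces N5 and FIX81). -/

set_option autoImplicit false

namespace Cfsg.Agent.Lib.Helper57.GA

universe u

open Cfsg.Agent.Lib.Helper84.GA

/-- the conjugation action of a subgroup on a normal subgroup -/
@[reducible] def exc81Act {Γ : Type*} [Group Γ] (B N : Subgroup Γ) (hN : N.Normal) :
    MulAction ↥B ↥N where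
  smul b n := ⟨(b : Γ) * (n : Γ) * (b : Γ)⁻¹, hN.conj_mem n n.2 b⟩
  one_smul n := by
    apply Subtype.ext
    show ((1 : ↥B) : Γ) * (n : Γ) * ((1 : ↥B) : Γ)⁻¹ = n
    simp
  mul_smul b c n := by
    apply Subtype.ext
    show ((b * c : ↥B) : Γ) * (n : Γ) * ((b * c : ↥B) : Γ)⁻¹ =
      (b : Γ) * ((c : Γ) * (n : Γ) * (c : Γ)⁻¹) * (b : Γ)⁻¹
    simp [mul_assoc]

theorem exc81_of (h5 : N5Stmt.{u}) (hx : Fix81Stmt.{u}) : Exc81Stmt.{u} := by
  intro p _ Γ _ _ V _ _ _ _ ρ hTL hsolv hp3 hV hdvd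
  obtain ⟨x, hxo⟩ := exists_prime_orderOf_dvd_card' p hdvd
  obtain ⟨N, hN, hN5⟩ := h5 p Γ V ρ hTL hsolv hp3 hV
  have hx1 : x ≠ 1 := by
    rintro rfl
    rw [orderOf_one] at hxo
    exact (Fact.out : p.Prime).one_lt.ne hxo
  have hP : IsPGroup p ↥(Subgroup.zpowers x) :=
    IsPGroup.of_card (n := 1) (by rw [Nat.card_zpowers, hxo, pow_one])
  -- a nontrivial element of `N` centralized by `x`
  have hfix : ∃ a ∈ N, a ≠ 1 ∧ x * a * x⁻¹ = a := by
    let act : MulAction ↥(Subgroup.zpowers x) ↥N := exc81Act (Subgroup.zpowers x) N hN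
    have hmod := hP.card_modEq_card_fixedPoints (α := ↥N)
    by_contra hall
    push Not at hall
    have hone : ∀ b : ↥(MulAction.fixedPoints ↥(Subgroup.zpowers x) ↥N), (b : ↥N) = 1 := by
      intro b
      by_contra hb
      have h1 := b.2 ⟨x, Subgroup.mem_zpowers x⟩
      have h2 : x * ((b : ↥N) : Γ) * x⁻¹ = ((b : ↥N) : Γ) := congrArg Subtype.val h1
      exact hall _ (b : ↥N).2 (fun h => hb (Subtype.ext h)) h2
    have hcard : Nat.card ↥(MulAction.fixedPoints ↥(Subgroup.zpowers x) ↥N) = 1 := by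
      rw [Nat.card_eq_one_iff_unique]
      refine ⟨⟨fun b c => Subtype.ext ((hone b).trans (hone c).symm)⟩, ⟨⟨1, fun g => ?_⟩⟩⟩
      apply Subtype.ext
      show (g : Γ) * ((1 : ↥N) : Γ) * (g : Γ)⁻¹ = ((1 : ↥N) : Γ)
      simp
    rw [hcard, hN5, hp3] at hmod
    exact absurd hmod (by decide)
  obtain ⟨a, haN, ha1, hxa⟩ := hfix
  have hcomm : Commute a x := by
    have h1 : x * a = a * x := mul_inv_eq_iff_eq_mul.mp hxa
    exact h1.symm
  have ha5 : orderOf a = 5 := by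
    have : Fact (Nat.Prime 5) := ⟨by norm_num⟩
    refine orderOf_eq_prime ?_ ha1
    have h1 : (⟨a, haN⟩ : ↥N) ^ Nat.card ↥N = 1 := pow_card_eq_one'
    rw [hN5] at h1
    exact congrArg Subtype.val h1
  have hM : Subgroup.zpowers x ≠ ⊥ := Subgroup.zpowers_ne_bot.mpr hx1
  refine hx p Γ V ρ hTL hp3 hV (Subgroup.zpowers x) hM hP a ha5 ?_ ?_
  · intro m hm
    obtain ⟨k, rfl⟩ := Subgroup.mem_zpowers_iff.mp hm
    have h1 : a * x ^ k = x ^ k * a := (hcomm.zpow_right k).eq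
    rw [h1, mul_inv_cancel_right]
    exact hm
  · intro m hm
    obtain ⟨k, rfl⟩ := Subgroup.mem_zpowers_iff.mp hm
    have h1 : a * x ^ k = x ^ k * a := (hcomm.zpow_right k).eq
    rw [mul_assoc, ← h1, inv_mul_cancel_left]
    exact hm

end Cfsg.Agent.Lib.Helper57.GA
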