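import Cfsg.Agent.Lib.Helper70.HeODefs

/-! Project HeO (helper70, S2075), piece REPI (helper57): the table of an element `ew i · h_L` of
`C(f)` determines the element (`rp_inj`, from the faithfulness hypothesis `hdec2`) and is determined
by it (`rp_fun`, from `W ∩ H₀ = 1`). -/

set_option autoImplicit false

namespace Cfsg.Agent.Lib.Helper57.HeOREPI

open Cfsg.Agent.Lib.Helper39.HeOrd Cfsg.Agent.Lib.Helper70.HeC Cfsg.Agent.Lib.Helper70.HeO
open Cfsg.Agent.Lib.Helper70.HeM (Wd)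


theorem repi_ofNat_val (i : ℕ) (hi : i < 16) : (Fin.ofNat 64 i).val = i := by
  show i % 64 = i
  omega

theorem repi_ofNat_fin (b : Fin 64) : Fin.ofNat 64 b.val = b :=
  Fin.ext (Nat.mod_eq_of_lt b.isLt)

theorem repi_tabC_zero (L : List ℕ) : tabC L 0 = 0 := by
  have h := act_word L 0
  rw [ew_zero, mul_one, mul_inv_cancel] at h
  exact ew1 _ (tabC_lt L 0 (by decide)) h.symm

theorem repi_wOf_zero : wOf (0 : Fin 4 → ZMod 2) = 1 := by
  have h := hadd 0 0
  rw [add_zero] at h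
  calc wOf 0 = (wOf 0)⁻¹ * (wOf 0 * wOf 0) := by group
    _ = (wOf 0)⁻¹ * wOf 0 := by rw [← h]
    _ = 1 := inv_mul_cancel _

theorem repi_key {i i' : ℕ} {L L' : List ℕ} (h : tabOf i L = tabOf i' L') :
    ∀ b ∈ List.range 16,
      (tabC L (Fin.ofNat 64 b)).val ^^^ i = (tabC L' (Fin.ofNat 64 b)).val ^^^ i' := by
  unfold tabOf tab0 at h
  rw [List.map_map, List.map_map] at h
  exact fun b hb => List.map_inj_left.mp h b hb

/-- PIECE REPI (1/2).  Equal tables give equal elements (`hdec2` = faithfulness, from piece DEC). -/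
theorem rp_inj
    (hdec2 : ∀ g ∈ Subgroup.centralizer ({zE} : Set G), (∀ a, (wOf a)⁻¹ * g * wOf a ∈ H0) → g = 1) :
    ∀ (g h : G) (N : List ℕ), Rp g N → Rp h N → g = h := by
  rintro g h N ⟨i, hi, L, rfl, hN⟩ ⟨i', hi', L', rfl, hN'⟩
  have key := repi_key (hN.symm.trans hN')
  have h0 := key 0 (by simp)
  have e0 : (Fin.ofNat 64 0 : Fin 64) = 0 := rfl
  rw [e0, repi_tabC_zero, repi_tabC_zero] at h0
  have hii : i = i' := by simpa using h0
  subst hii
  have hb : ∀ b : Fin 64, b.val < 16 → tabC L b = tabC L' b := by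
    intro b hb
    have h1 := key b.val (List.mem_range.mpr hb)
    rw [repi_ofNat_fin] at h1
    exact Fin.ext (Nat.xor_left_inj.mp h1)
  have hcomm : ∀ b : Fin 64, b.val < 16 →
      ((Wd (hWd L'))⁻¹ * Wd (hWd L)) * ew b = ew b * ((Wd (hWd L'))⁻¹ * Wd (hWd L)) := by
    intro b hb'
    have h1 := act_word L b
    have h2 := act_word L' b
    rw [hb b hb', ← h2] at h1
    have h3 : Wd (hWd L) * ew b = Wd (hWd L') * ew b * (Wd (hWd L'))⁻¹ * Wd (hWd L) := by
      rw [← h1]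
      group
    calc (Wd (hWd L'))⁻¹ * Wd (hWd L) * ew b = (Wd (hWd L'))⁻¹ * (Wd (hWd L) * ew b) := by
          rw [mul_assoc]
      _ = ew b * ((Wd (hWd L'))⁻¹ * Wd (hWd L)) := by
          rw [h3]
          group
  have hmem : (Wd (hWd L'))⁻¹ * Wd (hWd L) ∈ H0 :=
    H0.mul_mem (H0.inv_mem (mem_word L')) (mem_word L)
  have hg0 : (Wd (hWd L'))⁻¹ * Wd (hWd L) = 1 := by
    apply hdec2
    · rw [Subgroup.mem_centralizer_iff]
      intro y hy
      rw [Set.mem_singleton_iff] at hy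
      rw [hy]
      exact (hcz _ hmem).symm
    · intro a
      have h1 := hcomm (iota a) (iota_lt a)
      have h2 : (wOf a)⁻¹ * ((Wd (hWd L'))⁻¹ * Wd (hWd L)) * wOf a =
          (Wd (hWd L'))⁻¹ * Wd (hWd L) := by
        show (ew (iota a))⁻¹ * ((Wd (hWd L'))⁻¹ * Wd (hWd L)) * ew (iota a) = _
        rw [mul_assoc, h1, ← mul_assoc, inv_mul_cancel, one_mul]
      rw [h2]
      exact hmem
  have hAB : Wd (hWd L) = Wd (hWd L') := by
    calc Wd (hWd L) = Wd (hWd L') * ((Wd (hWd L'))⁻¹ * Wd (hWd L)) := by group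
      _ = Wd (hWd L') := by rw [hg0, mul_one]
  show val i L = val i L'
  unfold val
  rw [hAB]

/-- PIECE REPI (2/2).  The table is determined by the element (`hWH`: `W ∩ H₀ = 1`). -/
theorem rp_fun : ∀ (g : G) (N M : List ℕ), Rp g N → Rp g M → N = M := by
  rintro g N M ⟨i, hi, L, hg, hN⟩ ⟨i', hi', L', hg', hM⟩
  have hval : val i L = val i' L' := hg.symm.trans hg'
  unfold val at hval
  have h1 : ew (Fin.ofNat 64 i' ^^^ Fin.ofNat 64 i) = Wd (hWd L') * (Wd (hWd L))⁻¹ := by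
    rw [← hmulw]
    have h2 : ew (Fin.ofNat 64 i) = ew (Fin.ofNat 64 i') * Wd (hWd L') * (Wd (hWd L))⁻¹ := by
      rw [← hval]
      group
    rw [h2, ← mul_assoc, ← mul_assoc, ew_sq, one_mul]
  have hlt : (Fin.ofNat 64 i' ^^^ Fin.ofNat 64 i : Fin 64).val < 16 :=
    xor_lt16 _ _ (by rw [repi_ofNat_val i' hi']; exact hi') (by rw [repi_ofNat_val i hi]; exact hi)
  have hmem : ew (Fin.ofNat 64 i' ^^^ Fin.ofNat 64 i) ∈ H0 := by
    rw [h1]
    exact H0.mul_mem (mem_word L') (H0.inv_mem (mem_word L))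
  obtain ⟨a, ha⟩ := iota_surj _ hlt
  have ha0 : a = 0 := hWH a (by
    show ew (iota a) ∈ H0
    rw [ha]
    exact hmem)
  have h2 : ew (Fin.ofNat 64 i' ^^^ Fin.ofNat 64 i) = 1 := by
    have h3 : ew (iota a) = wOf a := rfl
    rw [← ha, h3, ha0, repi_wOf_zero]
  have h4 : (Fin.ofNat 64 i' : Fin 64) = Fin.ofNat 64 i := xor_eq_zero64 _ _ (ew1 _ hlt h2)
  have hii : i' = i := by
    rw [← repi_ofNat_val i' hi', ← repi_ofNat_val i hi, h4]
  subst hii
  have hAB : Wd (hWd L) = Wd (hWd L') := mul_left_cancel hval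
  have hb : ∀ b : Fin 64, b.val < 16 → tabC L b = tabC L' b := by
    intro b hb
    apply ew_inj _ _ (tabC_lt L b hb) (tabC_lt L' b hb)
    rw [← act_word, ← act_word, hAB]
  rw [hN, hM]
  unfold tabOf tab0
  congr 1
  apply List.map_congr_left
  intro b hb'
  rw [hb _ (by rw [repi_ofNat_val b (List.mem_range.mp hb')]; exact List.mem_range.mp hb')]

end Cfsg.Agent.Lib.Helper57.HeOREPI
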