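import Mathlib

/-!
# Piece A of S3627: the spectrum of a group of order 175560 from local data
-/

set_option autoImplicit false

namespace Cfsg.Agent.Lib.Helper57.J1SpecA

variable {G : Type*} [Group G] [Finite G]

/-- The order of a Sylow subgroup when `p ^ k` exactly divides `|G|`. -/
theorem sylow_card_of_exact {p k : ℕ} [Fact p.Prime] (hk : p ^ k ∣ Nat.card G)
    (hk' : ¬ p ^ (k + 1) ∣ Nat.card G) (P : Sylow p G) : Nat.card P = p ^ k := by
  have hp : p.Prime := Fact.out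
  have hne : Nat.card G ≠ 0 := Nat.card_pos.ne'
  rw [P.card_eq_multiplicity]
  congr 1
  have h1 : k ≤ (Nat.card G).factorization p := (hp.pow_dvd_iff_le_factorization hne).mp hk
  have h2 : ¬ (k + 1 ≤ (Nat.card G).factorization p) := fun h =>
    hk' ((hp.pow_dvd_iff_le_factorization hne).mpr h)
  omega

/-- A subgroup of order `p ^ k`, where `p ^ k` exactly divides `|G|`, is a Sylow subgroup. -/
theorem exists_sylow_eq {p k : ℕ} [Fact p.Prime] (hk : p ^ k ∣ Nat.card G)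
    (hk' : ¬ p ^ (k + 1) ∣ Nat.card G) (H : Subgroup G) (hH : Nat.card H = p ^ k) :
    ∃ P : Sylow p G, (P : Subgroup G) = H := by
  obtain ⟨P, hP⟩ := (IsPGroup.of_card hH).exists_le_sylow
  refine ⟨P, (Subgroup.eq_of_le_of_card_ge hP ?_).symm⟩
  rw [sylow_card_of_exact hk hk' P, hH]

/-- Sylow conjugacy for subgroups which are Sylow by their order. -/
theorem exists_conj_mem {p k : ℕ} [Fact p.Prime] (hk : p ^ k ∣ Nat.card G)
    (hk' : ¬ p ^ (k + 1) ∣ Nat.card G) (H K : Subgroup G) (hH : Nat.card H = p ^ k)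
    (hK : Nat.card K = p ^ k) : ∃ c : G, ∀ z ∈ K, c⁻¹ * z * c ∈ H := by
  obtain ⟨P, hP⟩ := exists_sylow_eq hk hk' H hH
  obtain ⟨P', hP'⟩ := exists_sylow_eq hk hk' K hK
  obtain ⟨c, hc⟩ := MulAction.exists_smul_eq G P P'
  refine ⟨c, fun z hz => ?_⟩
  rw [← hP', ← hc, Sylow.coe_subgroup_smul, Subgroup.mem_pointwise_smul_iff_inv_smul_mem,
    hP] at hz
  have e : (MulAut.conj c)⁻¹ • z = c⁻¹ * z * c := by
    rw [← map_inv, MulAut.smul_def, MulAut.conj_apply, inv_inv]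
  rw [e] at hz
  exact hz

/-- For elements `h`, `y` of prime order `p` with `p` exactly dividing `|G|`: some conjugation
carries the centraliser of `y` into the centraliser of `h`. -/
theorem exists_conj_commute {p : ℕ} [Fact p.Prime] (hp1 : p ∣ Nat.card G)
    (hp2 : ¬ p ^ 2 ∣ Nat.card G) {h y : G} (hh : orderOf h = p) (hy : orderOf y = p) :
    ∃ c : G, ∀ g : G, g * y = y * g → (c * g * c⁻¹) * h = h * (c * g * c⁻¹) := by
  have hk : p ^ 1 ∣ Nat.card G := by simpa using hp1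
  obtain ⟨c, hc⟩ := exists_conj_mem (p := p) (k := 1) hk hp2 (Subgroup.zpowers y)
    (Subgroup.zpowers h) (by rw [Nat.card_zpowers, hy, pow_one])
    (by rw [Nat.card_zpowers, hh, pow_one])
  refine ⟨c, fun g hg => ?_⟩
  obtain ⟨k, hk⟩ := Subgroup.mem_zpowers_iff.mp (hc h (Subgroup.mem_zpowers h))
  have hh' : h = c * y ^ k * c⁻¹ := by
    rw [hk]
    group
  have hgk : g * y ^ k = y ^ k * g := ((show Commute g y from hg).zpow_right k).eq
  rw [hh']
  calc c * g * c⁻¹ * (c * y ^ k * c⁻¹) = c * (g * y ^ k) * c⁻¹ := by group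
    _ = c * (y ^ k * g) * c⁻¹ := by rw [hgk]
    _ = c * y ^ k * c⁻¹ * (c * g * c⁻¹) := by group

/-- Step (1): if the prime `p` divides `orderOf g`, then `orderOf g = p`. -/
theorem orderOf_eq_of_dvd {p : ℕ} [Fact p.Prime] (hp1 : p ∣ Nat.card G)
    (hp2 : ¬ p ^ 2 ∣ Nat.card G) {h : G} (hh : orderOf h = p)
    (hc : ∀ g : G, g * h = h * g → g ^ p = 1) (g : G) (hg : p ∣ orderOf g) :
    orderOf g = p := by
  have hpos : orderOf g ≠ 0 := (orderOf_pos g).ne'
  have hy : orderOf (g ^ (orderOf g / p)) = p := orderOf_pow_orderOf_div hpos hg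
  obtain ⟨c, hcc⟩ := exists_conj_commute hp1 hp2 hh hy
  have h1 := hc _ (hcc g ((Commute.refl g).pow_right _).eq)
  rw [conj_pow] at h1
  have h2 : g ^ p = 1 := conj_eq_one_iff.mp h1
  exact Nat.dvd_antisymm (orderOf_dvd_of_pow_eq_one h2) hg

/-- Step (2): `4` does not divide the order of any element. -/
theorem not_four_dvd (h8 : 2 ^ 3 ∣ Nat.card G) (h16 : ¬ 2 ^ 4 ∣ Nat.card G)
    (Q : Subgroup G) (hQ : Nat.card Q = 8) (hQ2 : ∀ x ∈ Q, x ^ 2 = 1) (g : G) :
    ¬ 4 ∣ orderOf g := by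
  intro h4
  have hpos : orderOf g ≠ 0 := (orderOf_pos g).ne'
  have hy : orderOf (g ^ (orderOf g / 4)) = 4 := orderOf_pow_orderOf_div hpos h4
  generalize g ^ (orderOf g / 4) = y at hy
  have : Fact (Nat.Prime 2) := ⟨Nat.prime_two⟩
  have hZ : IsPGroup 2 (Subgroup.zpowers y) :=
    IsPGroup.of_card (n := 2) (by rw [Nat.card_zpowers, hy]; norm_num)
  obtain ⟨P, hP⟩ := hZ.exists_le_sylow
  obtain ⟨c, hc⟩ := exists_conj_mem (p := 2) (k := 3) h8 h16 Q (P : Subgroup G)
    (by rw [hQ]; norm_num) (sylow_card_of_exact h8 h16 P)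
  have h2 := hQ2 _ (hc y (hP (Subgroup.mem_zpowers y)))
  have h3 : y ^ 2 = 1 := by
    have e : c⁻¹ * y * c = c⁻¹ * y * c⁻¹⁻¹ := by rw [inv_inv]
    rw [e, conj_pow] at h2
    exact conj_eq_one_iff.mp h2
  have h4' : orderOf y ∣ 2 := orderOf_dvd_of_pow_eq_one h3
  rw [hy] at h4'
  exact absurd h4' (by norm_num)

/-- Step (3): no element has order `30`. -/
theorem orderOf_ne_thirty (h3a : 3 ∣ Nat.card G) (h3b : ¬ 3 ^ 2 ∣ Nat.card G) {h3 : G}
    (ho3 : orderOf h3 = 3) (c3 : Nat.card (Subgroup.centralizer ({h3} : Set G)) ≤ 30)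
    {y1 y2 : G} (hy1 : y1 * h3 = h3 * y1) (hy2 : y2 * h3 = h3 * y2)
    (hy : y1 * y2 ≠ y2 * y1) (g : G) : orderOf g ≠ 30 := by
  intro h30
  have : Fact (Nat.Prime 3) := ⟨Nat.prime_three⟩
  have hy3 : orderOf (g ^ 10) = 3 := by
    have h := orderOf_pow_orderOf_div (x := g) (n := 3) (by rw [h30]; norm_num)
      (by rw [h30]; norm_num)
    rw [h30] at h
    exact h
  obtain ⟨c, hcc⟩ := exists_conj_commute h3a h3b ho3 hy3
  have hcomm : (c * g * c⁻¹) * h3 = h3 * (c * g * c⁻¹) :=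
    hcc g ((Commute.refl g).pow_right 10).eq
  have hord : orderOf (c * g * c⁻¹) = 30 := by
    rw [← h30]
    exact (MulAut.conj c).orderOf_eq g
  generalize c * g * c⁻¹ = g' at hcomm hord
  have hle : Subgroup.zpowers g' ≤ Subgroup.centralizer ({h3} : Set G) := by
    rw [Subgroup.zpowers_le, Subgroup.mem_centralizer_iff]
    intro z hz
    rw [Set.mem_singleton_iff] at hz
    subst hz
    exact hcomm.symm
  have heq : Subgroup.zpowers g' = Subgroup.centralizer ({h3} : Set G) :=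
    Subgroup.eq_of_le_of_card_ge hle (by rw [Nat.card_zpowers, hord]; exact c3)
  have m1 : y1 ∈ Subgroup.zpowers g' := by
    rw [heq, Subgroup.mem_centralizer_iff]
    intro z hz
    rw [Set.mem_singleton_iff] at hz
    subst hz
    exact hy1.symm
  have m2 : y2 ∈ Subgroup.zpowers g' := by
    rw [heq, Subgroup.mem_centralizer_iff]
    intro z hz
    rw [Set.mem_singleton_iff] at hz
    subst hz
    exact hy2.symm
  obtain ⟨a, ha⟩ := Subgroup.mem_zpowers_iff.mp m1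
  obtain ⟨b, hb⟩ := Subgroup.mem_zpowers_iff.mp m2
  apply hy
  rw [← ha, ← hb]
  exact ((Commute.refl g').zpow_zpow a b).eq

/-- **Piece A of S3627.** -/
theorem spec_of_local {G : Type*} [Group G] [Finite G]
    (hcard : Nat.card G = 175560)
    (h3 h7 h11 h19 : G) (ho3 : orderOf h3 = 3) (ho7 : orderOf h7 = 7)
    (ho11 : orderOf h11 = 11) (ho19 : orderOf h19 = 19)
    (c7 : ∀ g : G, g * h7 = h7 * g → g ^ 7 = 1)
    (c11 : ∀ g : G, g * h11 = h11 * g → g ^ 11 = 1)
    (c19 : ∀ g : G, g * h19 = h19 * g → g ^ 19 = 1)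
    (c3 : Nat.card (Subgroup.centralizer ({h3} : Set G)) ≤ 30)
    (y1 y2 : G) (hy1 : y1 * h3 = h3 * y1) (hy2 : y2 * h3 = h3 * y2) (hy : y1 * y2 ≠ y2 * y1)
    (Q : Subgroup G) (hQ : Nat.card Q = 8) (hQ2 : ∀ x ∈ Q, x ^ 2 = 1) :
    ∀ g : G, orderOf g ∈ ({1, 2, 3, 5, 6, 7, 10, 11, 15, 19} : Set ℕ) := by
  intro g
  have : Fact (Nat.Prime 7) := ⟨by norm_num⟩
  have : Fact (Nat.Prime 11) := ⟨by norm_num⟩
  have : Fact (Nat.Prime 19) := ⟨by norm_num⟩
  have hn : orderOf g ∣ 175560 := hcard ▸ orderOf_dvd_natCard g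
  have hpos : 0 < orderOf g := orderOf_pos g
  by_cases d7 : 7 ∣ orderOf g
  · have h := orderOf_eq_of_dvd (p := 7) (by rw [hcard]; norm_num) (by rw [hcard]; norm_num)
      ho7 c7 g d7
    rw [h]
    simp
  by_cases d11 : 11 ∣ orderOf g
  · have h := orderOf_eq_of_dvd (p := 11) (by rw [hcard]; norm_num) (by rw [hcard]; norm_num)
      ho11 c11 g d11
    rw [h]
    simp
  by_cases d19 : 19 ∣ orderOf g
  · have h := orderOf_eq_of_dvd (p := 19) (by rw [hcard]; norm_num) (by rw [hcard]; norm_num)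
      ho19 c19 g d19
    rw [h]
    simp
  have h120 : orderOf g ∣ 120 := by
    have hcop : Nat.Coprime (orderOf g) (7 * (11 * 19)) :=
      Nat.Coprime.mul_right ((Nat.Prime.coprime_iff_not_dvd (by norm_num)).mpr d7).symm
        (Nat.Coprime.mul_right ((Nat.Prime.coprime_iff_not_dvd (by norm_num)).mpr d11).symm
          ((Nat.Prime.coprime_iff_not_dvd (by norm_num)).mpr d19).symm)
    exact Nat.Coprime.dvd_of_dvd_mul_right hcop
      (by rw [show (120 * (7 * (11 * 19)) : ℕ) = 175560 by norm_num]; exact hn)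
  have h4 := not_four_dvd (by rw [hcard]; norm_num) (by rw [hcard]; norm_num) Q hQ hQ2 g
  have h30 := orderOf_ne_thirty (by rw [hcard]; norm_num) (by rw [hcard]; norm_num) ho3 c3
    hy1 hy2 hy g
  have hle : orderOf g ≤ 120 := Nat.le_of_dvd (by norm_num) h120
  have key : ∀ m ∈ Finset.range 121, m ∣ 120 → ¬ 4 ∣ m → m ≠ 30 → 0 < m →
      (m = 1 ∨ m = 2 ∨ m = 3 ∨ m = 5 ∨ m = 6 ∨ m = 10 ∨ m = 15) := by
    set_option maxRecDepth 20000 in decide
  rcases key (orderOf g) (Finset.mem_range.mpr (by omega)) h120 h4 h30 hpos with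
    h | h | h | h | h | h | h <;> rw [h] <;> simp

end Cfsg.Agent.Lib.Helper57.J1SpecA
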