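import Cfsg.Agent.Lib.Helper78.JcDefs
import Mathlib

/-!
# S2946 project JC (owner helper78), piece BCOF: two card-counting lemmas about `IsMaxEA`
-/

set_option autoImplicit false

namespace Cfsg.Agent.Lib.Helper57.Jc

open Cfsg.Agent.Lib.Helper78.Jc

variable {G : Type*} [Group G]

/-- the product of two elementwise commuting subgroups -/
def prodSub (X Y : Subgroup G) (h : ∀ x ∈ X, ∀ y ∈ Y, x * y = y * x) : Subgroup G where
  carrier := {g | ∃ x ∈ X, ∃ y ∈ Y, g = x * y}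
  mul_mem' := by
    rintro _ _ ⟨x, hx, y, hy, rfl⟩ ⟨x', hx', y', hy', rfl⟩
    refine ⟨x * x', X.mul_mem hx hx', y * y', Y.mul_mem hy hy', ?_⟩
    calc x * y * (x' * y') = x * (y * x') * y' := by group
      _ = x * (x' * y) * y' := by rw [h x' hx' y hy]
      _ = x * x' * (y * y') := by group
  one_mem' := ⟨1, X.one_mem, 1, Y.one_mem, by simp⟩
  inv_mem' := by
    rintro _ ⟨x, hx, y, hy, rfl⟩
    refine ⟨x⁻¹, X.inv_mem hx, y⁻¹, Y.inv_mem hy, ?_⟩
    rw [mul_inv_rev]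
    exact (h x⁻¹ (X.inv_mem hx) y⁻¹ (Y.inv_mem hy)).symm

theorem mem_prodSub (X Y : Subgroup G) (h : ∀ x ∈ X, ∀ y ∈ Y, x * y = y * x) (g : G) :
    g ∈ prodSub X Y h ↔ ∃ x ∈ X, ∃ y ∈ Y, g = x * y := Iff.rfl

theorem left_le_prodSub (X Y : Subgroup G) (h : ∀ x ∈ X, ∀ y ∈ Y, x * y = y * x) :
    X ≤ prodSub X Y h := fun x hx => ⟨x, hx, 1, Y.one_mem, by simp⟩

theorem right_le_prodSub (X Y : Subgroup G) (h : ∀ x ∈ X, ∀ y ∈ Y, x * y = y * x) :
    Y ≤ prodSub X Y h := fun y hy => ⟨1, X.one_mem, y, hy, by simp⟩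

theorem prodSub_le (X Y S : Subgroup G) (h : ∀ x ∈ X, ∀ y ∈ Y, x * y = y * x) (hX : X ≤ S)
    (hY : Y ≤ S) : prodSub X Y h ≤ S := by
  rintro _ ⟨x, hx, y, hy, rfl⟩
  exact S.mul_mem (hX hx) (hY hy)

theorem prodSub_comm (X Y : Subgroup G) (h : ∀ x ∈ X, ∀ y ∈ Y, x * y = y * x)
    (hX : ∀ a ∈ X, ∀ b ∈ X, a * b = b * a) (hY : ∀ a ∈ Y, ∀ b ∈ Y, a * b = b * a) :
    ∀ a ∈ prodSub X Y h, ∀ b ∈ prodSub X Y h, a * b = b * a := by
  rintro _ ⟨x, hx, y, hy, rfl⟩ _ ⟨x', hx', y', hy', rfl⟩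
  calc x * y * (x' * y') = x * (y * x') * y' := by group
    _ = x * (x' * y) * y' := by rw [h x' hx' y hy]
    _ = (x * x') * (y * y') := by group
    _ = (x' * x) * (y' * y) := by rw [hX x hx x' hx', hY y hy y' hy']
    _ = x' * (x * y') * y := by group
    _ = x' * (y' * x) * y := by rw [h x hx y' hy']
    _ = x' * y' * (x * y) := by group

theorem prodSub_sq (X Y : Subgroup G) (h : ∀ x ∈ X, ∀ y ∈ Y, x * y = y * x)
    (hX : ∀ a ∈ X, a * a = 1) (hY : ∀ a ∈ Y, a * a = 1) :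
    ∀ a ∈ prodSub X Y h, a * a = 1 := by
  rintro _ ⟨x, hx, y, hy, rfl⟩
  calc x * y * (x * y) = x * (y * x) * y := by group
    _ = x * (x * y) * y := by rw [h x hx y hy]
    _ = (x * x) * (y * y) := by group
    _ = 1 := by rw [hX x hx, hY y hy, one_mul]

/-- exponent 2 implies commutative -/
theorem comm_of_sq (W : Subgroup G) (hW2 : ∀ w ∈ W, w * w = 1) :
    ∀ a ∈ W, ∀ b ∈ W, a * b = b * a := by
  intro a ha b hb
  have h1 := hW2 (a * b) (W.mul_mem ha hb)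
  have ha' : a⁻¹ = a := inv_eq_of_mul_eq_one_right (hW2 a ha)
  have hb' : b⁻¹ = b := inv_eq_of_mul_eq_one_right (hW2 b hb)
  have h2 : a * b = (a * b)⁻¹ := (inv_eq_of_mul_eq_one_right h1).symm
  rw [h2, mul_inv_rev, ha', hb']

/-- a subgroup `A₀` of "index at most two" in `A` -/
theorem card_le_two_mul [Finite G] (A A₀ : Subgroup G) (_hA₀ : A₀ ≤ A)
    (hidx : ∀ a ∈ A, ∀ a' ∈ A, a ∉ A₀ → a' ∉ A₀ → a * a' ∈ A₀) :
    Nat.card A ≤ 2 * Nat.card A₀ := by
  classical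
  by_cases hex : ∃ s ∈ A, s ∉ A₀
  · obtain ⟨s, hsA, hs⟩ := hex
    let f : A → A₀ × Bool := fun x =>
      if hx : (x : G) ∈ A₀ then (⟨x, hx⟩, true) else (⟨s * x, hidx s hsA x x.2 hs hx⟩, false)
    have hf : Function.Injective f := by
      intro x y hxy
      by_cases hx : (x : G) ∈ A₀ <;> by_cases hy : (y : G) ∈ A₀
      · simp only [f, dif_pos hx, dif_pos hy, Prod.mk.injEq, Subtype.mk.injEq, and_true] at hxy
        exact Subtype.ext hxy
      · simp [f, dif_pos hx, dif_neg hy] at hxy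
      · simp [f, dif_neg hx, dif_pos hy] at hxy
      · simp only [f, dif_neg hx, dif_neg hy, Prod.mk.injEq, Subtype.mk.injEq, and_true] at hxy
        exact Subtype.ext (mul_left_cancel hxy)
    have h1 := Nat.card_le_card_of_injective f hf
    rw [Nat.card_prod, Nat.card_eq_fintype_card (α := Bool), Fintype.card_bool] at h1
    omega
  · push Not at hex
    have hle : A ≤ A₀ := fun x hx => hex x hx
    have h1 := Subgroup.card_le_of_le hle
    omega

theorem bc [Finite G] (S W A : Subgroup G) (w₀ : G) (hWS : W ≤ S) (hW4 : Nat.card W = 4)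
    (hW2 : ∀ w ∈ W, w * w = 1) (hA : IsMaxEA S A) (a : G) (haA : a ∈ A)
    (ha : ∀ w ∈ W, a * w = w * a → w = 1 ∨ w = w₀)
    (hidx : ∀ s ∈ A, ∀ s' ∈ A, (¬ ∀ w ∈ W, s * w = w * s) → (¬ ∀ w ∈ W, s' * w = w * s') →
        ∀ w ∈ W, (s * s') * w = w * (s * s')) :
    ∃ B : Subgroup G, IsMaxEA S B ∧ W ≤ B ∧ A ⊓ Subgroup.centralizer (W : Set G) ≤ B := by
  classical
  obtain ⟨hAS, hAc, hA2, hAmax⟩ := hA
  set A₀ : Subgroup G := A ⊓ Subgroup.centralizer (W : Set G) with hA₀def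
  have hmemA₀ : ∀ x : G, x ∈ A₀ ↔ x ∈ A ∧ ∀ w ∈ W, x * w = w * x := by
    intro x
    rw [hA₀def, Subgroup.mem_inf, Subgroup.mem_centralizer_iff]
    constructor
    · rintro ⟨h1, h2⟩
      exact ⟨h1, fun w hw => (h2 w hw).symm⟩
    · rintro ⟨h1, h2⟩
      exact ⟨h1, fun w hw => (h2 w hw).symm⟩
  have hcomm : ∀ x ∈ A₀, ∀ y ∈ W, x * y = y * x := fun x hx y hy => ((hmemA₀ x).1 hx).2 y hy
  have hA₀A : A₀ ≤ A := inf_le_left
  -- there is `w ∈ W` different from `1` and `w₀`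
  have hexw : ∃ w ∈ W, w ≠ 1 ∧ w ≠ w₀ := by
    by_contra hcon
    push Not at hcon
    have hsub : (W : Set G) ⊆ ({1, w₀} : Set G) := by
      intro w hw
      by_cases h1 : w = 1
      · exact Or.inl h1
      · exact Or.inr (hcon w hw h1)
    have hfin : ({1, w₀} : Set G).Finite := Set.toFinite _
    have hle : Nat.card W ≤ ({1, w₀} : Set G).ncard := by
      rw [← Nat.card_coe_set_eq ({1, w₀} : Set G)]
      exact Nat.card_le_card_of_injective (fun w : W => (⟨w.1, hsub w.2⟩ : ({1, w₀} : Set G)))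
        (fun x y hxy => Subtype.ext (by simpa using congrArg Subtype.val hxy))
    have h2 : ({1, w₀} : Set G).ncard ≤ 2 := by
      refine (Set.ncard_insert_le 1 {w₀}).trans ?_
      rw [Set.ncard_singleton]
    omega
  obtain ⟨w, hwW, hw1, hw0⟩ := hexw
  have hwA₀ : w ∉ A₀ := by
    intro hw
    rcases ha w hwW (hAc a haA w (hA₀A hw)) with h | h
    · exact hw1 h
    · exact hw0 h
  -- `a` does not centralize `W`
  have haW : ¬ ∀ w ∈ W, a * w = w * a := by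
    intro hall
    rcases ha w hwW (hall w hwW) with h | h
    · exact hw1 h
    · exact hw0 h
  -- elements of `A` outside `A₀` are moved into `A₀` by `a`
  have hmove : ∀ x ∈ A, x ∉ A₀ → a * x ∈ A₀ := by
    intro x hx hxA₀
    have hxW : ¬ ∀ w ∈ W, x * w = w * x := fun hall => hxA₀ ((hmemA₀ x).2 ⟨hx, hall⟩)
    exact (hmemA₀ _).2 ⟨A.mul_mem haA hx, hidx a haA x hx haW hxW⟩
  refine ⟨prodSub A₀ W hcomm, ⟨?_, ?_, ?_, ?_⟩, right_le_prodSub A₀ W hcomm,
    left_le_prodSub A₀ W hcomm⟩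
  · exact prodSub_le A₀ W S hcomm (hA₀A.trans hAS) hWS
  · exact prodSub_comm A₀ W hcomm (fun x hx y hy => hAc x (hA₀A hx) y (hA₀A hy))
      (comm_of_sq W hW2)
  · exact prodSub_sq A₀ W hcomm (fun x hx => hA2 x (hA₀A hx)) hW2
  · intro B' hB'S hB'c hB'2
    refine (hAmax B' hB'S hB'c hB'2).trans ?_
    let f : A → prodSub A₀ W hcomm := fun x =>
      if hx : (x : G) ∈ A₀ then ⟨x, left_le_prodSub A₀ W hcomm hx⟩
      else ⟨a * x * w, ⟨a * x, hmove x x.2 hx, w, hwW, rfl⟩⟩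
    have hval : ∀ x : A, ((f x : prodSub A₀ W hcomm) : G) =
        if (x : G) ∈ A₀ then (x : G) else a * x * w := by
      intro x
      by_cases hx : (x : G) ∈ A₀
      · simp [f, hx]
      · simp [f, hx]
    have hf : Function.Injective f := by
      intro x y hxy
      have hxy' := congrArg (fun z : prodSub A₀ W hcomm => (z : G)) hxy
      simp only [hval] at hxy'
      by_cases hx : (x : G) ∈ A₀ <;> by_cases hy : (y : G) ∈ A₀
      · rw [if_pos hx, if_pos hy] at hxy'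
        exact Subtype.ext hxy'
      · exfalso
        rw [if_pos hx, if_neg hy] at hxy'
        have h1 : w = (a * y)⁻¹ * x := by rw [hxy']; group
        exact hwA₀ (h1 ▸ A₀.mul_mem (A₀.inv_mem (hmove y y.2 hy)) hx)
      · exfalso
        rw [if_neg hx, if_pos hy] at hxy'
        have h1 : w = (a * x)⁻¹ * y := by rw [← hxy']; group
        exact hwA₀ (h1 ▸ A₀.mul_mem (A₀.inv_mem (hmove x x.2 hx)) hy)
      · rw [if_neg hx, if_neg hy] at hxy'
        exact Subtype.ext (mul_left_cancel (mul_right_cancel hxy'))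
    exact Nat.card_le_card_of_injective f hf

theorem off [Finite G] (S A A₀ Y : Subgroup G) (hA : IsMaxEA S A) (hA₀ : A₀ ≤ A)
    (hidx : ∀ a ∈ A, ∀ a' ∈ A, a ∉ A₀ → a' ∉ A₀ → a * a' ∈ A₀) (hYS : Y ≤ S)
    (hYab : ∀ y ∈ Y, ∀ y' ∈ Y, y * y' = y' * y) (hY2 : ∀ y ∈ Y, y * y = 1)
    (hcent : ∀ x ∈ A₀, ∀ y ∈ Y, x * y = y * x) :
    ∀ y ∈ Y, ∀ y' ∈ Y, y ∉ A₀ → y' ∉ A₀ → y * y' ∈ A₀ := by
  classical
  obtain ⟨hAS, hAc, hA2, hAmax⟩ := hA
  intro y hy y' hy' hyA₀ hy'A₀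
  by_contra hyy'
  have h1 : Nat.card (prodSub A₀ Y hcent) ≤ Nat.card A :=
    hAmax _ (prodSub_le A₀ Y S hcent (hA₀.trans hAS) hYS)
      (prodSub_comm A₀ Y hcent (fun x hx z hz => hAc x (hA₀ hx) z (hA₀ hz)) hYab)
      (prodSub_sq A₀ Y hcent (fun x hx => hA2 x (hA₀ hx)) hY2)
  have h2 : Nat.card A ≤ 2 * Nat.card A₀ := card_le_two_mul A A₀ hA₀ hidx
  have hyinv : y⁻¹ = y := inv_eq_of_mul_eq_one_right (hY2 y hy)
  have hy'inv : y'⁻¹ = y' := inv_eq_of_mul_eq_one_right (hY2 y' hy')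
  -- three cosets of `A₀` inside the product
  let f : A₀ × Fin 3 → prodSub A₀ Y hcent := fun p =>
    if p.2 = 0 then ⟨p.1, left_le_prodSub A₀ Y hcent p.1.2⟩
    else if p.2 = 1 then ⟨p.1 * y, ⟨p.1, p.1.2, y, hy, rfl⟩⟩
    else ⟨p.1 * y', ⟨p.1, p.1.2, y', hy', rfl⟩⟩
  have hval : ∀ p : A₀ × Fin 3, ((f p : prodSub A₀ Y hcent) : G) =
      if p.2 = 0 then (p.1 : G) else if p.2 = 1 then (p.1 : G) * y else (p.1 : G) * y' := by
    intro p
    by_cases h0 : p.2 = 0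
    · simp [f, h0]
    · by_cases h1 : p.2 = 1
      · simp [f, h1]
      · simp [f, h0, h1]
  have hf : Function.Injective f := by
    rintro ⟨x, i⟩ ⟨x', j⟩ hxy
    have hxy' := congrArg (fun z : prodSub A₀ Y hcent => (z : G)) hxy
    simp only [hval] at hxy'
    have hi : i = 0 ∨ i = 1 ∨ i = 2 := by omega
    have hj : j = 0 ∨ j = 1 ∨ j = 2 := by omega
    have h10 : (1 : Fin 3) ≠ 0 := by decide
    have h20 : (2 : Fin 3) ≠ 0 := by decide
    have h21 : (2 : Fin 3) ≠ 1 := by decide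
    rcases hi with rfl | rfl | rfl <;> rcases hj with rfl | rfl | rfl
    · rw [if_pos rfl, if_pos rfl] at hxy'
      exact Prod.ext (Subtype.ext hxy') rfl
    · exfalso
      rw [if_pos rfl, if_neg h10, if_pos rfl] at hxy'
      have h3 : y = (x' : G)⁻¹ * x := by rw [hxy']; group
      exact hyA₀ (h3 ▸ A₀.mul_mem (A₀.inv_mem x'.2) x.2)
    · exfalso
      rw [if_pos rfl, if_neg h20, if_neg h21] at hxy'
      have h3 : y' = (x' : G)⁻¹ * x := by rw [hxy']; group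
      exact hy'A₀ (h3 ▸ A₀.mul_mem (A₀.inv_mem x'.2) x.2)
    · exfalso
      rw [if_neg h10, if_pos rfl, if_pos rfl] at hxy'
      have h3 : y = (x : G)⁻¹ * x' := by rw [← hxy']; group
      exact hyA₀ (h3 ▸ A₀.mul_mem (A₀.inv_mem x.2) x'.2)
    · rw [if_neg h10, if_pos rfl, if_neg h10, if_pos rfl] at hxy'
      exact Prod.ext (Subtype.ext (mul_right_cancel hxy')) rfl
    · exfalso
      rw [if_neg h10, if_pos rfl, if_neg h20, if_neg h21] at hxy'
      have h3 : y * y' = (x : G)⁻¹ * x' := by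
        have h4 : (x : G)⁻¹ * x' = y * y'⁻¹ := by
          have h5 : (x' : G) = x * y * y'⁻¹ := by rw [hxy']; group
          rw [h5]; group
        rw [h4, hy'inv]
      exact hyy' (h3 ▸ A₀.mul_mem (A₀.inv_mem x.2) x'.2)
    · exfalso
      rw [if_neg h20, if_neg h21, if_pos rfl] at hxy'
      have h3 : y' = (x : G)⁻¹ * x' := by rw [← hxy']; group
      exact hy'A₀ (h3 ▸ A₀.mul_mem (A₀.inv_mem x.2) x'.2)
    · exfalso
      rw [if_neg h20, if_neg h21, if_neg h10, if_pos rfl] at hxy'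
      have h3 : y * y' = (x' : G)⁻¹ * x := by
        have h4 : (x' : G)⁻¹ * x = y * y'⁻¹ := by
          have h5 : (x : G) = x' * y * y'⁻¹ := by rw [← hxy']; group
          rw [h5]; group
        rw [h4, hy'inv]
      exact hyy' (h3 ▸ A₀.mul_mem (A₀.inv_mem x'.2) x.2)
    · rw [if_neg h20, if_neg h21, if_neg h20, if_neg h21] at hxy'
      exact Prod.ext (Subtype.ext (mul_right_cancel hxy')) rfl
  have h3 := Nat.card_le_card_of_injective f hf
  rw [Nat.card_prod, Nat.card_eq_fintype_card (α := Fin 3), Fintype.card_fin] at h3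
  have h4 : 0 < Nat.card A₀ := Nat.card_pos
  omega

end Cfsg.Agent.Lib.Helper57.Jc
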