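import Cfsg.Prelude.Def_BaumannBlocks
import Mathlib

/-!
# S2984 project JD (owner helper78), piece FIX: `fix_section` and `res_sup`
-/

set_option autoImplicit false

namespace Cfsg.Agent.Lib.Helper57.Jd

open scoped commutatorElement

/-- the subgroup of `W` of elements moved by `x` only inside `Z` -/
def fixSub {G : Type*} [Group G] (W Z : Subgroup G) (x : G)
    (hWab : ∀ a ∈ W, ∀ b ∈ W, a * b = b * a)
    (hxW : ∀ w ∈ W, x * w * x⁻¹ ∈ W) : Subgroup G where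
  carrier := {w | w ∈ W ∧ x * w * x⁻¹ * w⁻¹ ∈ Z}
  one_mem' := ⟨W.one_mem, by simp [Z.one_mem]⟩
  mul_mem' := by
    rintro a b ⟨ha, haz⟩ ⟨hb, hbz⟩
    refine ⟨W.mul_mem ha hb, ?_⟩
    have hy : x * b * x⁻¹ * b⁻¹ ∈ W := W.mul_mem (hxW b hb) (W.inv_mem hb)
    have hc := hWab _ hy _ (W.inv_mem ha)
    have e : x * (a * b) * x⁻¹ * (a * b)⁻¹ = (x * a * x⁻¹ * a⁻¹) * (x * b * x⁻¹ * b⁻¹) := by
      calc x * (a * b) * x⁻¹ * (a * b)⁻¹ = x * a * x⁻¹ * ((x * b * x⁻¹ * b⁻¹) * a⁻¹) := by group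
        _ = x * a * x⁻¹ * (a⁻¹ * (x * b * x⁻¹ * b⁻¹)) := by rw [hc]
        _ = (x * a * x⁻¹ * a⁻¹) * (x * b * x⁻¹ * b⁻¹) := by group
    rw [e]
    exact Z.mul_mem haz hbz
  inv_mem' := by
    rintro a ⟨ha, haz⟩
    refine ⟨W.inv_mem ha, ?_⟩
    have hy : x * a * x⁻¹ ∈ W := hxW a ha
    have hc := hWab _ hy _ (W.inv_mem ha)
    have e : x * a⁻¹ * x⁻¹ * a⁻¹⁻¹ = (x * a * x⁻¹ * a⁻¹)⁻¹ := by
      rw [hc]; group
    rw [e]
    exact Z.inv_mem haz

theorem mem_fixSub {G : Type*} [Group G] (W Z : Subgroup G) (x : G)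
    (hWab : ∀ a ∈ W, ∀ b ∈ W, a * b = b * a)
    (hxW : ∀ w ∈ W, x * w * x⁻¹ ∈ W) (w : G) :
    w ∈ fixSub W Z x hWab hxW ↔ w ∈ W ∧ x * w * x⁻¹ * w⁻¹ ∈ Z := Iff.rfl

/-- the conjugation action of a subgroup `P` normalizing `W` and `Z` on the cosets of `Z` in `W` -/
def cosetAction {G : Type*} [Group G] (W Z P : Subgroup G)
    (hPW : ∀ g ∈ P, ∀ w ∈ W, g * w * g⁻¹ ∈ W) (hPZ : ∀ g ∈ P, ∀ z ∈ Z, g * z * g⁻¹ ∈ Z) :
    MulAction ↥P (↥W ⧸ Z.subgroupOf W) where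
  smul g q := Quotient.map' (fun w : ↥W => (⟨(g : G) * (w : G) * (g : G)⁻¹, hPW g g.2 w w.2⟩ : ↥W))
    (by
      intro a b hab
      rw [QuotientGroup.leftRel_apply] at hab ⊢
      rw [Subgroup.mem_subgroupOf] at hab ⊢
      have h1 := hPZ g g.2 _ hab
      have e : (((⟨(g : G) * (a : G) * (g : G)⁻¹, hPW g g.2 a a.2⟩ : ↥W)⁻¹ *
          (⟨(g : G) * (b : G) * (g : G)⁻¹, hPW g g.2 b b.2⟩ : ↥W) : ↥W) : G) =
          (g : G) * ((a⁻¹ * b : ↥W) : G) * (g : G)⁻¹ := by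
        simp only [Subgroup.coe_mul, Subgroup.coe_inv]
        group
      rw [e]
      exact h1) q
  one_smul q := by
    induction q using Quotient.inductionOn' with
    | _ w =>
      show Quotient.map' _ _ (Quotient.mk'' w) = Quotient.mk'' w
      rw [Quotient.map'_mk'']
      congr 1
      apply Subtype.ext
      simp
  mul_smul g h q := by
    induction q using Quotient.inductionOn' with
    | _ w =>
      show Quotient.map' _ _ (Quotient.mk'' w) =
        Quotient.map' _ _ (Quotient.map' _ _ (Quotient.mk'' w))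
      rw [Quotient.map'_mk'', Quotient.map'_mk'', Quotient.map'_mk'']
      congr 1
      apply Subtype.ext
      simp [mul_assoc]

theorem cosetAction_mk {G : Type*} [Group G] (W Z P : Subgroup G)
    (hPW : ∀ g ∈ P, ∀ w ∈ W, g * w * g⁻¹ ∈ W) (hPZ : ∀ g ∈ P, ∀ z ∈ Z, g * z * g⁻¹ ∈ Z)
    (g : ↥P) (w : ↥W) :
    letI := cosetAction W Z P hPW hPZ
    g • (QuotientGroup.mk w : ↥W ⧸ Z.subgroupOf W) =
      QuotientGroup.mk (⟨(g : G) * (w : G) * (g : G)⁻¹, hPW g g.2 w w.2⟩ : ↥W) := rfl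

theorem fix_section {G : Type*} [Group G] [Finite G] (p : ℕ) [Fact p.Prime] (E W Z : Subgroup G)
    (x : G) (hWab : ∀ a ∈ W, ∀ b ∈ W, a * b = b * a) (hWp : IsPGroup p ↥W) (hZW : Z ≤ W)
    (hZE : ∀ z ∈ Z, ∀ e ∈ E, e * z = z * e) (hEW : E ≤ Subgroup.normalizer (W : Set G))
    (hirr : ∀ U : Subgroup G, Z ≤ U → U ≤ W → (∀ e ∈ E, ∀ u ∈ U, e * u * e⁻¹ ∈ U) →
      U = Z ∨ U = W)
    (hxp : ∃ k : ℕ, x ^ (p ^ k) = 1) (hxW : x ∈ Subgroup.normalizer (W : Set G))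
    (hxZ : x ∈ Subgroup.normalizer (Z : Set G))
    (hxE : ∀ e ∈ E, ∃ c ∈ Subgroup.centralizer (W : Set G), x * e * x⁻¹ = c * e) :
    ∀ w ∈ W, x * w * x⁻¹ * w⁻¹ ∈ Z := by
  classical
  have hxWc : ∀ w ∈ W, x * w * x⁻¹ ∈ W := fun w hw =>
    (Subgroup.mem_normalizer_iff.mp hxW w).mp hw
  have hxZc : ∀ z ∈ Z, x * z * x⁻¹ ∈ Z := fun z hz =>
    (Subgroup.mem_normalizer_iff.mp hxZ z).mp hz
  set U := fixSub W Z x hWab hxWc with hUdef
  have hZU : Z ≤ U := fun z hz =>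
    (mem_fixSub W Z x hWab hxWc z).2 ⟨hZW hz, Z.mul_mem (hxZc z hz) (Z.inv_mem hz)⟩
  have hUW : U ≤ W := fun u hu => ((mem_fixSub W Z x hWab hxWc u).1 hu).1
  have hUE : ∀ e ∈ E, ∀ u ∈ U, e * u * e⁻¹ ∈ U := by
    intro e he u hu
    obtain ⟨huW, huz⟩ := (mem_fixSub W Z x hWab hxWc u).1 hu
    have hEWc : ∀ w ∈ W, e * w * e⁻¹ ∈ W := fun w hw =>
      (Subgroup.mem_normalizer_iff.mp (hEW he) w).mp hw
    refine (mem_fixSub W Z x hWab hxWc _).2 ⟨hEWc u huW, ?_⟩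
    obtain ⟨c, hc, hxe⟩ := hxE e he
    have h1 : x * (e * u * e⁻¹) * x⁻¹ = (c * e) * (x * u * x⁻¹) * (c * e)⁻¹ := by
      rw [← hxe]; group
    have hv : e * (x * u * x⁻¹) * e⁻¹ ∈ W := hEWc _ (hxWc u huW)
    have h2 : (c * e) * (x * u * x⁻¹) * (c * e)⁻¹ = e * (x * u * x⁻¹) * e⁻¹ := by
      have hcc := (Subgroup.mem_centralizer_iff.mp hc) _ hv
      calc (c * e) * (x * u * x⁻¹) * (c * e)⁻¹ = (c * (e * (x * u * x⁻¹) * e⁻¹)) * c⁻¹ := by group
        _ = ((e * (x * u * x⁻¹) * e⁻¹) * c) * c⁻¹ := by rw [hcc]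
        _ = e * (x * u * x⁻¹) * e⁻¹ := by group
    have h3 : e * (x * u * x⁻¹) * e⁻¹ = (x * u * x⁻¹ * u⁻¹) * (e * u * e⁻¹) := by
      have hz := hZE _ huz e he
      calc e * (x * u * x⁻¹) * e⁻¹ = (e * (x * u * x⁻¹ * u⁻¹)) * (u * e⁻¹) := by group
        _ = ((x * u * x⁻¹ * u⁻¹) * e) * (u * e⁻¹) := by rw [hz]
        _ = (x * u * x⁻¹ * u⁻¹) * (e * u * e⁻¹) := by group
    rw [h1, h2, h3, mul_inv_cancel_right]
    exact huz
  rcases hirr U hZU hUW hUE with hUZ | hUW'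
  · -- `U = Z`: then `W = Z` by counting fixed cosets
    have hWZ : W ≤ Z := by
      by_contra hnot
      obtain ⟨w₀, hw₀W, hw₀Z⟩ := SetLike.not_le_iff_exists.mp hnot
      set P : Subgroup G := Subgroup.zpowers x with hPdef
      have hPnW : P ≤ Subgroup.normalizer (W : Set G) := Subgroup.zpowers_le.mpr hxW
      have hPnZ : P ≤ Subgroup.normalizer (Z : Set G) := Subgroup.zpowers_le.mpr hxZ
      have hPW : ∀ g ∈ P, ∀ w ∈ W, g * w * g⁻¹ ∈ W := fun g hg w hw =>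
        (Subgroup.mem_normalizer_iff.mp (hPnW hg) w).mp hw
      have hPZ : ∀ g ∈ P, ∀ z ∈ Z, g * z * g⁻¹ ∈ Z := fun g hg z hz =>
        (Subgroup.mem_normalizer_iff.mp (hPnZ hg) z).mp hz
      have hP : IsPGroup p ↥P := by
        obtain ⟨k, hk⟩ := hxp
        obtain ⟨j, -, hj⟩ := (Nat.dvd_prime_pow (Fact.out : p.Prime)).1 (orderOf_dvd_of_pow_eq_one hk)
        exact IsPGroup.of_card (n := j) (by rw [hPdef, Nat.card_zpowers, hj])
      letI act := cosetAction W Z P hPW hPZ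
      have h0 : (QuotientGroup.mk (1 : ↥W) : ↥W ⧸ Z.subgroupOf W) ∈
          MulAction.fixedPoints ↥P (↥W ⧸ Z.subgroupOf W) := by
        intro g
        rw [cosetAction_mk]
        congr 1
        apply Subtype.ext
        simp
      have hdvd : p ∣ Nat.card (↥W ⧸ Z.subgroupOf W) := by
        obtain ⟨n, hn⟩ := hWp.index (Z.subgroupOf W)
        have hn' : Nat.card (↥W ⧸ Z.subgroupOf W) = p ^ n := hn
        rw [hn']
        have hn0 : n ≠ 0 := by
          rintro rfl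
          rw [pow_zero, Subgroup.index_eq_one] at hn
          have : (⟨w₀, hw₀W⟩ : ↥W) ∈ Z.subgroupOf W := by rw [hn]; trivial
          exact hw₀Z (Subgroup.mem_subgroupOf.mp this)
        exact dvd_pow_self p hn0
      obtain ⟨b, hb, hb0⟩ :=
        hP.exists_fixed_point_of_prime_dvd_card_of_fixed_point (α := ↥W ⧸ Z.subgroupOf W) hdvd h0
      obtain ⟨w, rfl⟩ := QuotientGroup.mk_surjective b
      have hwZ : (w : G) ∉ Z := by
        intro hw
        apply hb0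
        rw [QuotientGroup.eq]
        rw [Subgroup.mem_subgroupOf]
        simpa using hw
      have hfix := hb ⟨x, Subgroup.mem_zpowers x⟩
      rw [cosetAction_mk, QuotientGroup.eq, Subgroup.mem_subgroupOf] at hfix
      have hfix' : (x * (w : G) * x⁻¹)⁻¹ * (w : G) ∈ Z := by
        simpa using hfix
      have hwU : (w : G) ∈ U := by
        refine (mem_fixSub W Z x hWab hxWc _).2 ⟨w.2, ?_⟩
        have hc := hWab _ (hxWc _ w.2) _ (W.inv_mem w.2)
        have e : x * (w : G) * x⁻¹ * (w : G)⁻¹ = ((x * (w : G) * x⁻¹)⁻¹ * (w : G))⁻¹ := by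
          rw [hc]; group
        rw [e]
        exact Z.inv_mem hfix'
      rw [hUZ] at hwU
      exact hwZ hwU
    intro w hw
    have hwU : w ∈ U := by rw [hUZ]; exact hWZ hw
    exact ((mem_fixSub W Z x hWab hxWc w).1 hwU).2
  · intro w hw
    have hwU : w ∈ U := by rw [hUW']; exact hw
    exact ((mem_fixSub W Z x hWab hxWc w).1 hwU).2

/-- `O^p(X)` inside the ambient group, as a closure -/
theorem pResidualOf_eq_closure {G : Type*} [Group G] (p : ℕ) (X : Subgroup G) :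
    Cfsg.pResidualOf p X = Subgroup.closure {g : G | g ∈ X ∧ Nat.Coprime (orderOf g) p} := by
  unfold Cfsg.pResidualOf Cfsg.pResidual
  rw [MonoidHom.map_closure]
  congr 1
  ext g
  constructor
  · rintro ⟨y, hy, rfl⟩
    refine ⟨y.2, ?_⟩
    have : orderOf ((X.subtype y : G)) = orderOf y := by
      simp
    rw [this]
    exact hy
  · rintro ⟨hgX, hg⟩
    refine ⟨⟨g, hgX⟩, ?_, rfl⟩
    have : orderOf (⟨g, hgX⟩ : ↥X) = orderOf g := by
      rw [← Subgroup.orderOf_coe]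
    show Nat.Coprime (orderOf (⟨g, hgX⟩ : ↥X)) p
    rw [this]
    exact hg

theorem res_sup {G : Type*} [Group G] [Finite G] (p : ℕ) [Fact p.Prime] (E R : Subgroup G)
    (hR : IsPGroup p ↥R) (hRE : R ≤ Subgroup.normalizer (E : Set G))
    (hres : Cfsg.pResidualOf p E = E) : Cfsg.pResidualOf p (E ⊔ R) = E := by
  have hp : p.Prime := Fact.out
  set M := Subgroup.normalizer (E : Set G) with hM
  have hXM : E ⊔ R ≤ M := sup_le Subgroup.le_normalizer hRE
  have hcop : ∀ y ∈ E ⊔ R, Nat.Coprime (orderOf y) p → y ∈ E := by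
    intro y hy hc
    have : (E.subgroupOf M).Normal := Subgroup.normal_in_normalizer
    have hmem : (⟨y, hXM hy⟩ : M) ∈ (E ⊔ R).subgroupOf M := by
      rw [Subgroup.mem_subgroupOf]; exact hy
    rw [Subgroup.subgroupOf_sup Subgroup.le_normalizer hRE] at hmem
    have hmap : (QuotientGroup.mk' (E.subgroupOf M)) ⟨y, hXM hy⟩ ∈
        (R.subgroupOf M).map (QuotientGroup.mk' (E.subgroupOf M)) := by
      have h1 := Subgroup.mem_map_of_mem (QuotientGroup.mk' (E.subgroupOf M)) hmem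
      rw [Subgroup.map_sup, QuotientGroup.map_mk'_self, bot_sup_eq] at h1
      exact h1
    have hRM : IsPGroup p ↥(R.subgroupOf M) := hR.comap_subtype
    have hmap2 : IsPGroup p ↥((R.subgroupOf M).map (QuotientGroup.mk' (E.subgroupOf M))) :=
      hRM.map _
    obtain ⟨n, hn⟩ := hmap2 ⟨_, hmap⟩
    have hn' : ((QuotientGroup.mk' (E.subgroupOf M)) ⟨y, hXM hy⟩) ^ (p ^ n) = 1 := by
      have := congrArg Subtype.val hn
      simpa using this
    have hord : ((QuotientGroup.mk' (E.subgroupOf M)) ⟨y, hXM hy⟩) ^ (orderOf y) = 1 := by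
      rw [← map_pow]
      have : (⟨y, hXM hy⟩ : M) ^ orderOf y = 1 := by
        ext; simp [pow_orderOf_eq_one]
      rw [this, map_one]
    have hcop' : Nat.Coprime (p ^ n) (orderOf y) := Nat.Coprime.pow_left n hc.symm
    have hone : (QuotientGroup.mk' (E.subgroupOf M)) ⟨y, hXM hy⟩ = 1 := by
      have h1 := orderOf_dvd_of_pow_eq_one hn'
      have h2 := orderOf_dvd_of_pow_eq_one hord
      have := Nat.eq_one_of_dvd_coprimes hcop' h1 h2
      exact orderOf_eq_one_iff.mp this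
    have : (⟨y, hXM hy⟩ : M) ∈ E.subgroupOf M := by
      rwa [QuotientGroup.mk'_apply, QuotientGroup.eq_one_iff] at hone
    exact Subgroup.mem_subgroupOf.mp this
  apply le_antisymm
  · rw [pResidualOf_eq_closure, Subgroup.closure_le]
    rintro g ⟨hg, hgc⟩
    exact hcop g hg hgc
  · conv_lhs => rw [← hres]
    rw [pResidualOf_eq_closure, pResidualOf_eq_closure]
    apply Subgroup.closure_mono
    rintro g ⟨hg, hgc⟩
    exact ⟨Subgroup.mem_sup_left hg, hgc⟩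

end Cfsg.Agent.Lib.Helper57.Jd
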