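import Mathlib

/-!
# Piece OU-AL1 (S2604): abstract group theory, `A/N ≅ Z₂ × Z_f`
-/

set_option autoImplicit false

namespace Cfsg.Agent.Lib.Helper57.OUAL1

theorem out_two_cyclic {A R : Type*} [Group A] [Group R] (N : Subgroup A) [N.Normal]
    (ρ : A →* R) (K : Subgroup A) (hK : ρ.ker = K) (f : ℕ) (hf : 1 ≤ f)
    (hR : Nat.card R = f) (hN : N ≤ K) (hidx : N.relIndex K = 2)
    (φ : A) (hφ : ∀ r : R, r ∈ Subgroup.zpowers (ρ φ)) (hφf : φ ^ f ∈ N) :
    Nonempty (A ⧸ N ≃* Multiplicative (ZMod 2 × ZMod f)) := by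
  classical
  have hRfin : Finite R := Nat.finite_of_card_ne_zero (by omega)
  have hord : orderOf (ρ φ) = f := by
    rw [← hR]
    exact orderOf_eq_card_of_forall_mem_zpowers hφ
  have hKn : K.Normal := hK ▸ ρ.normal_ker
  have hmemK : ∀ c : A, c ∈ K ↔ ρ c = 1 := fun c => by rw [← hK, MonoidHom.mem_ker]
  have hπ1 : ∀ c : A, (QuotientGroup.mk' N c = 1) ↔ c ∈ N := fun c =>
    QuotientGroup.eq_one_iff c
  -- the element `x = φ N`
  have hxf : (QuotientGroup.mk' N φ) ^ f = 1 := by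
    rw [← map_pow]
    exact (hπ1 _).mpr hφf
  have hpowK : ∀ k : ℤ, φ ^ k ∈ K → (QuotientGroup.mk' N φ) ^ k = 1 := by
    intro k hk
    rw [hmemK, map_zpow] at hk
    have hdvd : (orderOf (ρ φ) : ℤ) ∣ k := orderOf_dvd_iff_zpow_eq_one.mpr hk
    rw [hord] at hdvd
    obtain ⟨m, rfl⟩ := hdvd
    rw [zpow_mul, zpow_natCast, hxf, one_zpow]
  have hxord : orderOf (QuotientGroup.mk' N φ) = f := by
    apply Nat.dvd_antisymm (orderOf_dvd_of_pow_eq_one hxf)
    have h1 : (QuotientGroup.mk' N φ) ^ orderOf (QuotientGroup.mk' N φ) = 1 :=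
      pow_orderOf_eq_one _
    rw [← map_pow, hπ1] at h1
    have h2 : ρ φ ^ orderOf (QuotientGroup.mk' N φ) = 1 := by
      rw [← map_pow]
      exact (hmemK _).mp (hN h1)
    rw [← hord]
    exact orderOf_dvd_of_pow_eq_one h2
  -- the element `z = a N`
  obtain ⟨a, haK, ha⟩ := Subgroup.relIndex_eq_two_iff.mp hidx
  have haN : a ∉ N := by
    have h := ha 1 K.one_mem
    rw [one_mul] at h
    rcases h with ⟨_, h2⟩ | ⟨_, h2⟩
    · exact absurd N.one_mem h2
    · exact h2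
  have hKN : ∀ b ∈ K, b ∉ N → b * a ∈ N := by
    intro b hb hbN
    rcases ha b hb with ⟨h1, _⟩ | ⟨h1, _⟩
    · exact h1
    · exact absurd h1 hbN
  have hz1 : QuotientGroup.mk' N a ≠ 1 := fun h => haN ((hπ1 a).mp h)
  have hz2 : (QuotientGroup.mk' N a) ^ 2 = 1 := by
    rw [pow_two, ← map_mul, hπ1]
    exact hKN a haK haN
  have hzinv : (QuotientGroup.mk' N a)⁻¹ = QuotientGroup.mk' N a := by
    rw [inv_eq_iff_mul_eq_one, ← pow_two]
    exact hz2
  have hzord : orderOf (QuotientGroup.mk' N a) = 2 := orderOf_eq_prime hz2 hz1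
  have hKz : ∀ b ∈ K, QuotientGroup.mk' N b = 1 ∨ QuotientGroup.mk' N b = QuotientGroup.mk' N a := by
    intro b hb
    by_cases hbN : b ∈ N
    · exact Or.inl ((hπ1 b).mpr hbN)
    · right
      have h1 : QuotientGroup.mk' N b * QuotientGroup.mk' N a = 1 := by
        rw [← map_mul, hπ1]
        exact hKN b hb hbN
      rw [← hzinv]
      exact eq_inv_of_mul_eq_one_left h1
  have hzcent : ∀ g : A ⧸ N, Commute (QuotientGroup.mk' N a) g := by
    intro g
    obtain ⟨c, rfl⟩ := QuotientGroup.mk'_surjective N g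
    have h1 : c * a * c⁻¹ ∈ K := hKn.conj_mem a haK c
    have h2 : c * a * c⁻¹ ∉ N := by
      intro h
      apply haN
      have h3 := Subgroup.Normal.conj_mem (inferInstance : N.Normal) _ h c⁻¹
      have e : c⁻¹ * (c * a * c⁻¹) * c⁻¹⁻¹ = a := by group
      rwa [e] at h3
    have h3 : QuotientGroup.mk' N (c * a * c⁻¹) = QuotientGroup.mk' N a := by
      rcases hKz _ h1 with h | h
      · exact absurd ((hπ1 _).mp h) h2
      · exact h
    rw [map_mul, map_mul, map_inv] at h3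
    -- `h3 : mk c * mk a * (mk c)⁻¹ = mk a`
    have h4 : QuotientGroup.mk' N c * QuotientGroup.mk' N a
        = QuotientGroup.mk' N a * QuotientGroup.mk' N c := mul_inv_eq_iff_eq_mul.mp h3
    exact h4.symm
  obtain ⟨z, hzdef⟩ : ∃ z : A ⧸ N, QuotientGroup.mk' N a = z := ⟨_, rfl⟩
  rw [hzdef] at hz1 hz2 hzinv hzord hKz hzcent
  -- the isomorphism
  let Ψ : ↥(Subgroup.zpowers z) × ↥(Subgroup.zpowers (QuotientGroup.mk' N φ)) →* A ⧸ N :=
    MonoidHom.noncommCoprod (Subgroup.zpowers z).subtype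
      (Subgroup.zpowers (QuotientGroup.mk' N φ)).subtype (fun u v => by
        obtain ⟨i, hi⟩ := Subgroup.mem_zpowers_iff.mp u.2
        show Commute (u : A ⧸ N) (v : A ⧸ N)
        rw [← hi]
        exact (hzcent v).zpow_left i)
  have hΨ : ∀ u v, Ψ (u, v) = (u : A ⧸ N) * (v : A ⧸ N) := fun u v => rfl
  have hinj : Function.Injective Ψ := by
    rw [injective_iff_map_eq_one]
    rintro ⟨⟨u, hu⟩, ⟨v, hv⟩⟩ h
    rw [hΨ] at h
    change u * v = 1 at h
    obtain ⟨j, hj⟩ := Subgroup.mem_zpowers_iff.mp hv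
    obtain ⟨i, hi⟩ := Subgroup.mem_zpowers_iff.mp hu
    have hφj : φ ^ j ∈ K := by
      have h1 : a ^ i * φ ^ j ∈ N := by
        rw [← hπ1, map_mul, map_zpow, map_zpow, hzdef, hi, hj]
        exact h
      have h2 : a ^ i ∈ K := K.zpow_mem haK i
      have e : φ ^ j = (a ^ i)⁻¹ * (a ^ i * φ ^ j) := by group
      rw [e]
      exact K.mul_mem (K.inv_mem h2) (hN h1)
    have hv1 : v = 1 := by
      rw [← hj]
      exact hpowK j hφj
    have hu1 : u = 1 := by
      rw [hv1, mul_one] at h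
      exact h
    exact Prod.ext (Subtype.ext hu1) (Subtype.ext hv1)
  have hsurj : Function.Surjective Ψ := by
    intro g
    obtain ⟨c, rfl⟩ := QuotientGroup.mk'_surjective N g
    obtain ⟨j, hj⟩ := Subgroup.mem_zpowers_iff.mp (hφ (ρ c))
    have hb : c * (φ ^ j)⁻¹ ∈ K := by
      rw [hmemK, map_mul, map_inv, map_zpow, hj, mul_inv_cancel]
    have hbz : QuotientGroup.mk' N (c * (φ ^ j)⁻¹) ∈ Subgroup.zpowers z := by
      rcases hKz _ hb with h | h
      · rw [h]
        exact Subgroup.one_mem _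
      · rw [h]
        exact Subgroup.mem_zpowers z
    refine ⟨(⟨QuotientGroup.mk' N (c * (φ ^ j)⁻¹), hbz⟩,
      ⟨(QuotientGroup.mk' N φ) ^ j, Subgroup.zpow_mem_zpowers _ j⟩), ?_⟩
    rw [hΨ]
    show QuotientGroup.mk' N (c * (φ ^ j)⁻¹) * (QuotientGroup.mk' N φ) ^ j = QuotientGroup.mk' N c
    rw [← map_zpow, ← map_mul]
    congr 1
    group
  have e1 : ↥(Subgroup.zpowers z) × ↥(Subgroup.zpowers (QuotientGroup.mk' N φ)) ≃* A ⧸ N :=
    MulEquiv.ofBijective Ψ ⟨hinj, hsurj⟩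
  have e2 : ↥(Subgroup.zpowers z) ≃* Multiplicative (ZMod 2) :=
    mulEquivOfCyclicCardEq (by
      rw [Nat.card_zpowers, hzord]
      exact (Nat.card_zmod 2).symm)
  have e3 : ↥(Subgroup.zpowers (QuotientGroup.mk' N φ)) ≃* Multiplicative (ZMod f) :=
    mulEquivOfCyclicCardEq (by
      rw [Nat.card_zpowers, hxord]
      exact (Nat.card_zmod f).symm)
  exact ⟨(e1.symm.trans (MulEquiv.prodCongr e2 e3)).trans
    (MulEquiv.prodMultiplicative (ZMod 2) (ZMod f)).symm⟩

end Cfsg.Agent.Lib.Helper57.OUAL1
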