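import Mathlib
import Cfsg.Agent.Lib.Helper93.Sl3Defs

set_option autoImplicit false

/-! S2287 piece TORA (job of helper93): the torus `torusT h c` is normalized by `t` and `c`
and acts on the root map `x` by scalars.  helper57. -/

namespace Cfsg.Agent.Lib.Helper93.Sl3

section h57tora

variable {F : Type*} [Field F] {P : Type*} [Group P] {ζ : F} {x : F → P} {h t c : P}

theorem h57_tora_t (D : RootData ζ x h t c) (R : TorRel h t c) :
    ∀ τ ∈ torusT h c, t * τ * t⁻¹ ∈ torusT h c := by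
  have hh : h ∈ torusT h c := Subgroup.subset_closure (Set.mem_insert _ _)
  have hk : c * h * c⁻¹ ∈ torusT h c :=
    Subgroup.subset_closure (Set.mem_insert_of_mem _ (Set.mem_singleton _))
  have hle : Subgroup.closure {h, c * h * c⁻¹} ≤
      (torusT h c).comap (MulAut.conj t).toMonoidHom := by
    rw [Subgroup.closure_le]
    intro y hy
    change t * y * t⁻¹ ∈ torusT h c
    rcases hy with hy | hy
    · rw [hy, D.th]
      exact inv_mem hh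
    · have hy' : y = c * h * c⁻¹ := hy
      rw [hy', R.th2]
      exact mul_mem hh hk
  intro τ hτ
  exact hle hτ

theorem h57_tora_c (D : RootData ζ x h t c) (R : TorRel h t c) :
    ∀ τ ∈ torusT h c, c * τ * c⁻¹ ∈ torusT h c := by
  have hh : h ∈ torusT h c := Subgroup.subset_closure (Set.mem_insert _ _)
  have hk : c * h * c⁻¹ ∈ torusT h c :=
    Subgroup.subset_closure (Set.mem_insert_of_mem _ (Set.mem_singleton _))
  have hcc : c * c = c⁻¹ := by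
    have h3 := D.c3
    rw [pow_succ, pow_two] at h3
    exact eq_inv_of_mul_eq_one_left h3
  have hcc' : c⁻¹ * c⁻¹ = c := by rw [← mul_inv_rev, hcc, inv_inv]
  have e : c * (c * h * c⁻¹) * c⁻¹ = c⁻¹ * h * c := by
    calc c * (c * h * c⁻¹) * c⁻¹ = (c * c) * h * (c⁻¹ * c⁻¹) := by group
      _ = c⁻¹ * h * c := by rw [hcc, hcc']
  have hle : Subgroup.closure {h, c * h * c⁻¹} ≤
      (torusT h c).comap (MulAut.conj c).toMonoidHom := by
    rw [Subgroup.closure_le]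
    intro y hy
    change c * y * c⁻¹ ∈ torusT h c
    rcases hy with hy | hy
    · rw [hy]
      exact hk
    · have hy' : y = c * h * c⁻¹ := hy
      rw [hy', e, R.h3]
      exact inv_mem (mul_mem hh hk)
  intro τ hτ
  exact hle hτ

theorem h57_tora_x (D : RootData ζ x h t c) (hζ0 : ζ ≠ 0) :
    ∀ τ ∈ torusT h c, (∃ s : F, ∀ a, τ * x a * τ⁻¹ = x (s * a)) ∧
      (∃ s : F, ∀ a, τ⁻¹ * x a * τ = x (s * a)) := by
  intro τ hτ
  have hτ' : τ ∈ Subgroup.closure {h, c * h * c⁻¹} := hτ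
  clear hτ
  induction hτ' using Subgroup.closure_induction with
  | mem y hy =>
    rcases hy with hy | hy
    · rw [hy]
      refine ⟨⟨(ζ ^ 2)⁻¹, fun a => ?_⟩, ⟨ζ ^ 2, fun a => D.hconj a⟩⟩
      have h1 := D.hconj ((ζ ^ 2)⁻¹ * a)
      rw [← mul_assoc, mul_inv_cancel₀ (pow_ne_zero 2 hζ0), one_mul] at h1
      rw [← h1]
      group
    · have hy' : y = c * h * c⁻¹ := hy
      have hg : c * h * c⁻¹ = (gC h c)⁻¹ := by unfold gC; group
      rw [hy', hg]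
      refine ⟨⟨ζ, fun a => ?_⟩, ⟨ζ⁻¹, fun a => ?_⟩⟩
      · rw [inv_inv]
        exact D.gconj a
      · rw [inv_inv]
        have h1 := D.gconj (ζ⁻¹ * a)
        rw [← mul_assoc, mul_inv_cancel₀ hζ0, one_mul] at h1
        rw [← h1]
        group
  | one => exact ⟨⟨1, fun a => by simp⟩, ⟨1, fun a => by simp⟩⟩
  | mul τ₁ τ₂ _ _ ih₁ ih₂ =>
    obtain ⟨⟨s₁, hs₁⟩, ⟨s₁', hs₁'⟩⟩ := ih₁
    obtain ⟨⟨s₂, hs₂⟩, ⟨s₂', hs₂'⟩⟩ := ih₂
    refine ⟨⟨s₁ * s₂, fun a => ?_⟩, ⟨s₂' * s₁', fun a => ?_⟩⟩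
    · have e1 : τ₁ * τ₂ * x a * (τ₁ * τ₂)⁻¹ = τ₁ * (τ₂ * x a * τ₂⁻¹) * τ₁⁻¹ := by group
      rw [e1, hs₂, hs₁, mul_assoc]
    · have e1 : (τ₁ * τ₂)⁻¹ * x a * (τ₁ * τ₂) = τ₂⁻¹ * (τ₁⁻¹ * x a * τ₁) * τ₂ := by group
      rw [e1, hs₁', hs₂', mul_assoc]
  | inv τ₁ _ ih =>
    obtain ⟨⟨s, hs⟩, ⟨s', hs'⟩⟩ := ih
    refine ⟨⟨s', fun a => ?_⟩, ⟨s, fun a => ?_⟩⟩
    · rw [inv_inv]
      exact hs' a
    · rw [inv_inv]
      exact hs a

/-- TORA -/
theorem torus_act (D : RootData ζ x h t c) (R : TorRel h t c) (hζ0 : ζ ≠ 0) :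
    (∀ τ ∈ torusT h c, t * τ * t⁻¹ ∈ torusT h c) ∧
    (∀ τ ∈ torusT h c, c * τ * c⁻¹ ∈ torusT h c) ∧
    (∀ τ ∈ torusT h c, ∃ s : F, ∀ a, τ * x a * τ⁻¹ = x (s * a)) :=
  ⟨h57_tora_t D R, h57_tora_c D R, fun τ hτ => (h57_tora_x D hζ0 τ hτ).1⟩

end h57tora

end Cfsg.Agent.Lib.Helper93.Sl3
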