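import Mathlib
import Cfsg.Agent.Lib.Helper93.Sp4Defs

set_option autoImplicit false
set_option linter.unusedSimpArgs false

/-! Piece SP4-MATPW of the `Sp₄(F)` presentation project (S2293, poster helper93):
the word `pw f` evaluated on the matrices is `x_α(f(ζ))`.  helper57. -/

namespace Cfsg.Agent.Lib.Helper93.Sp4

open Polynomial Matrix

section mats

variable {F : Type*} [Field F]

theorem h57_sX_add (a b : F) : sX (a + b) = sX a * sX b := by
  apply Subtype.ext
  show (sX (a + b)).1 = (sX a).1 * (sX b).1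
  rw [sX_val, sX_val, sX_val, Matrix.fromBlocks_multiply]
  congr 1 <;> ext i j <;> fin_cases i <;> fin_cases j <;>
    simp [Matrix.mul_apply, Fin.sum_univ_two, add_comm]

theorem h57_sX_zero : sX (0 : F) = 1 := by
  have h := h57_sX_add (0 : F) 0
  rw [add_zero] at h
  exact left_eq_mul.mp h

theorem h57_sX_npow (a : F) (n : ℕ) : sX a ^ n = sX ((n : F) * a) := by
  induction n with
  | zero => rw [pow_zero, Nat.cast_zero, zero_mul, h57_sX_zero]
  | succ n ih =>
    rw [pow_succ, ih, ← h57_sX_add]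
    congr 1
    push_cast
    ring

theorem h57_hb_conj (ζ : F) (hζ0 : ζ ≠ 0) (a : F) :
    sHb ζ hζ0 * sX a = sX (ζ * a) * sHb ζ hζ0 := by
  apply Subtype.ext
  show (sHb ζ hζ0).1 * (sX a).1 = (sX (ζ * a)).1 * (sHb ζ hζ0).1
  rw [sX_val, sX_val, sHb_val, Matrix.fromBlocks_multiply, Matrix.fromBlocks_multiply]
  congr 1 <;> ext i j <;> fin_cases i <;> fin_cases j <;>
    simp [Matrix.mul_apply, Fin.sum_univ_two, hζ0, mul_comm] <;> field_simp

theorem h57_aC_mat (ζ : F) (hζ0 : ζ ≠ 0) (i : ℕ) :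
    Pres.aC (sX (1 : F)) (sHb ζ hζ0)⁻¹ i = sX (ζ ^ i) := by
  induction i with
  | zero => rw [Pres.aC_zero, pow_zero]
  | succ i ih =>
    rw [Pres.aC_succ, ih, inv_inv, h57_hb_conj, mul_assoc, mul_inv_cancel, mul_one, pow_succ,
      mul_comm]

/-- MATPW -/
theorem mat_a_pw (p : ℕ) [Fact p.Prime] [Algebra (ZMod p) F] (ζ : F) (hζ0 : ζ ≠ 0)
    (f : (ZMod p)[X]) :
    Pres.pw p (sX (1 : F)) (sHb ζ hζ0)⁻¹ f = sX (aeval ζ f) := by
  have key : ∀ n : ℕ,
      ((List.range n).map
        (fun i => Pres.aC (sX (1 : F)) (sHb ζ hζ0)⁻¹ i ^ (f.coeff i).val)).prod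
        = sX (∑ i ∈ Finset.range n, (f.coeff i) • ζ ^ i) := by
    intro n
    induction n with
    | zero => simp [h57_sX_zero]
    | succ n ih =>
      rw [List.range_succ, List.map_append, List.prod_append, ih, Finset.sum_range_succ]
      simp only [List.map_cons, List.map_nil, List.prod_cons, List.prod_nil, mul_one]
      rw [h57_aC_mat, h57_sX_npow, ← h57_sX_add]
      congr 2
      rw [Algebra.smul_def]
      congr 1
      conv_rhs => rw [← ZMod.natCast_zmod_val (f.coeff n)]
      rw [map_natCast]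
  rw [Pres.pw, key, aeval_eq_sum_range]

end mats

end Cfsg.Agent.Lib.Helper93.Sp4
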