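import Mathlib
import Cfsg.Prelude.Def_Classical
import Cfsg.Agent.Lib.Helper28.GU2

/-!
# Unit vectors are first columns of matrices of `SU 3 F q` (helper57, job S5319 U-X1)
-/

set_option autoImplicit false

namespace Cfsg.Agent.Lib.Helper57.Su3Col

open scoped Matrix

/-- `hermForm 3` in coordinates, with the Frobenius written as a ring hom. -/
theorem herm3_eq {F : Type*} [Field F] (q : ℕ) (φ : F →+* F) (hφ : ∀ a, φ a = a ^ q)
    (u v : Fin 3 → F) :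
    Cfsg.hermForm 3 F q u v = u 0 * φ (v 0) + u 1 * φ (v 1) + u 2 * φ (v 2) := by
  unfold Cfsg.hermForm
  rw [Fin.sum_univ_three, hφ, hφ, hφ]

/-- A vector orthogonal to a unit vector and of nonzero norm. -/
theorem exists_perp_ne {F : Type*} [Field F] (φ : F →+* F) (hφφ : ∀ a, φ (φ a) = a)
    (h2 : (2 : F) ≠ 0) (a b c : F) (he : a * φ a + b * φ b + c * φ c = 1) :
    ∃ v0 v1 v2 : F, v0 * φ a + v1 * φ b + v2 * φ c = 0 ∧
      v0 * φ v0 + v1 * φ v1 + v2 * φ v2 ≠ 0 := by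
  by_contra hcon
  push Not at hcon
  have h1 := hcon (φ b) (-φ a) 0 (by ring)
  have h3 := hcon (φ c) 0 (-φ a) (by ring)
  have h4 := hcon 0 (φ c) (-φ b) (by ring)
  simp only [map_neg, hφφ, map_zero] at h1 h3 h4
  apply h2
  linear_combination (-2 : F) * he + h1 + h3 + h4

/-- A unit vector orthogonal to a unit vector. -/
theorem exists_perp_unit {F : Type*} [Field F] [Fintype F] (q : ℕ)
    (hF : Fintype.card F = q ^ 2) (φ : F →+* F) (hφ : ∀ a, φ a = a ^ q)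
    (hφφ : ∀ a, φ (φ a) = a)
    (h2 : (2 : F) ≠ 0) (a b c : F) (he : a * φ a + b * φ b + c * φ c = 1) :
    ∃ f0 f1 f2 : F, f0 * φ a + f1 * φ b + f2 * φ c = 0 ∧
      f0 * φ f0 + f1 * φ f1 + f2 * φ f2 = 1 := by
  obtain ⟨v0, v1, v2, hv, hn⟩ := exists_perp_ne φ hφφ h2 a b c he
  set n : F := v0 * φ v0 + v1 * φ v1 + v2 * φ v2 with hndef
  have hφn : φ n = n := by
    rw [hndef]
    simp only [map_add, map_mul, hφφ]
    ring
  have hcard := Cfsg.Agent.Lib.Helper28.card_norm_fiber hF φ hφ (inv_ne_zero hn)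
    (by rw [map_inv₀, hφn])
  have hne : Nonempty {c : F // c * φ c = n⁻¹} := by
    have h0 : Nat.card {c : F // c * φ c = n⁻¹} ≠ 0 := by
      rw [hcard]
      omega
    exact (Nat.card_ne_zero.mp h0).1
  obtain ⟨s, hs⟩ := hne
  refine ⟨s * v0, s * v1, s * v2, ?_, ?_⟩
  · linear_combination s * hv
  · simp only [map_mul]
    have h1 : s * v0 * (φ s * φ v0) + s * v1 * (φ s * φ v1) + s * v2 * (φ s * φ v2) =
        (s * φ s) * n := by
      rw [hndef]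
      ring
    rw [h1, hs, inv_mul_cancel₀ hn]

/-- A matrix with orthonormal columns and determinant one is in `SU 3 F q`. -/
theorem su3_of_cols {F : Type*} [Field F] (q : ℕ) (φ : F →+* F)
    (hφ : ∀ a, φ a = a ^ q) (e f w : Fin 3 → F)
    (hee : e 0 * φ (e 0) + e 1 * φ (e 1) + e 2 * φ (e 2) = 1)
    (hef : e 0 * φ (f 0) + e 1 * φ (f 1) + e 2 * φ (f 2) = 0)
    (hew : e 0 * φ (w 0) + e 1 * φ (w 1) + e 2 * φ (w 2) = 0)
    (hfe : f 0 * φ (e 0) + f 1 * φ (e 1) + f 2 * φ (e 2) = 0)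
    (hff : f 0 * φ (f 0) + f 1 * φ (f 1) + f 2 * φ (f 2) = 1)
    (hfw : f 0 * φ (w 0) + f 1 * φ (w 1) + f 2 * φ (w 2) = 0)
    (hwe : w 0 * φ (e 0) + w 1 * φ (e 1) + w 2 * φ (e 2) = 0)
    (hwf : w 0 * φ (f 0) + w 1 * φ (f 1) + w 2 * φ (f 2) = 0)
    (hww : w 0 * φ (w 0) + w 1 * φ (w 1) + w 2 * φ (w 2) = 1)
    (hdet0 : e 0 * f 1 * w 2 - e 0 * w 1 * f 2 - f 0 * e 1 * w 2 + f 0 * w 1 * e 2 +
      w 0 * e 1 * f 2 - w 0 * f 1 * e 2 = 1) :
    ∃ U : ↥(Cfsg.SU 3 F q),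
      ((U : Matrix.SpecialLinearGroup (Fin 3) F) : Matrix (Fin 3) (Fin 3) F) *ᵥ ![1, 0, 0] = e := by
  set M : Matrix (Fin 3) (Fin 3) F :=
    Matrix.of ![![e 0, f 0, w 0], ![e 1, f 1, w 1], ![e 2, f 2, w 2]] with hM
  have hdet : M.det = 1 := by
    rw [Matrix.det_fin_three]
    exact hdet0
  have hmem : (⟨M, hdet⟩ : Matrix.SpecialLinearGroup (Fin 3) F) ∈ Cfsg.SU 3 F q := by
    show ∀ u v, Cfsg.hermForm 3 F q (M *ᵥ u) (M *ᵥ v) = Cfsg.hermForm 3 F q u v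
    intro u v
    rw [herm3_eq q φ hφ, herm3_eq q φ hφ]
    have hcoord : ∀ x : Fin 3 → F, (M *ᵥ x) 0 = e 0 * x 0 + f 0 * x 1 + w 0 * x 2 ∧
        (M *ᵥ x) 1 = e 1 * x 0 + f 1 * x 1 + w 1 * x 2 ∧
        (M *ᵥ x) 2 = e 2 * x 0 + f 2 * x 1 + w 2 * x 2 := by
      intro x
      simp [hM, Matrix.mulVec, dotProduct, Fin.sum_univ_three]
    rw [(hcoord u).1, (hcoord u).2.1, (hcoord u).2.2, (hcoord v).1, (hcoord v).2.1,
      (hcoord v).2.2]
    simp only [map_add, map_mul]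
    linear_combination (u 0 * φ (v 0)) * hee + (u 0 * φ (v 1)) * hef + (u 0 * φ (v 2)) * hew +
      (u 1 * φ (v 0)) * hfe + (u 1 * φ (v 1)) * hff + (u 1 * φ (v 2)) * hfw +
      (u 2 * φ (v 0)) * hwe + (u 2 * φ (v 1)) * hwf + (u 2 * φ (v 2)) * hww
  refine ⟨⟨⟨M, hdet⟩, hmem⟩, ?_⟩
  show M *ᵥ ![1, 0, 0] = e
  funext i
  fin_cases i <;> simp [hM, Matrix.mulVec, dotProduct, Fin.sum_univ_three]

theorem su3_exists_col {F : Type*} [Field F] [Fintype F] (q : ℕ) (hF : Fintype.card F = q ^ 2)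
    (hodd : q % 2 = 1) (e : Fin 3 → F) (he : Cfsg.hermForm 3 F q e e = 1) :
    ∃ U : ↥(Cfsg.SU 3 F q),
      ((U : Matrix.SpecialLinearGroup (Fin 3) F) : Matrix (Fin 3) (Fin 3) F) *ᵥ ![1, 0, 0] = e := by
  obtain ⟨φ, hφ, hφφ⟩ := Cfsg.Agent.Lib.Helper28.exists_frob hF
  have h2 : (2 : F) ≠ 0 := by
    apply Ring.two_ne_zero
    intro hchar
    have h1 := FiniteField.even_card_iff_char_two.mp hchar
    rw [hF, Nat.pow_mod, hodd] at h1
    norm_num at h1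
  rw [herm3_eq q φ hφ] at he
  obtain ⟨f0, f1, f2, hfe, hff⟩ := exists_perp_unit q hF φ hφ hφφ h2 (e 0) (e 1) (e 2) he
  have hef : e 0 * φ f0 + e 1 * φ f1 + e 2 * φ f2 = 0 := by
    have h1 := congrArg φ hfe
    simp only [map_add, map_mul, hφφ, map_zero] at h1
    linear_combination h1
  set f : Fin 3 → F := ![f0, f1, f2] with hfdef
  set w : Fin 3 → F := ![φ (e 1 * f2 - e 2 * f1), φ (e 2 * f0 - e 0 * f2),
    φ (e 0 * f1 - e 1 * f0)] with hwdef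
  have hf0 : f 0 = f0 := rfl
  have hf1 : f 1 = f1 := rfl
  have hf2 : f 2 = f2 := rfl
  have hw0 : w 0 = φ (e 1 * f2 - e 2 * f1) := rfl
  have hw1 : w 1 = φ (e 2 * f0 - e 0 * f2) := rfl
  have hw2 : w 2 = φ (e 0 * f1 - e 1 * f0) := rfl
  have hlag : (e 1 * f2 - e 2 * f1) * (φ (e 1) * φ f2 - φ (e 2) * φ f1) +
      (e 2 * f0 - e 0 * f2) * (φ (e 2) * φ f0 - φ (e 0) * φ f2) +
      (e 0 * f1 - e 1 * f0) * (φ (e 0) * φ f1 - φ (e 1) * φ f0) = 1 := by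
    linear_combination (f0 * φ f0 + f1 * φ f1 + f2 * φ f2) * he + hff -
      (e 0 * φ f0 + e 1 * φ f1 + e 2 * φ f2) * hfe
  refine su3_of_cols q φ hφ e f w he ?_ ?_ ?_ ?_ ?_ ?_ ?_ ?_ ?_
  · rw [hf0, hf1, hf2]; exact hef
  · rw [hw0, hw1, hw2]
    simp only [hφφ]
    ring
  · rw [hf0, hf1, hf2]; exact hfe
  · rw [hf0, hf1, hf2]; exact hff
  · rw [hf0, hf1, hf2, hw0, hw1, hw2]
    simp only [hφφ]
    ring
  · rw [hw0, hw1, hw2]
    simp only [map_sub, map_mul]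
    ring
  · rw [hf0, hf1, hf2, hw0, hw1, hw2]
    simp only [map_sub, map_mul]
    ring
  · rw [hw0, hw1, hw2]
    simp only [hφφ, map_sub, map_mul]
    linear_combination hlag
  · rw [hf0, hf1, hf2, hw0, hw1, hw2]
    simp only [map_sub, map_mul]
    linear_combination hlag

end Cfsg.Agent.Lib.Helper57.Su3Col
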