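import Mathlib

/-! Groups generated by 3-cycles: a transitive one is the alternating group of its support
(through Jordan's theorem).  helper57, for S2929. -/

set_option autoImplicit false

namespace Cfsg.Agent.Lib.Helper57.ThreeCyc

open Equiv Equiv.Perm MulAction
open scoped Pointwise

variable {α : Type*} [Fintype α] [DecidableEq α]

/-- a generator which is a 3-cycle fixes every nontrivial block -/
theorem threeCycle_smul_block (c : Perm α) (hc : c.IsThreeCycle) (B : Set α)
    (hB : c • B = B ∨ Disjoint (c • B) B) (hns : B.Nontrivial) : c • B = B := by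
  rcases hB with h | h
  · exact h
  · exfalso
    obtain ⟨b₁, hb₁, b₂, hb₂, hne⟩ := hns
    have hm : ∀ b ∈ B, c b ∉ B := by
      intro b hb hcb
      exact Set.disjoint_left.mp h (Set.smul_mem_smul_set hb) hcb
    have h1 : c b₁ ≠ b₁ := fun e => hm b₁ hb₁ (by rw [e]; exact hb₁)
    have h2 : c b₂ ≠ b₂ := fun e => hm b₂ hb₂ (by rw [e]; exact hb₂)
    have h3 : c b₁ ≠ c b₂ := fun e => hne (c.injective e)
    have h4 : c b₁ ≠ b₂ := fun e => hm b₁ hb₁ (by rw [e]; exact hb₂)
    have h5 : c b₂ ≠ b₁ := fun e => hm b₂ hb₂ (by rw [e]; exact hb₁)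
    have hsub : ({b₁, b₂, c b₁, c b₂} : Finset α) ⊆ c.support := by
      intro x hx
      simp only [Finset.mem_insert, Finset.mem_singleton] at hx
      rcases hx with rfl | rfl | rfl | rfl
      · exact mem_support.mpr h1
      · exact mem_support.mpr h2
      · exact apply_mem_support.mpr (mem_support.mpr h1)
      · exact apply_mem_support.mpr (mem_support.mpr h2)
    have hcard : ({b₁, b₂, c b₁, c b₂} : Finset α).card = 4 := by
      rw [Finset.card_insert_of_notMem, Finset.card_insert_of_notMem, Finset.card_pair h3]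
      · simp only [Finset.mem_insert, Finset.mem_singleton, not_or]
        exact ⟨fun e => h4 e.symm, fun e => h2 e.symm⟩
      · simp only [Finset.mem_insert, Finset.mem_singleton, not_or]
        exact ⟨hne, fun e => h1 e.symm, fun e => h5 e.symm⟩
    have := Finset.card_le_card hsub
    rw [hcard, hc.card_support] at this
    omega

/-- a transitive group generated by 3-cycles is primitive -/
theorem isPreprimitive_of_threeCycles (T : Set (Perm α)) (hT : ∀ c ∈ T, c.IsThreeCycle)
    [hpt : IsPretransitive (Subgroup.closure T) α] :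
    IsPreprimitive (Subgroup.closure T) α := by
  refine { isTrivialBlock_of_isBlock := ?_ }
  intro B hB
  by_contra htriv
  unfold IsTrivialBlock at htriv
  push Not at htriv
  obtain ⟨hns, hne⟩ := htriv
  rw [isBlock_iff_smul_eq_or_disjoint] at hB
  have hgen : ∀ c ∈ T, (c : Perm α) • B = B := by
    intro c hc
    exact threeCycle_smul_block c (hT c hc) B (hB ⟨c, Subgroup.subset_closure hc⟩) hns
  have hall : ∀ g ∈ Subgroup.closure T, (g : Perm α) • B = B := by
    intro g hg
    induction hg using Subgroup.closure_induction with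
    | mem c hc => exact hgen c hc
    | one => exact one_smul _ B
    | mul x y _ _ hx hy => rw [mul_smul, hy, hx]
    | inv x _ hx => rw [inv_smul_eq_iff, hx]
  obtain ⟨b₁, hb₁, -⟩ := hns
  apply hne
  rw [Set.eq_univ_iff_forall]
  intro y
  obtain ⟨g, hg⟩ := hpt.exists_smul_eq b₁ y
  have := hall g.1 g.2
  rw [← this, ← hg]
  exact Set.smul_mem_smul_set hb₁

/-- a group generated by 3-cycles supported in `Ω` and transitive on `Ω` is `Alt(Ω)` -/
theorem closure_threeCycles_eq (T : Set (Perm α)) (hT : ∀ c ∈ T, c.IsThreeCycle)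
    (hne : T.Nonempty) (Ω : Finset α) (hsupp : ∀ c ∈ T, ∀ x, c x ≠ x → x ∈ Ω)
    (htrans : ∀ x ∈ Ω, ∀ y ∈ Ω, ∃ g ∈ Subgroup.closure T, g x = y) :
    Subgroup.closure T = (alternatingGroup {x // x ∈ Ω}).map
      (ofSubtype : Perm {x // x ∈ Ω} →* Perm α) := by
  obtain ⟨f, hf⟩ : ∃ f : Perm {x // x ∈ Ω} →* Perm α, f = ofSubtype := ⟨_, rfl⟩
  obtain ⟨T', hT'⟩ : ∃ T' : Set (Perm {x // x ∈ Ω}), T' = {c' | f c' ∈ T} := ⟨_, rfl⟩
  have himg : f '' T' = T := by
    ext c; constructor
    · rintro ⟨c', hc', rfl⟩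
      rw [hT'] at hc'
      exact hc'
    · intro hc
      have hr : c ∈ (ofSubtype : Perm {x // x ∈ Ω} →* Perm α).range := by
        rw [mem_range_ofSubtype_iff]
        intro x hx
        exact hsupp c hc x (by simpa using hx)
      obtain ⟨c', rfl⟩ := hr
      refine ⟨c', ?_, by rw [hf]⟩
      rw [hT', Set.mem_ofPred_eq, hf]
      exact hc
  have hT'3 : ∀ c' ∈ T', c'.IsThreeCycle := by
    intro c' hc'
    rw [hT', Set.mem_ofPred_eq, hf] at hc'
    have h3 := hT _ hc'
    unfold IsThreeCycle at h3 ⊢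
    rwa [cycleType_ofSubtype] at h3
  have hmap : (Subgroup.closure T').map f = Subgroup.closure T := by
    rw [MonoidHom.map_closure, himg]
  have hle : Subgroup.closure T' ≤ alternatingGroup {x // x ∈ Ω} := by
    rw [Subgroup.closure_le]
    intro c' hc'
    exact (hT'3 c' hc').mem_alternatingGroup
  have hpt : IsPretransitive (Subgroup.closure T') {x // x ∈ Ω} := by
    constructor
    intro x y
    obtain ⟨g, hg, hgxy⟩ := htrans x.1 x.2 y.1 y.2
    rw [← hmap] at hg
    obtain ⟨g', hg', rfl⟩ := hg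
    refine ⟨⟨g', hg'⟩, ?_⟩
    apply Subtype.ext
    rw [← hgxy, hf]
    exact (ofSubtype_apply_coe g' x).symm
  have hprim : IsPreprimitive (Subgroup.closure T') {x // x ∈ Ω} :=
    isPreprimitive_of_threeCycles T' hT'3
  obtain ⟨c, hc⟩ := hne
  rw [← himg] at hc
  obtain ⟨c', hc', -⟩ := hc
  have hge : alternatingGroup {x // x ∈ Ω} ≤ Subgroup.closure T' :=
    alternatingGroup_le_of_isPreprimitive_of_isThreeCycle_mem hprim (hT'3 c' hc')
      (Subgroup.subset_closure hc')
  rw [← hmap, le_antisymm hle hge, hf]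

end Cfsg.Agent.Lib.Helper57.ThreeCyc
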