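import Mathlib
import Cfsg.Agent.Lib.Helper57.Basic
import Cfsg.Agent.Lib.Helper57.ThreeCyc

/-! Permutation-group lemmas for S2929: perfect normal subgroups of `Alt(Ω)`, 3-cycles in a Sylow
3-subgroup of the symmetric group, a 3-cycle is not central in a perfect group.  helper57. -/

set_option autoImplicit false

namespace Cfsg.Agent.Lib.Helper57.ThreeCyc

open Equiv Equiv.Perm MulAction
open scoped Pointwise commutatorElement

set_option linter.style.haveILetI false
set_option linter.unusedSectionVars false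

section S4

theorem tc_a4_comm_sq : ∀ a b : alternatingGroup (Fin 4),
    (a * b * a⁻¹ * b⁻¹) * (a * b * a⁻¹ * b⁻¹) = 1 := by decide +kernel

theorem tc_a4_sq_mul : ∀ a b : alternatingGroup (Fin 4), a * a = 1 → b * b = 1 →
    (a * b) * (a * b) = 1 := by decide +kernel

theorem tc_a4_sq_inv : ∀ a : alternatingGroup (Fin 4), a * a = 1 → a⁻¹ * a⁻¹ = 1 := by
  decide +kernel

theorem tc_a4_sq_comm : ∀ a b : alternatingGroup (Fin 4), a * a = 1 → b * b = 1 →
    a * b = b * a := by decide +kernel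

theorem tc_solvable_A4 : Group.IsSolvable (alternatingGroup (Fin 4)) := by
  let V : Subgroup (alternatingGroup (Fin 4)) :=
    { carrier := {g | g * g = 1}
      mul_mem' := fun ha hb => tc_a4_sq_mul _ _ ha hb
      one_mem' := by simp
      inv_mem' := fun ha => tc_a4_sq_inv _ ha }
  refine ⟨⟨2, ?_⟩⟩
  rw [eq_bot_iff, derivedSeries_succ, derivedSeries_succ, derivedSeries_zero]
  have h1 : ⁅(⊤ : Subgroup (alternatingGroup (Fin 4))), ⊤⁆ ≤ V :=
    Subgroup.commutator_le.2 (fun a _ b _ => by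
      rw [commutatorElement_def]; exact tc_a4_comm_sq a b)
  refine le_trans (Subgroup.commutator_mono h1 h1) ?_
  rw [Subgroup.commutator_le]
  intro a ha b hb
  rw [Subgroup.mem_bot, commutatorElement_eq_one_iff_mul_comm]
  exact tc_a4_sq_comm a b ha hb

theorem tc_solvable_S4 : Group.IsSolvable (Perm (Fin 4)) := by
  have hN : (alternatingGroup (Fin 4)).index = 2 := alternatingGroup.index_eq_two
  haveI := Subgroup.normal_of_index_eq_two hN
  have hc : Nat.card (Perm (Fin 4) ⧸ alternatingGroup (Fin 4)) = 2 := hN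
  haveI : Fact (Nat.Prime 2) := ⟨Nat.prime_two⟩
  haveI : IsCyclic (Perm (Fin 4) ⧸ alternatingGroup (Fin 4)) :=
    isCyclic_of_prime_card (p := 2) hc
  haveI : Group.IsSolvable (Perm (Fin 4) ⧸ alternatingGroup (Fin 4)) :=
    Group.isSolvable_of_comm (fun a b => IsCyclic.commGroup.mul_comm a b)
  haveI := tc_solvable_A4
  exact Group.isSolvable_of_ker_le_range (alternatingGroup (Fin 4)).subtype
    (QuotientGroup.mk' (alternatingGroup (Fin 4))) (by simp)

end S4

variable {α : Type*} [Fintype α] [DecidableEq α]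

/-- a perfect nontrivial subgroup of `Alt(Ω)` normalised by `Alt(Ω)` is `Alt(Ω)`, and
`|Ω| ≥ 5` -/
theorem eq_of_normal_in_alt (Ω : Finset α) (L : Subgroup (Perm α))
    (hL : L ≤ (alternatingGroup {x // x ∈ Ω}).map (ofSubtype : Perm {x // x ∈ Ω} →* Perm α))
    (hn : ∀ g ∈ (alternatingGroup {x // x ∈ Ω}).map (ofSubtype : Perm {x // x ∈ Ω} →* Perm α),
      ∀ x ∈ L, g * x * g⁻¹ ∈ L)
    (hperf : ⁅L, L⁆ = L) (hne : L ≠ ⊥) :
    5 ≤ Ω.card ∧
      L = (alternatingGroup {x // x ∈ Ω}).map (ofSubtype : Perm {x // x ∈ Ω} →* Perm α) := by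
  obtain ⟨f, hf⟩ : ∃ f : Perm {x // x ∈ Ω} →* Perm α, f = ofSubtype := ⟨_, rfl⟩
  have hfinj : Function.Injective f := by rw [hf]; exact ofSubtype_injective
  rw [← hf] at hL hn ⊢
  obtain ⟨L₁, hL₁def⟩ : ∃ L₁ : Subgroup (Perm {x // x ∈ Ω}), L₁ = L.comap f := ⟨_, rfl⟩
  have hL₁ : L₁.map f = L := by
    rw [hL₁def, Subgroup.map_comap_eq, inf_eq_right]
    exact hL.trans (Subgroup.map_le_range _ _)
  have hperf₁ : ⁅L₁, L₁⁆ = L₁ := by
    apply Subgroup.map_injective hfinj
    rw [Subgroup.map_commutator, hL₁, hperf]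
  have hne₁ : L₁ ≠ ⊥ := by
    intro h
    apply hne
    rw [← hL₁, h, Subgroup.map_bot]
  have hL₁A : L₁ ≤ alternatingGroup {x // x ∈ Ω} := by
    intro x hx
    rw [hL₁def] at hx
    obtain ⟨y, hy, hxy⟩ := hL hx
    rw [← hfinj hxy]
    exact hy
  have h5 : 5 ≤ Ω.card := by
    by_contra hlt
    push Not at hlt
    have hsol : Group.IsSolvable (Perm {x // x ∈ Ω}) := by
      have hcard : Fintype.card {x // x ∈ Ω} ≤ Fintype.card (Fin 4) := by
        rw [Fintype.card_coe, Fintype.card_fin]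
        omega
      obtain ⟨ι⟩ := Function.Embedding.nonempty_of_card_le hcard
      haveI := tc_solvable_S4
      exact Group.isSolvable_of_isSolvable_injective (viaEmbeddingHom_injective ι)
    haveI : Group.IsPerfect ↥L₁ := (Subgroup.isPerfect_iff).mpr hperf₁
    haveI : Nontrivial ↥L₁ := (Subgroup.nontrivial_iff_ne_bot L₁).mpr hne₁
    exact Group.IsPerfect.not_isSolvable ↥L₁ inferInstance
  refine ⟨h5, ?_⟩
  have hsimple : IsSimpleGroup (alternatingGroup {x // x ∈ Ω}) :=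
    alternatingGroup.isSimpleGroup (by
      rw [Nat.card_eq_fintype_card, Fintype.card_coe]
      exact h5)
  have hnorm : (L₁.subgroupOf (alternatingGroup {x // x ∈ Ω})).Normal := by
    constructor
    intro x hx g
    rw [Subgroup.mem_subgroupOf] at hx ⊢
    rw [hL₁def] at hx ⊢
    show f ((g : Perm {x // x ∈ Ω}) * (x : Perm {x // x ∈ Ω}) * (g : Perm {x // x ∈ Ω})⁻¹) ∈ L
    rw [map_mul, map_mul, map_inv]
    exact hn _ (Subgroup.mem_map_of_mem f g.2) _ hx
  rcases hnorm.eq_bot_or_eq_top with h0 | h1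
  · exfalso
    apply hne₁
    rw [Subgroup.subgroupOf_eq_bot] at h0
    exact (disjoint_iff.mp h0) ▸ (le_inf (le_refl L₁) hL₁A) |> le_bot_iff.mp
  · rw [Subgroup.subgroupOf_eq_top] at h1
    rw [← hL₁, le_antisymm hL₁A h1]

/-- every point of `Ω` is moved by `Alt(Ω)` when `|Ω| ≥ 3` -/
theorem exists_moving (Ω : Finset α) (h3 : 3 ≤ Ω.card) (x : α) (hx : x ∈ Ω) :
    ∃ g ∈ (alternatingGroup {x // x ∈ Ω}).map (ofSubtype : Perm {x // x ∈ Ω} →* Perm α),
      g x ≠ x := by
  have h2 : 1 < (Ω.erase x).card := by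
    rw [Finset.card_erase_of_mem hx]
    omega
  obtain ⟨y, hy, z, hz, hyz⟩ := Finset.one_lt_card.mp h2
  rw [Finset.mem_erase] at hy hz
  have hxy : (⟨x, hx⟩ : {x // x ∈ Ω}) ≠ ⟨y, hy.2⟩ := fun h => hy.1 (congrArg Subtype.val h).symm
  have hxz : (⟨x, hx⟩ : {x // x ∈ Ω}) ≠ ⟨z, hz.2⟩ := fun h => hz.1 (congrArg Subtype.val h).symm
  have hyz' : (⟨y, hy.2⟩ : {x // x ∈ Ω}) ≠ ⟨z, hz.2⟩ := fun h => hyz (congrArg Subtype.val h)
  refine ⟨ofSubtype (swap (⟨x, hx⟩ : {x // x ∈ Ω}) ⟨y, hy.2⟩ * swap ⟨x, hx⟩ ⟨z, hz.2⟩),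
    Subgroup.mem_map_of_mem _ (isThreeCycle_swap_mul_swap_same hxy hxz hyz').mem_alternatingGroup,
    ?_⟩
  rw [ofSubtype_apply_of_mem _ hx, Perm.mul_apply, swap_apply_left,
    swap_apply_of_ne_of_ne hxz.symm hyz'.symm]
  exact hz.1

/-- `Alt(Ω)` moves only points of `Ω` -/
theorem mem_of_moved (Ω : Finset α) (g : Perm α)
    (hg : g ∈ (alternatingGroup {x // x ∈ Ω}).map (ofSubtype : Perm {x // x ∈ Ω} →* Perm α))
    (x : α) (hx : g x ≠ x) : x ∈ Ω := by
  obtain ⟨g', -, rfl⟩ := hg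
  by_contra h
  exact hx (ofSubtype_apply_of_not_mem g' h)

/-- a 3-cycle cannot be central in a perfect group of permutations -/
theorem not_central_threeCycle (L : Subgroup (Perm α)) (hperf : ⁅L, L⁆ = L) (c : Perm α)
    (hc : c.IsThreeCycle) (hcL : c ∈ L) (hcomm : ∀ x ∈ L, c * x = x * c) : False := by
  obtain ⟨a, ha⟩ : ∃ a, c a ≠ a := by
    by_contra h
    push Not at h
    have h1 : c = 1 := Perm.ext h
    have h2 := hc.card_support
    rw [h1, support_one, Finset.card_empty] at h2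
    omega
  have hcz : ∀ x ∈ L, ∀ i : ℤ, ∀ y, x ((c ^ i) y) = (c ^ i) (x y) := by
    intro x hx i y
    have h1 : Commute c x := hcomm x hx
    have h2 : Commute (c ^ i) x := h1.zpow_left i
    have h3 := congrArg (fun p : Perm α => p y) h2.eq
    simp only [Perm.mul_apply] at h3
    exact h3.symm
  have hpow : ∀ x ∈ L, ∃ i : ℤ, x a = (c ^ i) a := by
    intro x hx
    have hxa : c (x a) ≠ x a := by
      intro h
      have h3 := congrArg (fun p : Perm α => p a) (hcomm x hx)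
      simp only [Perm.mul_apply] at h3
      rw [h] at h3
      exact ha (x.injective h3).symm
    obtain ⟨i, hi⟩ := hc.isCycle.exists_zpow_eq ha hxa
    exact ⟨i, hi.symm⟩
  have hstab : L ≤ MulAction.stabilizer (Perm α) a := by
    rw [← hperf, Subgroup.commutator_le]
    intro u hu v hv
    rw [MulAction.mem_stabilizer_iff]
    obtain ⟨i, hi⟩ := hpow u hu
    obtain ⟨j, hj⟩ := hpow v hv
    have hv' : v⁻¹ a = (c ^ (-j)) a := by
      rw [Perm.inv_eq_iff_eq, hcz v hv, hj, ← Perm.mul_apply, ← zpow_add]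
      simp
    have hu' : u⁻¹ ((c ^ (-j)) a) = (c ^ (-j - i)) a := by
      rw [Perm.inv_eq_iff_eq, hcz u hu, hi, ← Perm.mul_apply, ← zpow_add]
      congr 2
      ring
    show (⁅u, v⁆ : Perm α) a = a
    rw [commutatorElement_def]
    simp only [Perm.mul_apply]
    have s3 : v ((c ^ (-j - i)) a) = (c ^ (-i)) a := by
      rw [hcz v hv, hj, ← Perm.mul_apply, ← zpow_add]
      congr 2
      ring
    have s4 : u ((c ^ (-i)) a) = a := by
      rw [hcz u hu, hi, ← Perm.mul_apply, ← zpow_add]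
      simp
    rw [hv', hu', s3, s4]
  have h4 := hstab hcL
  rw [MulAction.mem_stabilizer_iff] at h4
  exact ha h4

end Cfsg.Agent.Lib.Helper57.ThreeCyc
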