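import Mathlib
import Cfsg.Agent.Lib.Helper57.Basic
import Cfsg.Agent.Lib.Helper57.ThreeCyc
import Cfsg.Agent.Lib.Helper57.ThreeCyc2

/-! 3-cycles in a Sylow 3-subgroup of the symmetric group.  helper57, for S2929. -/

set_option autoImplicit false

namespace Cfsg.Agent.Lib.Helper57.ThreeCyc

open Equiv Equiv.Perm MulAction
open scoped Pointwise commutatorElement

set_option linter.style.haveILetI false

/-- a Sylow 3-subgroup of `Sym(n)` contains 3-cycles moving all but at most two points -/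
theorem exists_threeCycles_of_sylow (n : ℕ) (P : Sylow 3 (Perm (Fin n))) :
    ∃ S : Finset (Fin n), n ≤ S.card + 2 ∧
      ∀ x ∈ S, ∃ c ∈ (P : Subgroup (Perm (Fin n))), c.IsThreeCycle ∧ c x ≠ x := by
  classical
  obtain ⟨t, ht⟩ : ∃ t : ℕ, t = n / 3 := ⟨_, rfl⟩
  have ha : ∀ j : Fin t, 3 * j.1 + 2 < n := by
    intro j
    have := j.2
    omega
  obtain ⟨a, ha'⟩ : ∃ a : Fin t → Fin n, ∀ j, (a j).1 = 3 * j.1 :=
    ⟨fun j => ⟨3 * j.1, by have := ha j; omega⟩, fun j => rfl⟩
  obtain ⟨b, hb'⟩ : ∃ b : Fin t → Fin n, ∀ j, (b j).1 = 3 * j.1 + 1 :=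
    ⟨fun j => ⟨3 * j.1 + 1, by have := ha j; omega⟩, fun j => rfl⟩
  obtain ⟨d, hd'⟩ : ∃ d : Fin t → Fin n, ∀ j, (d j).1 = 3 * j.1 + 2 :=
    ⟨fun j => ⟨3 * j.1 + 2, ha j⟩, fun j => rfl⟩
  have hab : ∀ j, a j ≠ b j := by
    intro j h
    have := congrArg Fin.val h
    rw [ha', hb'] at this
    omega
  have had : ∀ j, a j ≠ d j := by
    intro j h
    have := congrArg Fin.val h
    rw [ha', hd'] at this
    omega
  have hbd : ∀ j, b j ≠ d j := by
    intro j h
    have := congrArg Fin.val h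
    rw [hb', hd'] at this
    omega
  obtain ⟨c, hcdef⟩ : ∃ c : Fin t → Perm (Fin n),
      ∀ j, c j = swap (a j) (b j) * swap (a j) (d j) := ⟨_, fun j => rfl⟩
  have hc3 : ∀ j, (c j).IsThreeCycle := fun j => by
    rw [hcdef]
    exact isThreeCycle_swap_mul_swap_same (hab j) (had j) (hbd j)
  have hfix : ∀ (j : Fin t) (x : Fin n), x.1 / 3 ≠ j.1 → c j x = x := by
    intro j x hx
    have h1 : x ≠ a j := by
      intro h
      have := congrArg Fin.val h
      rw [ha'] at this
      omega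
    have h2 : x ≠ b j := by
      intro h
      have := congrArg Fin.val h
      rw [hb'] at this
      omega
    have h3 : x ≠ d j := by
      intro h
      have := congrArg Fin.val h
      rw [hd'] at this
      omega
    rw [hcdef, Perm.mul_apply, swap_apply_of_ne_of_ne h1 h3, swap_apply_of_ne_of_ne h1 h2]
  have hmove : ∀ (j : Fin t) (x : Fin n), x.1 / 3 = j.1 → c j x ≠ x := by
    intro j x hx
    have hcases : x = a j ∨ x = b j ∨ x = d j := by
      have h1 : x.1 = 3 * j.1 ∨ x.1 = 3 * j.1 + 1 ∨ x.1 = 3 * j.1 + 2 := by omega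
      rcases h1 with h | h | h
      · left; apply Fin.ext; rw [ha']; exact h
      · right; left; apply Fin.ext; rw [hb']; exact h
      · right; right; apply Fin.ext; rw [hd']; exact h
    rcases hcases with rfl | rfl | rfl
    · rw [hcdef, Perm.mul_apply, swap_apply_left, swap_apply_of_ne_of_ne (had j).symm (hbd j).symm]
      exact (had j).symm
    · rw [hcdef, Perm.mul_apply, swap_apply_of_ne_of_ne (hab j).symm (hbd j), swap_apply_right]
      exact hab j
    · rw [hcdef, Perm.mul_apply, swap_apply_right, swap_apply_left]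
      exact hbd j
  have hcomm : ∀ i j, Commute (c i) (c j) := by
    intro i j
    by_cases hij : i = j
    · subst hij; exact Commute.refl _
    · apply Disjoint.commute
      intro x
      by_cases hx : x.1 / 3 = i.1
      · right
        apply hfix
        rw [hx]
        exact fun h => hij (Fin.ext h)
      · left
        exact hfix i x hx
  obtain ⟨Q, hQdef⟩ : ∃ Q : Subgroup (Perm (Fin n)), Q = Subgroup.closure (Set.range c) :=
    ⟨_, rfl⟩
  have hQ1 : Q ≤ Subgroup.centralizer (Set.range c) := by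
    rw [hQdef, Subgroup.closure_le]
    rintro _ ⟨i, rfl⟩
    rw [SetLike.mem_coe, Subgroup.mem_centralizer_iff]
    rintro _ ⟨j, rfl⟩
    exact (hcomm j i).eq
  have hQ2 : Q ≤ Subgroup.centralizer (Q : Set (Perm (Fin n))) := by
    conv_lhs => rw [hQdef]
    rw [Subgroup.closure_le]
    rintro _ ⟨i, rfl⟩
    rw [SetLike.mem_coe, Subgroup.mem_centralizer_iff]
    intro y hy
    have h1 := hQ1 hy
    rw [Subgroup.mem_centralizer_iff] at h1
    exact (h1 (c i) ⟨i, rfl⟩).symm
  have hQcomm : ∀ x ∈ Q, ∀ y ∈ Q, Commute x y := by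
    intro x hx y hy
    have h1 := hQ2 hx
    rw [Subgroup.mem_centralizer_iff] at h1
    exact (h1 y hy).symm
  have hQ3 : ∀ x ∈ Q, x ^ 3 = 1 := by
    intro x hx
    have hx' := hx
    rw [hQdef] at hx'
    induction hx' using Subgroup.closure_induction with
    | mem y hy =>
      obtain ⟨j, rfl⟩ := hy
      rw [← (hc3 j).orderOf]
      exact pow_orderOf_eq_one _
    | one => exact one_pow 3
    | mul x y hx1 hy1 ihx ihy =>
      have hxQ : x ∈ Q := by rw [hQdef]; exact hx1
      have hyQ : y ∈ Q := by rw [hQdef]; exact hy1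
      rw [(hQcomm x hxQ y hyQ).mul_pow, ihx hxQ, ihy hyQ, one_mul]
    | inv x hx1 ih =>
      have hxQ : x ∈ Q := by rw [hQdef]; exact hx1
      rw [inv_pow, ih hxQ, inv_one]
  have hQp : IsPGroup 3 ↥Q := by
    intro ⟨x, hx⟩
    refine ⟨1, ?_⟩
    apply Subtype.ext
    simpa using hQ3 x hx
  haveI : Fact (Nat.Prime 3) := ⟨Nat.prime_three⟩
  obtain ⟨g, hg⟩ := Cfsg.Agent.Lib.Helper57.exists_conj_sylow_ge_top P Q hQp
  have h3t : 3 * t ≤ n := by omega
  refine ⟨(Finset.univ : Finset (Fin (3 * t))).image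
    (fun i => g⁻¹ (⟨i.1, lt_of_lt_of_le i.2 h3t⟩ : Fin n)), ?_, ?_⟩
  · rw [Finset.card_image_of_injective]
    · rw [Finset.card_univ, Fintype.card_fin]
      omega
    · intro i i' h
      have h1 := g⁻¹.injective h
      have h2 : i.1 = i'.1 := Fin.mk.inj h1
      exact Fin.ext h2
  · intro x hx
    rw [Finset.mem_image] at hx
    obtain ⟨i, -, rfl⟩ := hx
    have hj : i.1 / 3 < t := by
      have := i.2
      omega
    refine ⟨g⁻¹ * c ⟨i.1 / 3, hj⟩ * g, ?_, ?_, ?_⟩
    · exact (Cfsg.Agent.Lib.Helper57.mem_smul_sylow P g _).mp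
        (hg (by rw [hQdef]; exact Subgroup.subset_closure ⟨_, rfl⟩))
    · have h1 := cycleType_conj (σ := c ⟨i.1 / 3, hj⟩) (τ := g⁻¹)
      rw [inv_inv] at h1
      unfold IsThreeCycle
      rw [h1]
      exact hc3 _
    · rw [Perm.mul_apply, Perm.mul_apply]
      have e : g (g⁻¹ (⟨i.1, lt_of_lt_of_le i.2 h3t⟩ : Fin n)) = ⟨i.1, lt_of_lt_of_le i.2 h3t⟩ := by
        simp
      rw [e]
      intro h
      exact hmove ⟨i.1 / 3, hj⟩ _ rfl (g⁻¹.injective h)

end Cfsg.Agent.Lib.Helper57.ThreeCyc
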