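import Mathlib
import Cfsg.Prelude.Def_Local
import Cfsg.Prelude.Def_CaseTheorems
import Cfsg.Agent.Lib.Helper30.Basic
import Cfsg.Agent.Lib.Helper57.ThreeCyc
import Cfsg.Agent.Lib.Helper57.ThreeCyc2
import Cfsg.Agent.Lib.Helper57.ThreeCyc3

/-! A permutation group with quasisimple generalized Fitting subgroup containing a 3-cycle:
`F*` is the alternating group of a set containing the support of the 3-cycle.
helper57, for S2929. -/

set_option autoImplicit false

namespace Cfsg.Agent.Lib.Helper57.ThreeCyc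

open Equiv Equiv.Perm MulAction Cfsg
open scoped Pointwise commutatorElement

set_option linter.style.haveILetI false

/-- In a finite group with quasisimple `F*`, for every element `c` either `F*` lies in the
subgroup generated by the `F*`-conjugates of `c`, or `c` is central in `F*`. -/
theorem qs_le_closure_conj_or_central {G : Type*} [Group G] [Finite G]
    (hqs : IsQuasisimple ↥(generalizedFittingSubgroup G)) (c : G) :
    generalizedFittingSubgroup G ≤
        Subgroup.closure {z | ∃ x ∈ generalizedFittingSubgroup G, z = x * c * x⁻¹} ∨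
      (c ∈ generalizedFittingSubgroup G ∧ ∀ x ∈ generalizedFittingSubgroup G, c * x = x * c) := by
  obtain ⟨L, hL⟩ : ∃ L : Subgroup G, L = generalizedFittingSubgroup G := ⟨_, rfl⟩
  rw [← hL]
  have hqs' : IsQuasisimple ↥L := by rw [hL]; exact hqs
  have hLn : L.Normal := by rw [hL]; exact Cfsg.Agent.Lib.Helper30.genFitting_normal
  obtain ⟨M, hM⟩ : ∃ M : Subgroup G, M = Subgroup.closure {z | ∃ x ∈ L, z = x * c * x⁻¹} :=
    ⟨_, rfl⟩
  rw [← hM]
  have hcM : c ∈ M := by
    rw [hM]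
    exact Subgroup.subset_closure ⟨1, L.one_mem, by simp⟩
  have hgenM : ∀ x ∈ L, x * c * x⁻¹ ∈ M := by
    intro x hx
    rw [hM]
    exact Subgroup.subset_closure ⟨x, hx, rfl⟩
  have hMn : ∀ x ∈ L, ∀ y ∈ M, x * y * x⁻¹ ∈ M := by
    intro x hx y hy
    rw [hM] at hy
    induction hy using Subgroup.closure_induction with
    | mem z hz =>
      obtain ⟨w, hw, rfl⟩ := hz
      have e : x * (w * c * w⁻¹) * x⁻¹ = (x * w) * c * (x * w)⁻¹ := by group
      rw [e]
      exact hgenM _ (L.mul_mem hx hw)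
    | one => simp
    | mul a b _ _ ha hb =>
      have e : x * (a * b) * x⁻¹ = (x * a * x⁻¹) * (x * b * x⁻¹) := by group
      rw [e]
      exact M.mul_mem ha hb
    | inv a _ ha =>
      have e : x * a⁻¹ * x⁻¹ = (x * a * x⁻¹)⁻¹ := by group
      rw [e]
      exact M.inv_mem ha
  have hN : ((M ⊓ L).subgroupOf L).Normal := by
    constructor
    intro y hy x
    rw [Subgroup.mem_subgroupOf] at hy ⊢
    exact ⟨hMn x.1 x.2 _ hy.1, L.mul_mem (L.mul_mem x.2 y.2) (L.inv_mem x.2)⟩
  rcases Cfsg.Agent.Lib.Helper30.qs_normal_eq_top_or_le_center hqs' ((M ⊓ L).subgroupOf L)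
    with h1 | h2
  · left
    rw [Subgroup.subgroupOf_eq_top] at h1
    exact h1.trans inf_le_left
  · right
    have hkmem : ∀ x ∈ L, c * x * c⁻¹ * x⁻¹ ∈ L := by
      intro x hx
      have e : c * x * c⁻¹ * x⁻¹ = (c * x * c⁻¹) * x⁻¹ := by group
      rw [e]
      exact L.mul_mem (hLn.conj_mem x hx c) (L.inv_mem hx)
    have hk : ∀ x (hx : x ∈ L), (⟨c * x * c⁻¹ * x⁻¹, hkmem x hx⟩ : L) ∈ Subgroup.center L := by
      intro x hx
      apply h2
      rw [Subgroup.mem_subgroupOf]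
      refine ⟨?_, hkmem x hx⟩
      have e : c * x * c⁻¹ * x⁻¹ = c * (x * c * x⁻¹)⁻¹ := by group
      show c * x * c⁻¹ * x⁻¹ ∈ M
      rw [e]
      exact M.mul_mem hcM (M.inv_mem (hgenM x hx))
    -- `c` centralises the commutators of `L`
    have hcc : ∀ a ∈ L, ∀ b ∈ L, c * ⁅a, b⁆ = ⁅a, b⁆ * c := by
      intro a ha b hb
      have hza := Subgroup.mem_center_iff.mp (hk a ha)
      have hzb := Subgroup.mem_center_iff.mp (hk b hb)
      have h3 := Cfsg.Agent.Lib.Helper30.commutatorElement_mul_central (⟨a, ha⟩ : L) ⟨b, hb⟩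
        ⟨c * a * c⁻¹ * a⁻¹, hkmem a ha⟩ ⟨c * b * c⁻¹ * b⁻¹, hkmem b hb⟩ hza hzb
      have h4 := congrArg Subtype.val h3
      have h5 : ⁅a * (c * a * c⁻¹ * a⁻¹), b * (c * b * c⁻¹ * b⁻¹)⁆ = ⁅a, b⁆ := h4
      have ea : a * (c * a * c⁻¹ * a⁻¹) = c * a * c⁻¹ := by
        have h6 := congrArg Subtype.val (hza ⟨a, ha⟩)
        have h7 : a * (c * a * c⁻¹ * a⁻¹) = (c * a * c⁻¹ * a⁻¹) * a := h6
        rw [h7]
        group
      have eb : b * (c * b * c⁻¹ * b⁻¹) = c * b * c⁻¹ := by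
        have h6 := congrArg Subtype.val (hzb ⟨b, hb⟩)
        have h7 : b * (c * b * c⁻¹ * b⁻¹) = (c * b * c⁻¹ * b⁻¹) * b := h6
        rw [h7]
        group
      rw [ea, eb] at h5
      have h8 : c * ⁅a, b⁆ * c⁻¹ = ⁅c * a * c⁻¹, c * b * c⁻¹⁆ := by
        rw [commutatorElement_def, commutatorElement_def]
        group
      rw [h5] at h8
      calc c * ⁅a, b⁆ = (c * ⁅a, b⁆ * c⁻¹) * c := by group
        _ = ⁅a, b⁆ * c := by rw [h8]
    have hperf : ⁅L, L⁆ = L := by
      have := hqs'.1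
      exact (Subgroup.isPerfect_iff).mp this
    have hcL : ∀ x ∈ L, c * x = x * c := by
      have h3 : ⁅L, L⁆ ≤ Subgroup.centralizer {c} := by
        rw [Subgroup.commutator_le]
        intro a ha b hb
        rw [Subgroup.mem_centralizer_iff]
        intro h hh
        rw [Set.mem_singleton_iff] at hh
        subst hh
        exact hcc a ha b hb
      intro x hx
      rw [← hperf] at hx
      have h4 := h3 hx
      rw [Subgroup.mem_centralizer_iff] at h4
      exact h4 c rfl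
    refine ⟨?_, hcL⟩
    rw [hL]
    apply Cfsg.Agent.Lib.Helper30.centralizer_genFitting_le
    rw [Subgroup.mem_centralizer_iff]
    intro x hx
    rw [← hL] at hx
    exact (hcL x hx).symm

/-- If `F*(H)` is quasisimple and `H ≤ Sym(α)` contains a 3-cycle `c`, then `F*(H)` is the
alternating group of a set `Ω` of at least five points containing the support of `c`. -/
theorem fstar_eq_alt {α : Type*} [Fintype α] [DecidableEq α] (H : Subgroup (Perm α))
    (hF : IsQuasisimple ↥(generalizedFittingSubgroup ↥H)) (c : Perm α) (hc : c.IsThreeCycle)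
    (hcH : c ∈ H) :
    ∃ Ω : Finset α, (∀ x, c x ≠ x → x ∈ Ω) ∧ 5 ≤ Ω.card ∧
      (generalizedFittingSubgroup ↥H).map H.subtype =
        (alternatingGroup {x // x ∈ Ω}).map (ofSubtype : Perm {x // x ∈ Ω} →* Perm α) := by
  classical
  obtain ⟨L, hLdef⟩ : ∃ L : Subgroup (Perm α),
      L = (generalizedFittingSubgroup ↥H).map H.subtype := ⟨_, rfl⟩
  rw [← hLdef]
  have hLH : L ≤ H := by
    rw [hLdef]
    exact Subgroup.map_subtype_le _
  have hperf : ⁅L, L⁆ = L := by
    have h0 := hF.1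
    have h1 : ⁅generalizedFittingSubgroup ↥H, generalizedFittingSubgroup ↥H⁆ =
        generalizedFittingSubgroup ↥H := (Subgroup.isPerfect_iff).mp h0
    rw [hLdef, ← Subgroup.map_commutator, h1]
  have hLne : L ≠ ⊥ := by
    have h0 := Cfsg.Agent.Lib.Helper30.qs_nontrivial hF
    have h1 : generalizedFittingSubgroup ↥H ≠ ⊥ := (Subgroup.nontrivial_iff_ne_bot _).mp h0
    intro h
    apply h1
    rw [hLdef] at h
    exact (Subgroup.map_eq_bot_iff_of_injective _ H.subtype_injective).mp h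
  have hLn : ∀ h ∈ H, ∀ x ∈ L, h * x * h⁻¹ ∈ L := by
    intro h hh x hx
    rw [hLdef] at hx ⊢
    obtain ⟨x₀, hx₀, rfl⟩ := hx
    have hn : (generalizedFittingSubgroup ↥H).Normal :=
      Cfsg.Agent.Lib.Helper30.genFitting_normal
    exact ⟨⟨h, hh⟩ * x₀ * ⟨h, hh⟩⁻¹, hn.conj_mem x₀ hx₀ ⟨h, hh⟩, rfl⟩
  rcases qs_le_closure_conj_or_central hF (⟨c, hcH⟩ : ↥H) with h1 | ⟨h2, h3⟩
  · obtain ⟨T, hT⟩ : ∃ T : Set (Perm α), T = {z | ∃ x ∈ L, z = x * c * x⁻¹} := ⟨_, rfl⟩
    obtain ⟨M, hM⟩ : ∃ M : Subgroup (Perm α), M = Subgroup.closure T := ⟨_, rfl⟩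
    have hLM : L ≤ M := by
      rw [hLdef, hM]
      refine (Subgroup.map_mono h1).trans ?_
      rw [MonoidHom.map_closure]
      apply Subgroup.closure_mono
      rintro _ ⟨z, ⟨x, hx, rfl⟩, rfl⟩
      rw [hT]
      refine ⟨x.1, ?_, rfl⟩
      rw [hLdef]
      exact Subgroup.mem_map_of_mem _ hx
    have hT3 : ∀ z ∈ T, z.IsThreeCycle := by
      intro z hz
      rw [hT] at hz
      obtain ⟨x, -, rfl⟩ := hz
      unfold IsThreeCycle
      rw [cycleType_conj]
      exact hc
    have hcT : c ∈ T := by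
      rw [hT]
      exact ⟨1, L.one_mem, by simp⟩
    have hcM : c ∈ M := by
      rw [hM]
      exact Subgroup.subset_closure hcT
    have hMH : M ≤ H := by
      rw [hM, Subgroup.closure_le]
      intro z hz
      rw [hT] at hz
      obtain ⟨x, hx, rfl⟩ := hz
      exact H.mul_mem (H.mul_mem (hLH hx) hcH) (H.inv_mem (hLH hx))
    obtain ⟨a, ha⟩ : ∃ a, c a ≠ a := by
      by_contra h
      push Not at h
      have h1 : c = 1 := Perm.ext h
      have h2 := hc.card_support
      rw [h1, support_one, Finset.card_empty] at h2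
      omega
    obtain ⟨Ω, hΩ⟩ : ∃ Ω : Finset α,
        Ω = Finset.univ.filter (fun y => ∃ g ∈ M, g a = y) := ⟨_, rfl⟩
    have hmemΩ : ∀ y, y ∈ Ω ↔ ∃ g ∈ M, g a = y := by
      intro y
      rw [hΩ, Finset.mem_filter]
      simp
    have hsupp : ∀ z ∈ T, ∀ y, z y ≠ y → y ∈ Ω := by
      intro z hz y hy
      rw [hT] at hz
      obtain ⟨x, hx, rfl⟩ := hz
      have h4 : c (x⁻¹ y) ≠ x⁻¹ y := by
        intro h
        apply hy
        rw [Perm.mul_apply, Perm.mul_apply, h]
        simp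
      obtain ⟨i, hi⟩ := hc.isCycle.exists_zpow_eq ha h4
      rw [hmemΩ]
      refine ⟨x * c ^ i, M.mul_mem (hLM hx) (M.zpow_mem hcM i), ?_⟩
      rw [Perm.mul_apply, hi]
      simp
    have htrans : ∀ x ∈ Ω, ∀ y ∈ Ω, ∃ g ∈ Subgroup.closure T, g x = y := by
      intro x hx y hy
      rw [hmemΩ] at hx hy
      obtain ⟨g, hg, rfl⟩ := hx
      obtain ⟨g', hg', rfl⟩ := hy
      refine ⟨g' * g⁻¹, ?_, ?_⟩
      · rw [← hM]
        exact M.mul_mem hg' (M.inv_mem hg)
      · rw [Perm.mul_apply]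
        simp
    have hMeq := closure_threeCycles_eq T hT3 ⟨c, hcT⟩ Ω hsupp htrans
    rw [← hM] at hMeq
    have hLM' : L ≤ (alternatingGroup {x // x ∈ Ω}).map
        (ofSubtype : Perm {x // x ∈ Ω} →* Perm α) := by
      rw [← hMeq]
      exact hLM
    obtain ⟨h5, hLeq⟩ := eq_of_normal_in_alt Ω L hLM'
      (fun g hg x hx => hLn g (hMH (by rw [hMeq]; exact hg)) x hx) hperf hLne
    exact ⟨Ω, fun x hx => hsupp c hcT x hx, h5, hLeq⟩
  · exfalso
    apply not_central_threeCycle L hperf c hc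
    · rw [hLdef]
      exact ⟨⟨c, hcH⟩, h2, rfl⟩
    · intro x hx
      rw [hLdef] at hx
      obtain ⟨x₀, hx₀, rfl⟩ := hx
      exact congrArg Subtype.val (h3 x₀ hx₀)

end Cfsg.Agent.Lib.Helper57.ThreeCyc
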